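import Cfsg.Agent.Lib.Helper3.BG12Pieces

/-! B&G 13.3(a) = S1427 (helper3), piece P27D. -/

set_option autoImplicit false
set_option linter.unusedVariables false

open Cfsg Cfsg.Agent.Lib.Helper32 Cfsg.Agent.Lib.Helper32.BG10 Cfsg.Agent.Lib.Helper3.BG12 Cfsg.Agent.Lib.Helper3.BG12S

namespace Cfsg.Agent.Lib.Helper31.BG13

universe u

variable {G : Type u} [Group G] [Finite G]

theorem exists_cj_of_sigma_sigma_nilpotent (hG : IsMinSimpleOddOrder G) {M H : Subgroup G}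
    (hM : IsCoatom M) (hH : IsCoatom H) (hnil : Group.IsNilpotent ↥(sigmaCore H)) {q : ℕ}
    [Fact q.Prime] (hqM : q ∈ sigma M) (hqH : q ∈ sigma H) : ∃ g : G, M = cj g H := by
  obtain ⟨Q, hQ⟩ := sylSet_nonempty q (sigmaCore H)
  have hQH : Q ∈ sylSet q H := (sylSet_sigmaCore_iff hG hH hqH).mp hQ
  have h1 : Subgroup.normalizer ((sigmaCore H : Subgroup G) : Set G) ≤
      Subgroup.normalizer (Q : Set G) := normalizer_le_of_nilpotent hnil hQ
  have h2 : H ≤ Subgroup.normalizer ((sigmaCore H : Subgroup G) : Set G) :=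
    le_normalizer_map_subtype H _
  have hHN : H ≤ Subgroup.normalizer (Q : Set G) := h2.trans h1
  have hQtop := (sigma_sylSet hqH hQH).2
  obtain ⟨Q₁, hQ₁⟩ := sylSet_nonempty q M
  obtain ⟨hN₁, hQ₁top⟩ := sigma_sylSet hqM hQ₁
  obtain ⟨n, -, hn⟩ := sylSet_conj hQtop hQ₁top
  refine ⟨n, ?_⟩
  have hle : cj n H ≤ M := by
    intro x hx
    apply hN₁
    have h := hHN (mem_cj.1 hx)
    rw [← cj_eq_self_iff] at h ⊢
    rw [← hn, ← cj_mul]
    have e : x * n = n * (n⁻¹ * x * n) := by group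
    rw [e, cj_mul, h]
  exact ((isCoatom_cj n hH).le_iff_eq hM.1).1 hle

theorem coprime_of_sigma (hG : IsMinSimpleOddOrder G) {M : Subgroup G} {p : ℕ} [Fact p.Prime]
    (hp : p ∉ sigma M) {T Y : Subgroup G} (hT : IsPGroup p T) (hY : Y ≤ sigmaCore M) :
    (Nat.card T).Coprime (Nat.card Y) := by
  have hpp : p.Prime := Fact.out
  obtain ⟨k, hk⟩ := IsPGroup.iff_card.mp hT
  rw [hk]
  apply Nat.Coprime.pow_left
  rw [Nat.Prime.coprime_iff_not_dvd hpp]
  intro hdvd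
  exact hp (mem_sigma_of_dvd_sigmaCore hpp (hdvd.trans (Subgroup.card_dvd_of_le hY)))

end Cfsg.Agent.Lib.Helper31.BG13
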