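import Cfsg.Agent.Lib.Helper3.BG12Pieces

/-! B&G 13.3(a) = S1427 (helper3), piece P27R. -/

set_option autoImplicit false
set_option linter.unusedVariables false
set_option linter.unusedSectionVars false

open Cfsg Cfsg.Agent.Lib.Helper32 Cfsg.Agent.Lib.Helper32.BG10 Cfsg.Agent.Lib.Helper3.BG12 Cfsg.Agent.Lib.Helper3.BG12S

namespace Cfsg.Agent.Lib.Helper31.BG13

universe u

variable {G : Type u} [Group G] [Finite G]

/-- a subgroup of exponent `p` inside a cyclic subgroup has order at most `p` -/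
theorem p27r_card_le {p : ℕ} (hp : p.Prime) {K C : Subgroup G} (hKC : K ≤ C) (hC : IsCyclic ↥C)
    (hK : ∀ a ∈ K, a ^ p = 1) : Nat.card K ≤ p := by
  have hcyc : IsCyclic ↥(K.subgroupOf C) := inferInstance
  obtain ⟨g, hg⟩ := hcyc.exists_generator
  have hcard : Nat.card ↥(K.subgroupOf C) = orderOf g :=
    (orderOf_eq_card_of_forall_mem_zpowers hg).symm
  have hgp : g ^ p = 1 := by
    have h1 : ((g : ↥C) : G) ∈ K := Subgroup.mem_subgroupOf.1 g.2
    have h2 := hK _ h1
    apply Subtype.ext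
    apply Subtype.ext
    simpa using h2
  have hord : orderOf g ≤ p := Nat.le_of_dvd hp.pos (orderOf_dvd_of_pow_eq_one hgp)
  rw [← Nat.card_congr (Subgroup.subgroupOfEquivOfLe hKC).toEquiv, hcard]
  exact hord

theorem cyclic_sylow_compl (hG : IsMinSimpleOddOrder G) {M : Subgroup G} (hM : IsCoatom M)
    {E : Subgroup G} (hE : IsComplIn E (sigmaCore M) M) {p : ℕ} [Fact p.Prime] (S : Sylow p E)
    (hS1 : (S : Subgroup E) ≠ ⊥) (hSc : IsCyclic (S : Subgroup E)) :
    p ∉ sigma M ∧ PRankLE p 1 M ∧ IsPGroup p ((S : Subgroup E).map E.subtype) ∧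
      IsCyclic ↥((S : Subgroup E).map E.subtype) := by
  have hpp : p.Prime := Fact.out
  have hsyl : (S : Subgroup E).map E.subtype ∈ sylSet p E := mem_sylSet_of_sylow S
  have hpg : IsPGroup p ((S : Subgroup E).map E.subtype) := isPGroup_of_mem_sylSet hsyl
  have hcyc : IsCyclic ↥((S : Subgroup E).map E.subtype) :=
    isCyclic_of_surjective ((S : Subgroup E).equivMapOfInjective E.subtype E.subtype_injective)
      ((S : Subgroup E).equivMapOfInjective E.subtype E.subtype_injective).surjective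
  have hne : (S : Subgroup E).map E.subtype ≠ ⊥ := by
    intro h
    apply hS1
    rw [eq_bot_iff]
    intro x hx
    have h1 : E.subtype x ∈ (S : Subgroup E).map E.subtype := Subgroup.mem_map_of_mem _ hx
    rw [h, Subgroup.mem_bot] at h1
    rw [Subgroup.mem_bot]
    exact Subtype.ext h1
  have hSE : (S : Subgroup E).map E.subtype ≤ E := hsyl.1
  have hSM : (S : Subgroup E).map E.subtype ≤ M := hSE.trans hE.1
  -- (1)
  have h1 : p ∉ sigma M := by
    intro hp
    have hle := pgroup_le_sigmaCore hG hM hp hpg hSM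
    apply hne
    rw [eq_bot_iff, ← hE.2.2.1]
    exact le_inf hSE hle
  -- (2)
  have hcard : Nat.card M = Nat.card E * Nat.card (sigmaCore M) :=
    Cfsg.Agent.Lib.Helper8.BG10.q12c_card_of_complIn hE
  have hnd : ¬ p ∣ Nat.card (sigmaCore M) := fun h => h1 (mem_sigma_of_dvd_sigmaCore hpp h)
  have hfac : (Nat.card M).factorization p = (Nat.card E).factorization p := by
    rw [hcard, Nat.factorization_mul Nat.card_pos.ne' Nat.card_pos.ne', Finsupp.add_apply,
      Nat.factorization_eq_zero_of_not_dvd hnd, add_zero]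
  have hsylM : (S : Subgroup E).map E.subtype ∈ sylSet p M := ⟨hSM, by rw [hfac]; exact hsyl.2⟩
  refine ⟨h1, ?_, hpg, hcyc⟩
  -- (3)
  by_contra hr
  obtain ⟨F, hFM, hFc, hFp, hFcard⟩ := exists_of_not_prankLE hr
  have hFpg : IsPGroup p F := by
    intro g
    refine ⟨1, ?_⟩
    apply Subtype.ext
    simpa using hFp g.1 g.2
  obtain ⟨R, hR, hFR⟩ := exists_sylSet_ge hFpg hFM
  obtain ⟨n, hn, hnR⟩ := sylSet_conj hR hsylM
  have hle : cj n F ≤ (S : Subgroup E).map E.subtype := by
    rw [← hnR]; exact cj_mono n hFR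
  have hexp : ∀ a ∈ cj n F, a ^ p = 1 := by
    intro a ha
    have h2 := hFp _ (mem_cj.1 ha)
    have e : (n⁻¹ * a * n) ^ p = n⁻¹ * a ^ p * n := by
      have := conj_pow (a := n⁻¹) (b := a) (i := p)
      simpa using this
    rw [e] at h2
    have : a ^ p = n * (n⁻¹ * a ^ p * n) * n⁻¹ := by group
    rw [this, h2]; group
  have hcardle := p27r_card_le hpp hle hcyc hexp
  rw [card_cj] at hcardle
  rw [pow_one] at hFcard
  omega

end Cfsg.Agent.Lib.Helper31.BG13
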