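import Mathlib
import Cfsg.Agent.Lib.Helper1.Hall

set_option autoImplicit false

open Pointwise

namespace Cfsg.Agent.Lib.Helper31.BG

universe u

theorem card_mul_relIndex_of_le {G : Type*} [Group G] {H K : Subgroup G} (h : H ≤ K) :
    Nat.card H * H.relIndex K = Nat.card K := by
  rw [← Nat.card_congr (Subgroup.subgroupOfEquivOfLe h).toEquiv]
  exact Subgroup.card_mul_index (H.subgroupOf K)

theorem conj_of_sup_eq {G : Type u} [Group G] [Finite G] (hsol : Group.IsSolvable G)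
    (F : Subgroup G) [F.Normal] (hFc : ∀ a ∈ F, ∀ b ∈ F, a * b = b * a)
    (hcop : (Nat.card ↥F).Coprime F.index) (A B : Subgroup G)
    (hc : Nat.card ↥A = Nat.card ↥B) (hW : A ⊓ F = B ⊓ F) (hD : A ⊔ F = B ⊔ F) :
    ∃ g : G, B = A.map (MulAut.conj g).toMonoidHom := by
  have hsol' := hsol
  have hmA : Nat.card ↥(A ⊓ F) * F.relIndex A = Nat.card A := by
    rw [← Subgroup.inf_relIndex_left]
    exact card_mul_relIndex_of_le inf_le_left
  have hmB : Nat.card ↥(B ⊓ F) * F.relIndex B = Nat.card B := by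
    rw [← Subgroup.inf_relIndex_left]
    exact card_mul_relIndex_of_le inf_le_left
  have hmeq : F.relIndex B = F.relIndex A := by
    rw [← Subgroup.relIndex_sup_right B F, ← hD, Subgroup.relIndex_sup_right]
  have hmdvd : F.relIndex A ∣ F.index := Subgroup.relIndex_dvd_index_of_normal F A
  have hcopF : (F.relIndex A).Coprime (Nat.card F) :=
    (Nat.Coprime.coprime_dvd_right hmdvd hcop).symm
  have hWF : Nat.card ↥(A ⊓ F) ∣ Nat.card F := Subgroup.card_dvd_of_le inf_le_right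
  have hcopW : (F.relIndex A).Coprime (Nat.card ↥(A ⊓ F)) :=
    Nat.Coprime.coprime_dvd_right hWF hcopF
  have hDcard : Nat.card ↥(A ⊔ F) = F.relIndex A * Nat.card F := by
    have h1 := card_mul_relIndex_of_le (le_sup_right : F ≤ A ⊔ F)
    rw [Subgroup.relIndex_sup_right] at h1
    rw [← h1, mul_comm]
  have hAcard : Nat.card ↥A = F.relIndex A * Nat.card ↥(A ⊓ F) := by
    rw [← hmA, mul_comm]
  have hBcard : Nat.card ↥B = F.relIndex A * Nat.card ↥(A ⊓ F) := by
    rw [← hc]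
    exact hAcard
  obtain ⟨H1', hH1'⟩ := Cfsg.Agent.Lib.Helper1.hall_exists (G := ↥A) (F.relIndex A)
    (Nat.card ↥(A ⊓ F)) hAcard hcopW
  obtain ⟨H2', hH2'⟩ := Cfsg.Agent.Lib.Helper1.hall_exists (G := ↥B) (F.relIndex A)
    (Nat.card ↥(A ⊓ F)) hBcard hcopW
  have hH1 : Nat.card ↥(H1'.map A.subtype) = F.relIndex A := by
    rw [Subgroup.card_map_of_injective A.subtype_injective, hH1']
  have hH2 : Nat.card ↥(H2'.map B.subtype) = F.relIndex A := by
    rw [Subgroup.card_map_of_injective B.subtype_injective, hH2']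
  have hH1A : H1'.map A.subtype ≤ A := Subgroup.map_subtype_le _
  have hH2B : H2'.map B.subtype ≤ B := Subgroup.map_subtype_le _
  have hAle : A ≤ (A ⊓ F) ⊔ H1'.map A.subtype := by
    have hle : (A ⊓ F) ⊔ H1'.map A.subtype ≤ A := sup_le inf_le_left hH1A
    have h1 : Nat.card ↥(A ⊓ F) ∣ Nat.card ↥((A ⊓ F) ⊔ H1'.map A.subtype) :=
      Subgroup.card_dvd_of_le le_sup_left
    have h2 : F.relIndex A ∣ Nat.card ↥((A ⊓ F) ⊔ H1'.map A.subtype) := by
      rw [← hH1]
      exact Subgroup.card_dvd_of_le le_sup_right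
    have h3 := hcopW.symm.mul_dvd_of_dvd_of_dvd h1 h2
    rw [hmA] at h3
    exact (Subgroup.eq_of_le_of_card_ge hle (Nat.le_of_dvd Nat.card_pos h3)).ge
  have hnormW : ∀ d ∈ A ⊔ F, ∀ w ∈ A ⊓ F, d * w * d⁻¹ ∈ A ⊓ F := by
    intro d hd w hw
    obtain ⟨a, ha, f, hf, rfl⟩ := Subgroup.mem_sup_of_normal_right.mp hd
    have h1 : f * w * f⁻¹ = w := by rw [hFc f hf w hw.2, mul_inv_cancel_right]
    have h2 : a * f * w * (a * f)⁻¹ = a * (f * w * f⁻¹) * a⁻¹ := by group
    rw [h2, h1]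
    exact ⟨A.mul_mem (A.mul_mem ha hw.1) (A.inv_mem ha),
      (inferInstance : F.Normal).conj_mem w hw.2 a⟩
  have hH1D : H1'.map A.subtype ≤ A ⊔ F := hH1A.trans le_sup_left
  have hBD : B ≤ A ⊔ F := by
    rw [hD]
    exact le_sup_left
  have hH2D : H2'.map B.subtype ≤ A ⊔ F := hH2B.trans hBD
  obtain ⟨g, hg⟩ := Cfsg.Agent.Lib.Helper1.hall_conj (G := ↥(A ⊔ F)) (F.relIndex A)
    (Nat.card F) hDcard hcopF
    ((H1'.map A.subtype).subgroupOf (A ⊔ F)) ((H2'.map B.subtype).subgroupOf (A ⊔ F))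
    (by rw [Nat.card_congr (Subgroup.subgroupOfEquivOfLe hH1D).toEquiv, hH1])
    (by rw [Nat.card_congr (Subgroup.subgroupOfEquivOfLe hH2D).toEquiv, hH2])
  have hconj : ∀ x ∈ H1'.map A.subtype, (g : G) * x * (g : G)⁻¹ ∈ H2'.map B.subtype := by
    intro x hx
    have h1 : (⟨x, hH1D hx⟩ : ↥(A ⊔ F)) ∈ (H1'.map A.subtype).subgroupOf (A ⊔ F) := hx
    have h2 : MulAut.conj g • (⟨x, hH1D hx⟩ : ↥(A ⊔ F)) ∈
        MulAut.conj g • ((H1'.map A.subtype).subgroupOf (A ⊔ F)) :=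
      Subgroup.smul_mem_pointwise_smul _ _ _ h1
    rw [hg] at h2
    exact h2
  refine ⟨(g : G), ?_⟩
  symm
  apply Subgroup.eq_of_le_of_card_ge
  · calc A.map (MulAut.conj (g : G)).toMonoidHom
        ≤ ((A ⊓ F) ⊔ H1'.map A.subtype).map (MulAut.conj (g : G)).toMonoidHom :=
          Subgroup.map_mono hAle
      _ = (A ⊓ F).map (MulAut.conj (g : G)).toMonoidHom ⊔
            (H1'.map A.subtype).map (MulAut.conj (g : G)).toMonoidHom :=
          Subgroup.map_sup _ _ _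
      _ ≤ B := by
        apply sup_le
        · rintro _ ⟨w, hw, rfl⟩
          have h1 := hnormW (g : G) g.2 w hw
          rw [hW] at h1
          exact h1.1
        · rintro _ ⟨x, hx, rfl⟩
          exact hH2B (hconj x hx)
  · rw [Subgroup.card_map_of_injective (MulAut.conj (g : G)).injective, hc]

end Cfsg.Agent.Lib.Helper31.BG
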