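import Mathlib
import Cfsg.Agent.Lib.Helper4.FCDefs

/-!
# Project FC (S4146; architect helper4), piece LFEND (helper31)
-/

namespace Cfsg.Agent.Lib.Helper4.FC

universe u

theorem fc_lfend : LF1Stmt.{u} → LFK1Stmt.{u} → LFEndStmt.{u} := by
  intro _ hK1 G _ _ n m A H x hctx hKH hxH hrel hxK
  have hm := hK1 G n m A H hctx
  obtain ⟨hFour, -⟩ := hctx
  obtain ⟨-, hm1, -⟩ := hFour
  have hKleH : CHA A H ≤ H := by
    unfold CHA
    exact inf_le_left
  have hKle : CHA A H ≤ Cen x ⊓ H := by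
    intro k hk
    refine Subgroup.mem_inf.2 ⟨?_, hKleH hk⟩
    rw [Subgroup.mem_centralizer_iff]
    intro t ht
    rw [Set.mem_singleton_iff] at ht
    rw [ht]
    exact (hKH k hk x hxH).symm
  have hxC : x ∈ Cen x ⊓ H := by
    refine Subgroup.mem_inf.2 ⟨?_, hxH⟩
    rw [Subgroup.mem_centralizer_iff]
    intro t ht
    rw [Set.mem_singleton_iff] at ht
    rw [ht]
  have e1 : Nat.card (CHA A H) * m = Nat.card H := by
    have h := Subgroup.relIndex_mul_relIndex ⊥ (CHA A H) H bot_le hKleH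
    rw [Subgroup.relIndex_bot_left, Subgroup.relIndex_bot_left, hm] at h
    exact h
  have e2 : Nat.card ↥(Cen x ⊓ H) * m = Nat.card H := by
    have h := Subgroup.relIndex_mul_relIndex ⊥ (Cen x ⊓ H) H bot_le inf_le_right
    rw [Subgroup.relIndex_bot_left, Subgroup.relIndex_bot_left, Subgroup.inf_relIndex_right,
      hrel] at h
    exact h
  have hcard : Nat.card ↥(Cen x ⊓ H) ≤ Nat.card (CHA A H) := by
    have h : Nat.card ↥(Cen x ⊓ H) * m = Nat.card (CHA A H) * m := by rw [e1, e2]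
    exact (Nat.eq_of_mul_eq_mul_right (by omega) h).le
  have heq := Subgroup.eq_of_le_of_card_ge hKle hcard
  apply hxK
  rw [heq]
  exact hxC

end Cfsg.Agent.Lib.Helper4.FC
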