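import Mathlib
import Cfsg.Agent.Lib.Helper4.FCDefs

/-!
# Project FC (S4146; architect helper4), piece LFZ (helper31)

In the context of Lemma F there is an element of `H`, central in `H`, that does not centralize `A`.
-/

namespace Cfsg.Agent.Lib.Helper4.FC

universe u

theorem fc_lfz : LF1Stmt.{u} → LFDecStmt.{u} → L3Stmt.{u} → LFZStmt.{u} := by
  intro hLF1 hDec hL3 G _ _ n m A H hctx
  have hctx' := hctx
  obtain ⟨hFour, hAn, hAab, hcop, hAH, hAHtop, hAcs, hrel⟩ := hctx'
  obtain ⟨hn1, hm1, hnm, hall, ⟨g, hg⟩, -, -⟩ := hFour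
  obtain ⟨y, x, hyA, hxH, hyx, hord, hcs⟩ := hDec G A H g hAn hAab hcop hAH hAHtop
  have h3 := hL3 G y x hyx hord
  have hcsy : cs y = 1 := by
    rcases hAcs y hyA with h | h
    · exact h
    · exfalso
      have hle : Cen (y * x) ≤ Cen y := by
        rw [h3]
        exact inf_le_left
      have hdvd : cs y ∣ cs (y * x) := Subgroup.index_dvd_of_le hle
      rw [h, hcs, hg] at hdvd
      have h1 := Nat.Coprime.eq_one_of_dvd hnm.symm hdvd
      omega
  have hcsx : cs x = n := by
    have hy : Cen y = ⊤ := Subgroup.index_eq_one.1 hcsy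
    rw [hy, top_inf_eq] at h3
    have h1 : cs (y * x) = cs x := by
      show (Cen (y * x)).index = (Cen x).index
      rw [h3]
    rw [← h1, hcs, hg]
  obtain ⟨hα, hβ, hprod⟩ := hLF1 G n m A H x hctx hxH
  rw [hcsx] at hprod
  have hβ1 : (Cen x).relIndex H = 1 ∧ (Cen x).relIndex A = n := by
    rcases hα with ha | ha <;> rcases hβ with hb | hb
    · rw [ha, hb] at hprod
      omega
    · rw [ha, hb] at hprod
      exfalso
      have hnm' : n = m := by omega
      rw [hnm'] at hnm
      have h1 := (Nat.coprime_self m).1 hnm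
      omega
    · exact ⟨hb, ha⟩
    · rw [ha, hb] at hprod
      exfalso
      have h1 : n * 1 < n * m := Nat.mul_lt_mul_of_pos_left hm1 (by omega)
      omega
  obtain ⟨hb, ha⟩ := hβ1
  refine ⟨x, hxH, ?_, ?_⟩
  · intro h hh
    have hle : H ≤ Cen x := Subgroup.relIndex_eq_one.1 hb
    have h1 := hle hh
    rw [Subgroup.mem_centralizer_iff] at h1
    exact h1 x rfl
  · intro hx
    unfold CHA at hx
    have hxc : x ∈ Subgroup.centralizer (A : Set G) := (Subgroup.mem_inf.1 hx).2
    have hle : A ≤ Cen x := by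
      intro a haA
      rw [Subgroup.mem_centralizer_iff]
      intro t ht
      rw [Set.mem_singleton_iff] at ht
      rw [ht]
      exact ((Subgroup.mem_centralizer_iff.1 hxc) a haA).symm
    have h1 : (Cen x).relIndex A = 1 := Subgroup.relIndex_eq_one.2 hle
    omega

end Cfsg.Agent.Lib.Helper4.FC
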