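import Mathlib
import Cfsg.Agent.Lib.Helper4.FCDefs

/-!
# Project FC (S4146; architect helper4), piece MSUB (helper31)

`M = {x : cs x ∈ {1, m}}` is a normal subgroup when `m < n`.
-/

namespace Cfsg.Agent.Lib.Helper4.FC

universe u

theorem msub_helper31_cs_one {G : Type u} [Group G] : cs (1 : G) = 1 := by
  show (Cen (1 : G)).index = 1
  rw [Subgroup.index_eq_one, eq_top_iff]
  intro g _
  rw [Subgroup.mem_centralizer_iff]
  intro h hh
  rw [Set.mem_singleton_iff] at hh
  rw [hh, one_mul, mul_one]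

theorem msub_helper31_cen_inv {G : Type u} [Group G] (x : G) : Cen x⁻¹ = Cen x := by
  ext g
  rw [Subgroup.mem_centralizer_iff, Subgroup.mem_centralizer_iff]
  constructor
  · intro h t ht
    rw [Set.mem_singleton_iff] at ht
    rw [ht]
    have h1 := h x⁻¹ rfl
    calc x * g = x * (g * x⁻¹) * x := by group
      _ = x * (x⁻¹ * g) * x := by rw [h1]
      _ = g * x := by group
  · intro h t ht
    rw [Set.mem_singleton_iff] at ht
    rw [ht]
    have h1 := h x rfl
    calc x⁻¹ * g = x⁻¹ * (g * x) * x⁻¹ := by group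
      _ = x⁻¹ * (x * g) * x⁻¹ := by rw [h1]
      _ = g * x⁻¹ := by group

theorem msub_helper31_cen_conj {G : Type u} [Group G] (g x : G) :
    Cen (g * x * g⁻¹) = (Cen x).map (MulAut.conj g).toMonoidHom := by
  ext h
  rw [Subgroup.mem_map]
  constructor
  · intro hh
    refine ⟨g⁻¹ * h * g, ?_, ?_⟩
    · rw [Subgroup.mem_centralizer_iff] at hh ⊢
      intro t ht
      rw [Set.mem_singleton_iff] at ht
      rw [ht]
      have h1 := hh (g * x * g⁻¹) rfl
      calc x * (g⁻¹ * h * g) = g⁻¹ * ((g * x * g⁻¹) * h) * g := by group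
        _ = g⁻¹ * (h * (g * x * g⁻¹)) * g := by rw [h1]
        _ = g⁻¹ * h * g * x := by group
    · show g * (g⁻¹ * h * g) * g⁻¹ = h
      group
  · rintro ⟨k, hk, rfl⟩
    rw [Subgroup.mem_centralizer_iff] at hk ⊢
    intro t ht
    rw [Set.mem_singleton_iff] at ht
    rw [ht]
    have h1 := hk x rfl
    show g * x * g⁻¹ * (g * k * g⁻¹) = g * k * g⁻¹ * (g * x * g⁻¹)
    calc g * x * g⁻¹ * (g * k * g⁻¹) = g * (x * k) * g⁻¹ := by group
      _ = g * (k * x) * g⁻¹ := by rw [h1]
      _ = g * k * g⁻¹ * (g * x * g⁻¹) := by group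

theorem msub_helper31_cs_conj {G : Type u} [Group G] (g x : G) :
    cs (g * x * g⁻¹) = cs x := by
  show (Cen (g * x * g⁻¹)).index = (Cen x).index
  rw [msub_helper31_cen_conj]
  exact Subgroup.index_map_equiv (Cen x) (MulAut.conj g)

theorem fc_msub : MSubStmt.{u} := by
  intro G _ _ n m hFour hmn
  obtain ⟨hn1, hm1, hnm, hall, -, -, -⟩ := hFour
  have hmul : ∀ x y : G, (cs x = 1 ∨ cs x = m) → (cs y = 1 ∨ cs y = m) →
      (cs (x * y) = 1 ∨ cs (x * y) = m) := by
    intro x y hx hy
    have hle : Cen x ⊓ Cen y ≤ Cen (x * y) := by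
      intro g hg
      obtain ⟨h1, h2⟩ := Subgroup.mem_inf.1 hg
      rw [Subgroup.mem_centralizer_iff] at h1 h2 ⊢
      intro t ht
      rw [Set.mem_singleton_iff] at ht
      rw [ht, mul_assoc, h2 y rfl, ← mul_assoc, h1 x rfl, mul_assoc]
    have hdvd : cs (x * y) ∣ (Cen x ⊓ Cen y).index := Subgroup.index_dvd_of_le hle
    have hI : (Cen x ⊓ Cen y).relIndex (Cen x) * cs x = (Cen x ⊓ Cen y).index :=
      Subgroup.relIndex_mul_index inf_le_left
    have hIle : (Cen x ⊓ Cen y).index ≤ cs x * cs y := Subgroup.index_inf_le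
    have hcsx_pos : 0 < cs x := by
      rcases hx with h | h <;> rw [h] <;> omega
    have hr_le : (Cen x ⊓ Cen y).relIndex (Cen x) ≤ cs y := by
      rw [← hI, mul_comm] at hIle
      exact Nat.le_of_mul_le_mul_left hIle hcsx_pos
    have hcsy_le : cs y ≤ m := by
      rcases hy with h | h <;> rw [h] <;> omega
    have hcop : Nat.Coprime n (cs x) := by
      rcases hx with h | h
      · rw [h]
        exact Nat.coprime_one_right n
      · rw [h]
        exact hnm
    have hr_pos : 0 < (Cen x ⊓ Cen y).relIndex (Cen x) :=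
      Nat.pos_of_ne_zero Subgroup.index_ne_zero_of_finite
    rcases hall (x * y) with h | h | h | h
    · exact Or.inl h
    · exfalso
      have hn_dvd : n ∣ (Cen x ⊓ Cen y).relIndex (Cen x) * cs x := by
        rw [hI, ← h]
        exact hdvd
      have h1 := Nat.le_of_dvd hr_pos (Nat.Coprime.dvd_of_dvd_mul_right hcop hn_dvd)
      omega
    · exact Or.inr h
    · exfalso
      have hn_dvd : n ∣ (Cen x ⊓ Cen y).relIndex (Cen x) * cs x := by
        rw [hI]
        exact (Dvd.intro m h.symm).trans hdvd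
      have h1 := Nat.le_of_dvd hr_pos (Nat.Coprime.dvd_of_dvd_mul_right hcop hn_dvd)
      omega
  refine ⟨{ carrier := {x | cs x = 1 ∨ cs x = m}
            mul_mem' := fun {x y} hx hy => hmul x y hx hy
            one_mem' := Or.inl msub_helper31_cs_one
            inv_mem' := fun {x} hx => by
              show cs x⁻¹ = 1 ∨ cs x⁻¹ = m
              have h1 : cs x⁻¹ = cs x := by
                show (Cen x⁻¹).index = (Cen x).index
                rw [msub_helper31_cen_inv]
              rw [h1]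
              exact hx }, ?_, ?_⟩
  · refine ⟨fun x hx g => ?_⟩
    show cs (g * x * g⁻¹) = 1 ∨ cs (g * x * g⁻¹) = m
    rw [msub_helper31_cs_conj]
    exact hx
  · intro x
    exact Iff.rfl

end Cfsg.Agent.Lib.Helper4.FC
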