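import Mathlib
import Cfsg.Agent.Lib.Helper4.FCDefs
import Cfsg.Agent.S4127

/-!
# Project FC (S4146; architect helper4), piece NPC (helper31)

If `m = q ^ i` and a `q`-element has class size `m`, then `G` has a normal `q`-complement.
-/

namespace Cfsg.Agent.Lib.Helper4.FC

universe u

theorem fc_npc : NPCStmt.{u} := by
  intro G _ _ n m q i b hFour hq hm hPb hcsb
  obtain ⟨hn1, hm1, hnm, hall, -, -, -⟩ := hFour
  have hfq : Fact q.Prime := ⟨hq⟩
  have hi : i ≠ 0 := by
    intro h
    rw [h, pow_zero] at hm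
    omega
  have hnq : Nat.Coprime n q := by
    rw [hm] at hnm
    exact Nat.Coprime.coprime_dvd_right (dvd_pow_self q hi) hnm
  have hqn : ¬ q ∣ n := by
    intro h
    have h1 := Nat.Coprime.eq_one_of_dvd hnq.symm h
    exact hq.one_lt.ne' h1
  have hmax : ∀ y : G, ¬ q ^ (i + 1) ∣ (Subgroup.centralizer ({y} : Set G)).index := by
    intro y hdvd
    have hy : cs y = 1 ∨ cs y = n ∨ cs y = m ∨ cs y = n * m := hall y
    have hdvd' : q ^ (i + 1) ∣ cs y := hdvd
    rcases hy with h | h | h | h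
    · rw [h] at hdvd'
      have h1 := Nat.le_of_dvd one_pos hdvd'
      have h2 : 1 < q ^ (i + 1) := Nat.one_lt_pow (Nat.succ_ne_zero i) hq.one_lt
      omega
    · rw [h] at hdvd'
      exact hqn ((dvd_pow_self q (Nat.succ_ne_zero i)).trans hdvd')
    · rw [h, hm] at hdvd'
      have h1 := (Nat.pow_dvd_pow_iff_le_right hq.one_lt).1 hdvd'
      omega
    · rw [h, hm, pow_succ, mul_comm n] at hdvd'
      exact hqn (Nat.dvd_of_mul_dvd_mul_left (pow_pos hq.pos i) hdvd')
  have hx : ∃ x : G, (∃ k : ℕ, orderOf x = q ^ k) ∧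
      (Subgroup.centralizer ({x} : Set G)).index = q ^ i := by
    refine ⟨b, hPb, ?_⟩
    have h1 : cs b = q ^ i := by rw [hcsb, hm]
    exact h1
  obtain ⟨P, N, hN, hc⟩ := Cfsg.Agent.S4127.result q i hmax hx
  refine ⟨N, hN, ?_, ⟨(Nat.card G).factorization q, ?_⟩⟩
  · have h1 : (P : Subgroup G).index = Nat.card N := hc.index_eq_card
    rw [← h1]
    exact (Nat.Prime.coprime_iff_not_dvd hq).2 P.not_dvd_index |>.symm
  · have h1 : N.index = Nat.card (P : Subgroup G) := hc.symm.index_eq_card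
    rw [h1]
    exact Sylow.card_eq_multiplicity P

end Cfsg.Agent.Lib.Helper4.FC
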