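import Mathlib
import Cfsg.Agent.Lib.Helper4.FCDefs

/-!
# Project FC (S4146; architect helper4), piece S2M (helper31)
-/

namespace Cfsg.Agent.Lib.Helper4.FC

universe u

theorem fc_s2m : L3Stmt.{u} → HalfStmt.{u} → S2mStmt.{u} := by
  intro hL3 hHalf G _ _ n m s p a u hFour hs hp hpn hsn hPa hcsa hPu hua huZ hcsu
  have hFour' := hFour
  obtain ⟨hn1, hm1, hnm, hall, -, -, -⟩ := hFour'
  have hps : p ≠ s := by
    rintro rfl
    exact hsn hpn
  have hcomm : a * u = u * a := by
    have h := hua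
    rw [Subgroup.mem_centralizer_iff] at h
    exact h a rfl
  have hord : (orderOf a).Coprime (orderOf u) := by
    obtain ⟨k, hk⟩ := hPa
    obtain ⟨l, hl⟩ := hPu
    rw [hk, hl]
    exact Nat.Coprime.pow _ _ ((Nat.coprime_primes hs hp).2 (Ne.symm hps))
  have h3 := hL3 G a u hcomm hord
  have hcsu1 : cs u ≠ 1 := by
    intro h
    apply huZ
    have h1 : Cen u = ⊤ := Subgroup.index_eq_one.1 h
    rw [Subgroup.mem_center_iff]
    intro g
    have h2 : g ∈ Cen u := by
      rw [h1]
      trivial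
    rw [Subgroup.mem_centralizer_iff] at h2
    exact (h2 u rfl).symm
  have hm_dvd : m ∣ cs u := by
    rcases hall u with h | h | h | h
    · exact absurd h hcsu1
    · exact absurd h hcsu
    · rw [h]
    · rw [h]
      exact dvd_mul_left m n
  have hd1 : n ∣ cs (a * u) := by
    have hle : Cen (a * u) ≤ Cen a := by
      rw [h3]
      exact inf_le_left
    have h1 : cs a ∣ cs (a * u) := Subgroup.index_dvd_of_le hle
    rw [hcsa] at h1
    exact h1
  have hd2 : m ∣ cs (a * u) := by
    have hle : Cen (a * u) ≤ Cen u := by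
      rw [h3]
      exact inf_le_right
    have h1 : cs u ∣ cs (a * u) := Subgroup.index_dvd_of_le hle
    exact hm_dvd.trans h1
  have hnm_dvd : n * m ∣ cs (a * u) := Nat.Coprime.mul_dvd_of_dvd_of_dvd hnm hd1 hd2
  have hcsau : cs (a * u) = n * m := by
    rcases hall (a * u) with h | h | h | h
    · rw [h] at hnm_dvd
      have h1 := Nat.le_of_dvd one_pos hnm_dvd
      exfalso
      nlinarith
    · rw [h] at hnm_dvd
      have h1 := Nat.le_of_dvd (by omega) hnm_dvd
      exfalso
      nlinarith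
    · rw [h] at hnm_dvd
      have h1 := Nat.le_of_dvd (by omega) hnm_dvd
      exfalso
      nlinarith
    · exact h
  refine ⟨?_, hcsau⟩
  obtain ⟨x, y, hxy⟩ := hHalf G m n s p a u (four_symm hFour) hs hp hps hPa hcsa hPu hua
    (by rw [hcsau, mul_comm])
  have hmp : Nat.Coprime m p := (Nat.Coprime.coprime_dvd_left hpn hnm).symm
  have hm_s : m ∣ s ^ x := Nat.Coprime.dvd_of_dvd_mul_right (Nat.Coprime.pow_right y hmp) hxy
  obtain ⟨i, -, hi⟩ := (Nat.dvd_prime_pow hs).1 hm_s
  exact ⟨i, hi⟩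

end Cfsg.Agent.Lib.Helper4.FC
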