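import Mathlib
import Cfsg.Agent.Lib.Helper4.FCDefs

/-!
# Project FC (S4146; architect helper4), piece W (helper31)

`C_Q(b)` centralizes the normal `q`-complement `K` (assembly of KQ, W1, W2, W3, W4 inside the
group `↥(Cen b)`).
-/

namespace Cfsg.Agent.Lib.Helper4.FC

universe u

open scoped Pointwise

theorem fc_w : KQStmt.{u} → W1Stmt.{u} → W2Stmt.{u} → W3Stmt.{u} → W4Stmt.{u} → WStmt.{u} := by
  intro hKQ hW1 hW2 hW3 hW4 G _ _ n m q K Q b x hFour hq hmq hKn hcop hidx hbQ hcsb hxQ hxb u huK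
  have hfq : Fact q.Prime := ⟨hq⟩
  obtain ⟨i, hm⟩ := hmq
  have hKb : K ≤ Cen b := by
    apply hW1 G K b hKn
    rw [hcsb, hm]
    exact Nat.Coprime.pow_right i hcop
  have hPb : Prim q b := by
    obtain ⟨k, hk⟩ := (IsPGroup.iff_orderOf.1 Q.isPGroup') ⟨b, hbQ⟩
    refine ⟨k, ?_⟩
    rw [← hk]
    exact (Subgroup.orderOf_mk b hbQ).symm
  obtain ⟨-, hKQtop, -⟩ := hKQ G q K Q hq hKn hcop hidx
  have hK'n : (K.subgroupOf (Cen b)).Normal := hKn.subgroupOf (Cen b)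
  have hQP : IsPGroup q ↥(((Q : Subgroup G) ⊓ Cen b).subgroupOf (Cen b)) := by
    intro y
    have hyQ : ((y : ↥(Cen b)) : G) ∈ (Q : Subgroup G) :=
      (Subgroup.mem_inf.1 (Subgroup.mem_subgroupOf.1 y.2)).1
    obtain ⟨k, hk⟩ := Q.isPGroup' ⟨_, hyQ⟩
    refine ⟨k, ?_⟩
    apply Subtype.ext
    apply Subtype.ext
    have h1 := congrArg Subtype.val hk
    simpa using h1
  obtain ⟨T, hT⟩ := hQP.exists_le_sylow
  have hsup : K.subgroupOf (Cen b) ⊔ (T : Subgroup ↥(Cen b)) = ⊤ := by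
    rw [eq_top_iff]
    intro c _
    have hc : (c : G) ∈ ((K ⊔ (Q : Subgroup G) : Subgroup G) : Set G) := by
      rw [hKQtop]
      trivial
    rw [Subgroup.normal_mul] at hc
    obtain ⟨k, hk, y, hy, hky⟩ := Set.mem_mul.1 hc
    have hkb : k ∈ Cen b := hKb hk
    have hyb : y ∈ Cen b := by
      have h1 : y = k⁻¹ * (c : G) := by
        rw [← hky]
        group
      rw [h1]
      exact (Cen b).mul_mem ((Cen b).inv_mem hkb) c.2
    have hceq : c = (⟨k, hkb⟩ : ↥(Cen b)) * ⟨y, hyb⟩ := Subtype.ext hky.symm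
    rw [hceq]
    apply Subgroup.mul_mem_sup
    · exact Subgroup.mem_subgroupOf.2 hk
    · apply hT
      exact Subgroup.mem_subgroupOf.2 (Subgroup.mem_inf.2 ⟨hy, hyb⟩)
  have hcov : ∀ v ∈ K.subgroupOf (Cen b), ∃ k ∈ K.subgroupOf (Cen b),
      ∀ t ∈ (T : Subgroup ↥(Cen b)), t * (k⁻¹ * v * k) = (k⁻¹ * v * k) * t := by
    intro v hv
    have hq' : ¬ q ∣ cs v :=
      hW2 G n m q K b v hFour hq ⟨i, hm⟩ hKn hcop hcsb hPb (Subgroup.mem_subgroupOf.1 hv)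
    exact hW3 ↥(Cen b) q (K.subgroupOf (Cen b)) T v hq hK'n hsup hq'
  have hfin := hW4 ↥(Cen b) (K.subgroupOf (Cen b)) (T : Subgroup ↥(Cen b)) hK'n hcov
  have hxT : (⟨x, hxb⟩ : ↥(Cen b)) ∈ (T : Subgroup ↥(Cen b)) :=
    hT (Subgroup.mem_subgroupOf.2 (Subgroup.mem_inf.2 ⟨hxQ, hxb⟩))
  have huK' : (⟨u, hKb huK⟩ : ↥(Cen b)) ∈ K.subgroupOf (Cen b) := Subgroup.mem_subgroupOf.2 huK
  have h2 := hfin _ hxT _ huK'
  exact congrArg Subtype.val h2

end Cfsg.Agent.Lib.Helper4.FC
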