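import Mathlib
import Cfsg.Agent.Lib.Helper4.FCDefs

/-!
# Project FC (S4146; architect helper4), piece ZSYL (helper31)

If all `p`-elements of `C(g)` are central and `x` centralizes a noncentral `p`-element, then
the `p`-part of the class size of `x` is smaller than that of `g`.
-/

namespace Cfsg.Agent.Lib.Helper4.FC

universe u

theorem zsyl_helper31_fact {G : Type u} [Group G] [Finite G] (p : ℕ) (H : Subgroup G) :
    (Nat.card H).factorization p + H.index.factorization p = (Nat.card G).factorization p := by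
  have h := Subgroup.card_mul_index H
  have h1 : Nat.card H ≠ 0 := Nat.card_pos.ne'
  have h2 : H.index ≠ 0 := Subgroup.index_ne_zero_of_finite
  rw [← h, Nat.factorization_mul h1 h2]
  rfl

theorem zsyl_helper31_pbound {G : Type u} [Group G] [Finite G] (p : ℕ) (hp : p.Prime)
    (Q H : Subgroup G) (hQ : IsPGroup p Q) (hQH : Q ≤ H) :
    ∃ j : ℕ, Nat.card Q = p ^ j ∧ j ≤ (Nat.card H).factorization p := by
  have hfp : Fact p.Prime := ⟨hp⟩
  obtain ⟨j, hj⟩ := (IsPGroup.iff_card).1 hQ
  refine ⟨j, hj, ?_⟩
  have hdvd := Subgroup.card_dvd_of_le hQH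
  rw [hj] at hdvd
  exact (hp.pow_dvd_iff_le_factorization Nat.card_pos.ne').1 hdvd

theorem zsyl_helper31_normal {G : Type u} [Group G] (H : Subgroup G)
    (h : H ≤ Subgroup.center G) : H.Normal := by
  refine ⟨fun n hn g => ?_⟩
  have h1 := (Subgroup.mem_center_iff.1 (h hn)) g
  have h2 : g * n * g⁻¹ = n := by rw [h1, mul_inv_cancel_right]
  rw [h2]
  exact hn

theorem fc_zsyl : ZSylStmt.{u} := by
  intro G _ _ p g x a hp hcen hPa haZ hax
  have hfp : Fact p.Prime := ⟨hp⟩
  have hC : (Nat.card (Cen g)).factorization p ≤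
      (Nat.card (Subgroup.center G)).factorization p := by
    obtain ⟨P⟩ := (inferInstance : Nonempty (Sylow p ↥(Cen g)))
    have hPle : (P : Subgroup ↥(Cen g)).map (Cen g).subtype ≤ Subgroup.center G := by
      rintro _ ⟨u, hu, rfl⟩
      apply hcen
      · obtain ⟨k, hk⟩ := (IsPGroup.iff_orderOf.1 P.isPGroup') ⟨u, hu⟩
        refine ⟨k, ?_⟩
        have h1 : orderOf (⟨u, hu⟩ : ↥(P : Subgroup ↥(Cen g))) = orderOf u :=
          Subgroup.orderOf_mk u hu
        have h2 : orderOf (u : G) = orderOf u := Subgroup.orderOf_coe u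
        rw [h1, ← h2] at hk
        exact hk
      · exact u.2
    have hdvd := Subgroup.card_dvd_of_le hPle
    rw [Subgroup.card_map_of_injective (Subgroup.subtype_injective _),
      Sylow.card_eq_multiplicity] at hdvd
    exact (hp.pow_dvd_iff_le_factorization Nat.card_pos.ne').1 hdvd
  have hX : (Nat.card (Subgroup.center G)).factorization p + 1 ≤
      (Nat.card (Cen x)).factorization p := by
    obtain ⟨Pz', hPzle, hPzcard, hPzP⟩ : ∃ Pz' : Subgroup G, Pz' ≤ Subgroup.center G ∧
        Nat.card Pz' = p ^ (Nat.card (Subgroup.center G)).factorization p ∧ IsPGroup p Pz' := by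
      obtain ⟨Pz⟩ := (inferInstance : Nonempty (Sylow p ↥(Subgroup.center G)))
      refine ⟨(Pz : Subgroup ↥(Subgroup.center G)).map (Subgroup.center G).subtype,
        Subgroup.map_subtype_le _, ?_, Pz.isPGroup'.map _⟩
      rw [Subgroup.card_map_of_injective (Subgroup.subtype_injective _),
        Sylow.card_eq_multiplicity]
    have hnorm : Pz'.Normal := zsyl_helper31_normal _ hPzle
    have haP : IsPGroup p (Subgroup.zpowers a) := by
      obtain ⟨k, hk⟩ := hPa
      exact IsPGroup.of_card (by rw [Nat.card_zpowers, hk])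
    have hQ := IsPGroup.to_sup_of_normal_left hPzP haP
    have hQle : Pz' ⊔ Subgroup.zpowers a ≤ Cen x :=
      sup_le (hPzle.trans (Subgroup.center_le_centralizer _)) ((Subgroup.zpowers_le).2 hax)
    obtain ⟨j, hj, hjle⟩ := zsyl_helper31_pbound p hp _ _ hQ hQle
    have hlt : (Nat.card (Subgroup.center G)).factorization p < j := by
      by_contra hcon
      push Not at hcon
      have hcard : Nat.card ↥(Pz' ⊔ Subgroup.zpowers a) ≤ Nat.card ↥Pz' := by
        rw [hj, hPzcard]
        exact Nat.pow_le_pow_right hp.pos hcon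
      have heq := Subgroup.eq_of_le_of_card_ge
        (le_sup_left : Pz' ≤ Pz' ⊔ Subgroup.zpowers a) hcard
      apply haZ
      apply hPzle
      rw [heq]
      exact (le_sup_right : Subgroup.zpowers a ≤ Pz' ⊔ Subgroup.zpowers a)
        (Subgroup.mem_zpowers a)
    omega
  have e1 := zsyl_helper31_fact p (Cen x)
  have e2 := zsyl_helper31_fact p (Cen g)
  show ((Cen x).index).factorization p < ((Cen g).index).factorization p
  omega

end Cfsg.Agent.Lib.Helper4.FC
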