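import Cfsg.Agent.Lib.Helper32.Wielandt

set_option autoImplicit false

namespace Cfsg.Agent.Lib.Helper31

open Cfsg.Agent.Lib.Helper32

/-! ### `A`-perfect subgroups: `H` is generated by its own conjugates of `A` -/

/-- `Perf A H`: `A ≤ H` and every subgroup containing `A` and normalized by `H` contains `H`
(the normal closure of `A` in `H` is `H`). -/
def Perf {G : Type*} [Group G] (A H : Subgroup G) : Prop :=
  A ≤ H ∧ ∀ X : Subgroup G, A ≤ X → H ≤ Subgroup.normalizer (X : Set G) → H ≤ X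

theorem perf_iff {G : Type*} [Group G] (A H : Subgroup G) :
    Perf A H ↔ A ≤ H ∧
      Subgroup.normalClosure ((A.subgroupOf H : Subgroup ↥H) : Set ↥H) = ⊤ := by
  constructor
  · rintro ⟨hAH, h⟩
    refine ⟨hAH, ?_⟩
    have h1 := h ((Subgroup.normalClosure ((A.subgroupOf H : Subgroup ↥H) : Set ↥H)).map H.subtype)
      ?_ ?_
    · rw [eq_top_iff]
      intro y _
      obtain ⟨z, hz, hzy⟩ := h1 y.2
      have : z = y := Subtype.ext hzy
      rwa [this] at hz
    · intro a ha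
      exact ⟨⟨a, hAH ha⟩, Subgroup.subset_normalClosure (Subgroup.mem_subgroupOf.mpr ha), rfl⟩
    · intro y hy
      rw [Subgroup.mem_normalizer_iff]
      intro n
      constructor
      · rintro ⟨z, hz, rfl⟩
        exact ⟨⟨y, hy⟩ * z * ⟨y, hy⟩⁻¹, Subgroup.normalClosure_normal.conj_mem z hz ⟨y, hy⟩, rfl⟩
      · rintro ⟨z, hz, hzn⟩
        refine ⟨⟨y, hy⟩⁻¹ * z * ⟨y, hy⟩, ?_, ?_⟩
        · have := Subgroup.normalClosure_normal.conj_mem z hz (⟨y, hy⟩⁻¹ : ↥H)
          simpa using this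
        · simp only [Subgroup.coe_subtype, Subgroup.coe_mul, Subgroup.coe_inv]
          simp only [Subgroup.coe_subtype] at hzn
          rw [hzn]; group
  · rintro ⟨hAH, h⟩
    refine ⟨hAH, fun X hAX hHX => ?_⟩
    have : (X.subgroupOf H).Normal := Subgroup.normal_subgroupOf_of_le_normalizer hHX
    have h1 : Subgroup.normalClosure ((A.subgroupOf H : Subgroup ↥H) : Set ↥H) ≤ X.subgroupOf H := by
      apply Subgroup.normalClosure_le_normal
      intro y hy
      exact Subgroup.mem_subgroupOf.mpr (hAX (Subgroup.mem_subgroupOf.mp hy))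
    rw [h, top_le_iff] at h1
    exact Subgroup.subgroupOf_eq_top.mp h1

theorem perf_top_iff {G : Type*} [Group G] (A : Subgroup G) :
    Perf A ⊤ ↔ Subgroup.normalClosure (A : Set G) = ⊤ := by
  constructor
  · rintro ⟨-, h⟩
    have := h (Subgroup.normalClosure (A : Set G)) Subgroup.le_normalClosure
      (by rw [Subgroup.normalizer_eq_top_iff.mpr Subgroup.normalClosure_normal])
    exact top_le_iff.mp this
  · intro h
    refine ⟨le_top, fun X hAX hX => ?_⟩
    have : X.Normal := Subgroup.normalizer_eq_top_iff.mp (top_le_iff.mp hX)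
    rw [← h]
    exact Subgroup.normalClosure_le_normal hAX

theorem perf_self {G : Type*} [Group G] (A : Subgroup G) : Perf A A :=
  ⟨le_rfl, fun _ hAX _ => hAX⟩

theorem Perf.le {G : Type*} [Group G] {A H : Subgroup G} (h : Perf A H) : A ≤ H := h.1

theorem Perf.trans {G : Type*} [Group G] {A H P : Subgroup G} (h₁ : Perf A H) (h₂ : Perf H P) :
    Perf A P :=
  ⟨h₁.1.trans h₂.1, fun X hAX hPX => h₂.2 X (h₁.2 X hAX (h₂.1.trans hPX)) hPX⟩

theorem perf_sSup {G : Type*} [Group G] {A : Subgroup G} {S : Set (Subgroup G)}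
    (hne : S.Nonempty) (h : ∀ H ∈ S, Perf A H) : Perf A (sSup S) := by
  obtain ⟨H₀, hH₀⟩ := hne
  refine ⟨(h H₀ hH₀).1.trans (le_sSup hH₀), fun X hAX hX => ?_⟩
  apply sSup_le
  intro H hH
  exact (h H hH).2 X hAX ((le_sSup hH).trans hX)

theorem le_normalizer_cj {G : Type*} [Group G] {H X : Subgroup G} (g : G)
    (h : H ≤ Subgroup.normalizer (X : Set G)) :
    cj g H ≤ Subgroup.normalizer (cj g X : Set G) := by
  apply le_normalizer_of_cj_eq
  intro a ha
  rw [mem_cj] at ha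
  have h1 := cj_eq_self_of_le_normalizer h ha
  have h2 : a * g = g * (g⁻¹ * a * g) := by group
  rw [← cj_mul, h2, cj_mul, h1]

theorem Perf.conj {G : Type*} [Group G] {A H : Subgroup G} (h : Perf A H) (g : G) :
    Perf (cj g A) (cj g H) := by
  refine ⟨cj_mono g h.1, fun X hAX hHX => ?_⟩
  have h1 : A ≤ cj g⁻¹ X := by
    have := cj_mono g⁻¹ hAX
    rwa [cj_inv_cj] at this
  have h2 : H ≤ Subgroup.normalizer (cj g⁻¹ X : Set G) := by
    have := le_normalizer_cj g⁻¹ hHX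
    rwa [cj_inv_cj] at this
  have h3 := cj_mono g (h.2 _ h1 h2)
  rwa [cj_cj_inv] at h3

/-- A subnormal subgroup whose normal closure is everything is everything. -/
theorem eq_of_rsn_of_perf {G : Type*} [Group G] {A H : Subgroup G} (h₁ : RSN A H)
    (h₂ : Perf A H) : A = H := by
  by_contra hne
  obtain ⟨X, hAX, hXH, hXne, hHX, -⟩ := h₁.exists_normal hne
  exact hXne (le_antisymm hXH (h₂.2 X hAX hHX))

theorem rsn_of_normal {G : Type*} [Group G] {X K : Subgroup G} (h₁ : X ≤ K)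
    (h₂ : K ≤ Subgroup.normalizer (X : Set G)) : RSN X K :=
  RSN.step X K K h₁ h₂ (RSN.refl K)

/-- Either `A` is subnormal in `L`, or `L` contains an `A`-perfect subgroup other than `A`. -/
theorem rsn_or_exists_perf {G : Type*} [Group G] [Finite G] (A : Subgroup G) :
    ∀ (n : ℕ) (L : Subgroup G), Nat.card L ≤ n → A ≤ L →
      RSN A L ∨ ∃ H : Subgroup G, H ≤ L ∧ H ≠ A ∧ Perf A H := by
  intro n
  induction n with
  | zero =>
    intro L hL
    have := Nat.card_pos (α := L)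
    omega
  | succ n ih =>
    intro L hL hAL
    set L₁ : Subgroup G := sInf {X : Subgroup G | A ≤ X ∧ L ≤ Subgroup.normalizer (X : Set G)}
      with hL₁
    have h1 : A ≤ L₁ := le_sInf (fun X hX => hX.1)
    have h2 : L₁ ≤ L := sInf_le ⟨hAL, Subgroup.le_normalizer⟩
    have h3 : L ≤ Subgroup.normalizer (L₁ : Set G) := by
      intro l hl
      rw [Subgroup.mem_normalizer_iff]
      intro y
      rw [hL₁, Subgroup.mem_sInf, Subgroup.mem_sInf]
      constructor
      · intro hy X hX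
        exact (Subgroup.mem_normalizer_iff.mp (hX.2 hl) y).mp (hy X hX)
      · intro hy X hX
        exact (Subgroup.mem_normalizer_iff.mp (hX.2 hl) y).mpr (hy X hX)
    by_cases h4 : L₁ = L
    · by_cases h5 : L = A
      · left; rw [h5]; exact RSN.refl A
      · right
        refine ⟨L, le_rfl, h5, hAL, fun X hAX hLX => ?_⟩
        rw [← h4]
        exact sInf_le ⟨hAX, hLX⟩
    · have hc : Nat.card L₁ ≤ n := by
        have := card_lt_of_le_of_ne' h2 h4
        omega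
      rcases ih L₁ hc h1 with h | ⟨H, hH, hne, hp⟩
      · left; exact h.trans (rsn_of_normal h2 h3)
      · right; exact ⟨H, hH.trans h2, hne, hp⟩

theorem rsn_bot {G : Type*} [Group G] (K : Subgroup G) : RSN ⊥ K := by
  refine rsn_of_normal bot_le ?_
  intro k _
  rw [Subgroup.mem_normalizer_iff]
  intro h
  simp only [Subgroup.mem_bot]
  constructor
  · rintro rfl; simp
  · intro h1
    have : h = k⁻¹ * (k * h * k⁻¹) * k := by group
    rw [this, h1]; simp

theorem rsn_sSup {G : Type*} [Group G] [Finite G] {K : Subgroup G} (S : Set (Subgroup G))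
    (h : ∀ C ∈ S, RSN C K) : RSN (sSup S) K := by
  have hfin : S.Finite := Set.toFinite S
  induction S, hfin using Set.Finite.induction_on with
  | empty => rw [sSup_empty]; exact rsn_bot K
  | insert _ _ ih =>
    rw [sSup_insert]
    exact (h _ (Set.mem_insert _ _)).sup (ih (fun C hC => h C (Set.mem_insert_of_mem _ hC)))

theorem isCoatom_cj {G : Type*} [Group G] {M : Subgroup G} (hM : IsCoatom M) (g : G) :
    IsCoatom (cj g M) := by
  refine ⟨fun h => hM.1 ?_, fun X hX => ?_⟩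
  · have := congrArg (cj g⁻¹) h
    rw [cj_inv_cj] at this
    rw [this, eq_top_iff]
    intro y _
    rw [mem_cj]; exact Subgroup.mem_top _
  · have h1 : M < cj g⁻¹ X := by
      have h2 : M ≤ cj g⁻¹ X := by
        have := cj_mono g⁻¹ hX.le
        rwa [cj_inv_cj] at this
      refine lt_of_le_of_ne h2 (fun h3 => hX.ne ?_)
      rw [h3, cj_cj_inv]
    have h4 := hM.2 _ h1
    have h5 := congrArg (cj g) h4
    rw [cj_cj_inv] at h5
    rw [h5, eq_top_iff]
    intro y _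
    rw [mem_cj]; exact Subgroup.mem_top _

theorem coatom_eq_of_le {G : Type*} [Group G] {K₁ K₂ : Subgroup G} (h₁ : IsCoatom K₁)
    (h₂ : IsCoatom K₂) (h : K₁ ≤ K₂) : K₁ = K₂ := by
  rcases (h₁.le_iff).mp h with h3 | h3
  · exact absurd h3 h₂.1
  · exact h3.symm

theorem cj_eq_of_mem {G : Type*} [Group G] {M : Subgroup G} {g : G} (hg : g ∈ M) : cj g M = M :=
  cj_eq_self_iff.mpr (Subgroup.le_normalizer hg)

theorem cj_ne_top {G : Type*} [Group G] {L : Subgroup G} (g : G) (h : L ≠ ⊤) : cj g L ≠ ⊤ := by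
  intro h1
  apply h
  have := congrArg (cj g⁻¹) h1
  rw [cj_inv_cj] at this
  rw [this, eq_top_iff]
  intro y _
  rw [mem_cj]; exact Subgroup.mem_top _

theorem cj_le_iff {G : Type*} [Group G] (g : G) (H K : Subgroup G) :
    cj g H ≤ K ↔ H ≤ cj g⁻¹ K := by
  constructor
  · intro h
    have := cj_mono g⁻¹ h
    rwa [cj_inv_cj] at this
  · intro h
    have := cj_mono g h
    rwa [cj_cj_inv] at this

theorem cj_le_cj_iff {G : Type*} [Group G] (g : G) (H K : Subgroup G) :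
    cj g H ≤ cj g K ↔ H ≤ K := by
  rw [cj_le_iff, cj_inv_cj]

theorem cj_injective {G : Type*} [Group G] (g : G) {H K : Subgroup G} (h : cj g H = cj g K) :
    H = K := by
  have := congrArg (cj g⁻¹) h
  rwa [cj_inv_cj, cj_inv_cj] at this

theorem perf_top_of_cj_le {G : Type*} [Group G] {A B : Subgroup G} (h : Perf A ⊤) (g : G)
    (hB : cj g A ≤ B) : Perf B ⊤ := by
  refine ⟨le_top, fun X hBX hX => h.2 X ?_ hX⟩
  have h1 : A ≤ cj g⁻¹ X := (cj_le_iff g A X).mp (hB.trans hBX)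
  rwa [cj_eq_self_iff.mpr (hX (Subgroup.mem_top g⁻¹))] at h1

/-- A fixed point lemma: a subnormal subgroup with exactly one fixed point. -/
theorem fp_of_rsn {G : Type*} [Group G] {S L : Subgroup G} (h : RSN S L)
    (𝒞 : Set (Subgroup G)) (A₀ : Subgroup G) :
    (∀ l ∈ L, ∀ C ∈ 𝒞, cj l C ∈ 𝒞) → A₀ ∈ 𝒞 → S ≤ Subgroup.normalizer (A₀ : Set G) →
      (∀ C ∈ 𝒞, S ≤ Subgroup.normalizer (C : Set G) → C = A₀) →
      L ≤ Subgroup.normalizer (A₀ : Set G) := by
  induction h with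
  | refl K => intro _ _ h3 _; exact h3
  | step S H K hSH hHN hHK ih =>
    intro hL hA hS huniq
    refine ih hL hA ?_ (fun C hC hH => huniq C hC (hSH.trans hH))
    apply le_normalizer_of_cj_eq
    intro a ha
    apply huniq (cj a A₀) (hL a (hHK.le ha) A₀ hA)
    apply le_normalizer_of_cj_eq
    intro s hs
    have h1 : a⁻¹ * s * a ∈ S := by
      have h2 := (Subgroup.mem_normalizer_iff.mp (Subgroup.inv_mem _ (hHN ha)) s).mp hs
      simpa using h2
    have h3 : s * a = a * (a⁻¹ * s * a) := by group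
    rw [← cj_mul, h3, cj_mul, cj_eq_self_of_le_normalizer hS h1]

/-- The working context for the proof of Flavell's theorem. -/
structure Ctx {G : Type*} [Group G] [Finite G] (A M : Subgroup G) : Prop where
  hM : IsCoatom M
  hAM : A ≤ M
  hN : Subgroup.normalizer (A : Set G) ≤ M
  hperf : Perf A ⊤
  c2 : ∀ (g : G) (L : Subgroup G), L ≠ ⊤ → cj g A ≤ L → ¬ L ≤ cj g M → RSN (cj g A) L
  ih : ∀ B : Subgroup G, Nat.card A < Nat.card B → B ≠ ⊤ → Perf B ⊤ →
      sSup {H : Subgroup G | Perf B H ∧ H ≠ ⊤} ≠ ⊤ →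
      ∀ K₁ K₂ : Subgroup G, IsCoatom K₁ → IsCoatom K₂ → B ≤ K₁ → B ≤ K₂ → K₁ = K₂

namespace Ctx

variable {G : Type*} [Group G] [Finite G] {A M : Subgroup G}

theorem cjA_le (h : Ctx A M) (g : G) : cj g A ≤ cj g M := cj_mono g h.hAM

theorem norm_le (h : Ctx A M) (g : G) :
    Subgroup.normalizer (cj g A : Set G) ≤ cj g M := by
  intro y hy
  rw [mem_cj]
  apply h.hN
  apply cj_eq_self_iff.mp
  have h1 : cj y (cj g A) = cj g A := cj_eq_self_iff.mpr hy
  have h2 : g⁻¹ * y * g = g⁻¹ * (y * g) := by group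
  rw [h2, cj_mul, cj_mul, h1, cj_inv_cj]

theorem same_bad (h : Ctx A M) {g k : G} (e : cj g A = cj k A) : cj g M = cj k M := by
  have h1 : cj (k⁻¹ * g) A = A := by rw [cj_mul, e, cj_inv_cj]
  have h2 : k⁻¹ * g ∈ M := h.hN (cj_eq_self_iff.mp h1)
  have h3 : g = k * (k⁻¹ * g) := by group
  rw [h3, cj_mul, cj_eq_of_mem h2]

theorem card_lt_sup (_h : Ctx A M) {g k : G} (hne : cj g A ≠ cj k A) :
    Nat.card A < Nat.card ↥(cj g A ⊔ cj k A) := by
  have h1 : cj g A ≠ cj g A ⊔ cj k A := by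
    intro e
    have h2 : cj k A ≤ cj g A := by
      have h0 : cj k A ≤ cj g A ⊔ cj k A := le_sup_right
      rwa [← e] at h0
    exact hne (Subgroup.eq_of_le_of_card_ge h2 (by rw [card_cj, card_cj])).symm
  have := card_lt_of_le_of_ne' (le_sup_left : cj g A ≤ cj g A ⊔ cj k A) h1
  rwa [card_cj] at this

/-- Claim 3: outside the bad maximal subgroup, the intersection with it normalizes. -/
theorem c3 (h : Ctx A M) (g : G) (L : Subgroup G) (hL : L ≠ ⊤) (hAL : cj g A ≤ L)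
    (hLM : ¬ L ≤ cj g M) : L ⊓ cj g M ≤ Subgroup.normalizer (cj g A : Set G) := by
  have hrsn : RSN (cj g A) (L ⊓ cj g M) :=
    (h.c2 g L hL hAL hLM).of_le (le_inf hAL (h.cjA_le g)) inf_le_left
  by_contra hnot
  obtain ⟨H₁, H₂, hAH₁, hH₁₂, hH₂K, hH₁N, hH₂N, hH₂A⟩ :=
    exists_two_step (cj g A) _ (L ⊓ cj g M) le_rfl hrsn hnot
  obtain ⟨z, hzH₂, hzA⟩ := SetLike.not_le_iff_exists.mp hH₂A
  have hzLM : z ∈ L ⊓ cj g M := hH₂K hzH₂
  have hcjH₁ : cj z H₁ = H₁ := cj_eq_self_of_le_normalizer hH₂N hzH₂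
  have hzg : cj (z * g) A ≤ H₁ := by
    rw [cj_mul, ← hcjH₁]; exact cj_mono z hAH₁
  have hbad : cj (z * g) M = cj g M := by rw [cj_mul, cj_eq_of_mem hzLM.2]
  have hne : cj g A ≠ cj (z * g) A := by
    intro e
    apply hzA
    apply cj_eq_self_iff.mp
    rw [← cj_mul, ← e]
  have hTH₁ : cj g A ⊔ cj (z * g) A ≤ H₁ := sup_le hAH₁ hzg
  have hTLM : cj g A ⊔ cj (z * g) A ≤ L ⊓ cj g M := hTH₁.trans (hH₁₂.trans hH₂K)
  have hcM : IsCoatom (cj g M) := isCoatom_cj h.hM g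
  have hTtop : cj g A ⊔ cj (z * g) A ≠ ⊤ := by
    intro e
    rw [e] at hTLM
    exact hcM.1 (top_le_iff.mp (hTLM.trans inf_le_right))
  have hs : sSup {H : Subgroup G | Perf (cj g A ⊔ cj (z * g) A) H ∧ H ≠ ⊤} ≠ ⊤ := by
    intro e
    have hle : sSup {H : Subgroup G | Perf (cj g A ⊔ cj (z * g) A) H ∧ H ≠ ⊤} ≤ cj g M := by
      apply sSup_le
      rintro P ⟨hP, hPtop⟩
      by_contra hPM
      have r1 : RSN (cj g A) P := h.c2 g P hPtop (le_sup_left.trans hP.1) hPM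
      have r2 : RSN (cj (z * g) A) P :=
        h.c2 (z * g) P hPtop (le_sup_right.trans hP.1) (by rw [hbad]; exact hPM)
      have := eq_of_rsn_of_perf (r1.sup r2) hP
      exact hPM (this ▸ hTLM.trans inf_le_right)
    rw [e] at hle
    exact hcM.1 (top_le_iff.mp hle)
  rcases eq_top_or_exists_le_coatom L with hLt | ⟨K', hK', hLK'⟩
  · exact hL hLt
  · have := h.ih _ (h.card_lt_sup hne) hTtop (perf_top_of_cj_le h.hperf g le_sup_left) hs
      (cj g M) K' hcM hK' (hTLM.trans inf_le_right) ((hTLM.trans inf_le_left).trans hLK')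
    exact hLM (this ▸ hLK')

/-- Claim 4: two distinct conjugates lying in two common maximal subgroups are adjacent. -/
theorem c4 (h : Ctx A M) (g k : G) (K₁ K₂ : Subgroup G) (hK₁ : IsCoatom K₁) (hK₂ : IsCoatom K₂)
    (hK : K₁ ≠ K₂) (hne : cj g A ≠ cj k A) (h1 : cj g A ≤ K₁) (h2 : cj g A ≤ K₂)
    (h3 : cj k A ≤ K₁) (h4 : cj k A ≤ K₂) :
    cj g M ≠ cj k M ∧ cj g A ≤ cj k M ∧ cj k A ≤ cj g M := by
  have hTtop : cj g A ⊔ cj k A ≠ ⊤ := by
    intro e
    exact hK₁.1 (top_le_iff.mp (e ▸ sup_le h1 h3))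
  have hs : sSup {H : Subgroup G | Perf (cj g A ⊔ cj k A) H ∧ H ≠ ⊤} = ⊤ := by
    by_contra hs
    exact hK (h.ih _ (h.card_lt_sup hne) hTtop (perf_top_of_cj_le h.hperf g le_sup_left) hs
      K₁ K₂ hK₁ hK₂ (sup_le h1 h3) (sup_le h2 h4))
  have tri : ∀ P : Subgroup G, Perf (cj g A ⊔ cj k A) P → P ≠ ⊤ →
      P ≤ cj g M ∨ P ≤ cj k M ∨ P = cj g A ⊔ cj k A := by
    intro P hP hPtop
    by_cases hg : P ≤ cj g M
    · exact Or.inl hg
    · by_cases hk : P ≤ cj k M
      · exact Or.inr (Or.inl hk)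
      · have r1 : RSN (cj g A) P := h.c2 g P hPtop (le_sup_left.trans hP.1) hg
        have r2 : RSN (cj k A) P := h.c2 k P hPtop (le_sup_right.trans hP.1) hk
        exact Or.inr (Or.inr (eq_of_rsn_of_perf (r1.sup r2) hP).symm)
  have hcg : IsCoatom (cj g M) := isCoatom_cj h.hM g
  have hck : IsCoatom (cj k M) := isCoatom_cj h.hM k
  have aux : ∀ X₁ X₂ : Subgroup G, X₂ ≠ ⊤ →
      (∀ P : Subgroup G, Perf (cj g A ⊔ cj k A) P → P ≠ ⊤ →
        P ≤ X₁ ∨ P ≤ X₂ ∨ P = cj g A ⊔ cj k A) → cj g A ⊔ cj k A ≤ X₁ := by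
    intro X₁ X₂ hX₂ htri
    by_contra hα
    by_cases hβ : cj g A ⊔ cj k A ≤ X₂
    · have hle : sSup {H : Subgroup G | Perf (cj g A ⊔ cj k A) H ∧ H ≠ ⊤} ≤ X₂ := by
        apply sSup_le
        rintro P ⟨hP, hPtop⟩
        rcases htri P hP hPtop with h5 | h5 | h5
        · exact absurd (hP.1.trans h5) hα
        · exact h5
        · rw [h5]; exact hβ
      rw [hs] at hle
      exact hX₂ (top_le_iff.mp hle)
    · have hle : sSup {H : Subgroup G | Perf (cj g A ⊔ cj k A) H ∧ H ≠ ⊤} ≤ cj g A ⊔ cj k A := by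
        apply sSup_le
        rintro P ⟨hP, hPtop⟩
        rcases htri P hP hPtop with h5 | h5 | h5
        · exact absurd (hP.1.trans h5) hα
        · exact absurd (hP.1.trans h5) hβ
        · exact h5.le
      rw [hs] at hle
      exact hTtop (top_le_iff.mp hle)
  have hα : cj g A ⊔ cj k A ≤ cj g M := aux _ _ hck.1 tri
  have hβ : cj g A ⊔ cj k A ≤ cj k M :=
    aux _ _ hcg.1 (fun P hP hPtop => by
      rcases tri P hP hPtop with h5 | h5 | h5
      · exact Or.inr (Or.inl h5)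
      · exact Or.inl h5
      · exact Or.inr (Or.inr h5))
  refine ⟨?_, le_sup_left.trans hβ, le_sup_right.trans hα⟩
  intro e
  have hle : sSup {H : Subgroup G | Perf (cj g A ⊔ cj k A) H ∧ H ≠ ⊤} ≤ cj g M := by
    apply sSup_le
    rintro P ⟨hP, hPtop⟩
    rcases tri P hP hPtop with h5 | h5 | h5
    · exact h5
    · rw [e]; exact h5
    · rw [h5]; exact hα
  rw [hs] at hle
  exact hcg.1 (top_le_iff.mp hle)

theorem adj_norm (h : Ctx A M) {g k : G} (hne : cj g M ≠ cj k M) (h1 : cj g A ≤ cj k M)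
    (h2 : cj k A ≤ cj g M) : cj g A ≤ Subgroup.normalizer (cj k A : Set G) := by
  have hcg : IsCoatom (cj g M) := isCoatom_cj h.hM g
  have hck : IsCoatom (cj k M) := isCoatom_cj h.hM k
  have := h.c3 k (cj g M) hcg.1 h2 (fun hle => hne (coatom_eq_of_le hcg hck hle))
  exact (le_inf (h.cjA_le g) h1).trans this

end Ctx

/-- The final contradiction: the "line" through two adjacent conjugates. -/
theorem main_contra {G : Type*} [Group G] [Finite G] {A M : Subgroup G} (h : Ctx A M)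
    (hMA : ¬ M ≤ Subgroup.normalizer (A : Set G)) (K : Subgroup G) (hK : IsCoatom K)
    (hKM : K ≠ M) (hAK : A ≤ K) (x : G) (hxA : cj x A ≠ A) (hxM : cj x A ≤ M)
    (hxK : cj x A ≤ K) : False := by
  have hadj := h.c4 1 x M K h.hM hK (Ne.symm hKM) (by rw [cj_one]; exact Ne.symm hxA)
    (by rw [cj_one]; exact h.hAM) (by rw [cj_one]; exact hAK) hxM hxK
  rw [cj_one, cj_one] at hadj
  obtain ⟨hMM', hAM', -⟩ := hadj
  have hM' : IsCoatom (cj x M) := isCoatom_cj h.hM x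
  -- the line
  set 𝒞 : Set (Subgroup G) := {C | (∃ g, C = cj g A) ∧ C ≤ M ∧ C ≤ cj x M} with h𝒞
  have hmem : ∀ g : G, cj g A ≤ M → cj g A ≤ cj x M → cj g A ∈ 𝒞 :=
    fun g h1 h2 => ⟨⟨g, rfl⟩, h1, h2⟩
  have h1mem : cj 1 A ∈ 𝒞 := hmem 1 (by rw [cj_one]; exact h.hAM) (by rw [cj_one]; exact hAM')
  have hAmem : A ∈ 𝒞 := by rw [cj_one] at h1mem; exact h1mem
  have hxmem : cj x A ∈ 𝒞 := hmem x hxM (h.cjA_le x)
  have hadjC : ∀ g k : G, cj g A ∈ 𝒞 → cj k A ∈ 𝒞 → cj g A ≠ cj k A →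
      cj g M ≠ cj k M ∧ cj g A ≤ cj k M ∧ cj k A ≤ cj g M :=
    fun g k hg hk hne => h.c4 g k M (cj x M) h.hM hM' hMM' hne hg.2.1 hg.2.2 hk.2.1 hk.2.2
  have hsub : ∀ b g : G, cj b A ∈ 𝒞 → cj g A ∈ 𝒞 → cj b A ≤ cj g M := by
    intro b g hb hg
    by_cases e : cj b A = cj g A
    · rw [← h.same_bad e]; exact h.cjA_le b
    · exact (hadjC b g hb hg e).2.1
  have hline : ∀ g₁ g₂ d : G, cj g₁ A ∈ 𝒞 → cj g₂ A ∈ 𝒞 → cj g₁ A ≠ cj g₂ A →
      cj d A ≤ cj g₁ M → cj d A ≤ cj g₂ M → cj d A ∈ 𝒞 := by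
    intro g₁ g₂ d hg₁ hg₂ hne hd₁ hd₂
    have hb := (hadjC g₁ g₂ hg₁ hg₂ hne).1
    have key : ∀ b : G, cj b A ∈ 𝒞 → cj d A ≤ cj b M := by
      intro b hbm
      by_cases e : cj d A = cj b A
      · rw [e]; exact h.cjA_le b
      · exact (h.c4 b d (cj g₁ M) (cj g₂ M) (isCoatom_cj h.hM g₁) (isCoatom_cj h.hM g₂) hb
          (Ne.symm e) (hsub b g₁ hbm hg₁) (hsub b g₂ hbm hg₂) hd₁ hd₂).2.2
    have k1 := key 1 h1mem
    rw [cj_one] at k1
    exact hmem d k1 (key x hxmem)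
  -- the subnormal subgroup generated by the line minus `A`
  set U : Subgroup G := sSup {C | C ∈ 𝒞 ∧ C ≠ A} with hU
  have hUle : U ≤ M ⊓ cj x M := sSup_le (fun C hC => le_inf hC.1.2.1 hC.1.2.2)
  have hne1 : ∀ g : G, cj g A ∈ 𝒞 → cj g A ≠ A → cj g M ≠ M := by
    intro g hg hne e
    have := (hadjC 1 g h1mem hg (by rw [cj_one]; exact Ne.symm hne)).1
    rw [cj_one] at this
    exact this e.symm
  have hUrsn : RSN U M := by
    apply rsn_sSup
    rintro C ⟨⟨⟨g, rfl⟩, hCM, hCM'⟩, hCA⟩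
    refine h.c2 g M h.hM.1 hCM (fun hle => ?_)
    exact hne1 g (hmem g hCM hCM') hCA (coatom_eq_of_le h.hM (isCoatom_cj h.hM g) hle).symm
  have hxU : cj x A ≤ U := le_sSup ⟨hxmem, hxA⟩
  have hnormU : ∀ m ∈ M, m ∈ Subgroup.normalizer (U : Set G) →
      m ∈ Subgroup.normalizer (A : Set G) ∧ ∀ C ∈ 𝒞, cj m C ∈ 𝒞 := by
    intro m hmM hmU
    have hcU : cj m U = U := cj_eq_self_iff.mpr hmU
    have h1 : cj (m * x) A ≤ U := by
      rw [cj_mul, ← hcU]; exact cj_mono m hxU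
    have h2 : cj (m * x) A ∈ 𝒞 := hmem _ (h1.trans (hUle.trans inf_le_left))
      (h1.trans (hUle.trans inf_le_right))
    have h3 : cj (m * x) A ≠ A := by
      intro e
      have h4 : m * x ∈ M := h.hN (cj_eq_self_iff.mp e)
      have h5 : x ∈ M := by
        have := M.mul_mem (M.inv_mem hmM) h4
        simpa using this
      exact hMM' (cj_eq_of_mem h5).symm
    have h6 := (hadjC 1 (m * x) h1mem h2 (by rw [cj_one]; exact Ne.symm h3)).2.1
    rw [cj_one, cj_mul] at h6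
    have h7 : cj m⁻¹ A ≤ cj x M := by
      rw [cj_le_iff, inv_inv]; exact h6
    have h8 : cj m⁻¹ A ≤ M := cj_le_of_mem (M.inv_mem hmM) h.hAM
    have h9 : cj m⁻¹ A = A := by
      by_contra hne
      have := (h.c4 1 m⁻¹ M (cj x M) h.hM hM' hMM' (by rw [cj_one]; exact Ne.symm hne)
        (by rw [cj_one]; exact h.hAM) (by rw [cj_one]; exact hAM') h8 h7).1
      rw [cj_one, cj_eq_of_mem (M.inv_mem hmM)] at this
      exact this rfl
    have h10 : m ∈ Subgroup.normalizer (A : Set G) := by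
      have := Subgroup.inv_mem _ (cj_eq_self_iff.mp h9)
      simpa using this
    refine ⟨h10, ?_⟩
    rintro C ⟨⟨g, rfl⟩, hCM, hCM'⟩
    by_cases e : cj g A = A
    · rw [e, cj_eq_self_iff.mpr h10]; exact hAmem
    · have h11 : cj g A ≤ U := le_sSup ⟨hmem g hCM hCM', e⟩
      have h12 : cj (m * g) A ≤ U := by
        rw [cj_mul, ← hcU]; exact cj_mono m h11
      rw [← cj_mul]
      exact hmem _ (h12.trans (hUle.trans inf_le_left)) (h12.trans (hUle.trans inf_le_right))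
  have hnotU : ¬ M ≤ Subgroup.normalizer (U : Set G) :=
    fun hle => hMA (fun m hm => (hnormU m hm (hle hm)).1)
  obtain ⟨H₁, H₂, hUH₁, hH₁₂, hH₂M, hH₁N, hH₂N, hH₂U⟩ :=
    exists_two_step U _ M le_rfl hUrsn hnotU
  obtain ⟨m, hmH₂, hmU⟩ := SetLike.not_le_iff_exists.mp hH₂U
  have hmM : m ∈ M := hH₂M hmH₂
  have hcjH₁ : cj m H₁ = H₁ := cj_eq_self_of_le_normalizer hH₂N hmH₂
  have hmU' : cj m U ≤ H₁ := by
    rw [← hcjH₁]; exact cj_mono m hUH₁
  have hex : ∃ g : G, cj g A ∈ 𝒞 ∧ cj g A ≠ A ∧ cj (m * g) A ∉ 𝒞 := by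
    by_contra hall
    push Not at hall
    apply hmU
    apply cj_eq_self_iff.mp
    refine Subgroup.eq_of_le_of_card_ge ?_ (by rw [card_cj])
    rw [cj_le_iff]
    apply sSup_le
    rintro C ⟨⟨⟨g, rfl⟩, hCM, hCM'⟩, hCA⟩
    rw [← cj_le_iff, ← cj_mul]
    have hg : cj g A ∈ 𝒞 := hmem g hCM hCM'
    refine le_sSup ⟨hall g hg hCA, ?_⟩
    intro e
    have h4 : m * g ∈ M := h.hN (cj_eq_self_iff.mp e)
    have h5 : g ∈ M := by
      have := M.mul_mem (M.inv_mem hmM) h4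
      simpa using this
    exact hne1 g hg hCA (cj_eq_of_mem h5)
  obtain ⟨g, hg, hgA, hC₃not⟩ := hex
  have hC₃U : cj (m * g) A ≤ cj m U := by
    rw [cj_mul]; exact cj_mono m (le_sSup ⟨hg, hgA⟩)
  have hC₃H₁ : cj (m * g) A ≤ H₁ := hC₃U.trans hmU'
  have hC₃M : cj (m * g) A ≤ M := hC₃H₁.trans (hH₁₂.trans hH₂M)
  have hC₃ : ∀ c ∈ cj (m * g) A, c ∈ Subgroup.normalizer (A : Set G) ∧ ∀ C ∈ 𝒞, cj c C ∈ 𝒞 :=
    fun c hc => hnormU c (hC₃M hc) (hH₁N (hC₃H₁ hc))
  have hfix : ∀ C ∈ 𝒞, cj (m * g) A ≤ Subgroup.normalizer (C : Set G) → C = A := by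
    intro C hC hNC
    by_contra hne
    obtain ⟨⟨g₀, rfl⟩, hCM, hCM'⟩ := hC
    apply hC₃not
    refine hline 1 g₀ (m * g) h1mem (hmem g₀ hCM hCM') (by rw [cj_one]; exact Ne.symm hne)
      (by rw [cj_one]; exact hC₃M) (hNC.trans (h.norm_le g₀))
  -- the stabilizer of the line
  let Lc : Subgroup G :=
    { carrier := {l | ∀ C, C ∈ 𝒞 ↔ cj l C ∈ 𝒞}
      one_mem' := by intro C; rw [cj_one]
      mul_mem' := by
        intro a b ha hb C
        rw [cj_mul]
        exact (hb C).trans (ha _)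
      inv_mem' := by
        intro a ha C
        have := ha (cj a⁻¹ C)
        rw [cj_cj_inv] at this
        exact this.symm }
  have hLc : ∀ l : G, l ∈ Lc ↔ ∀ C, C ∈ 𝒞 ↔ cj l C ∈ 𝒞 := fun l => Iff.rfl
  have hLc_of_maps : ∀ l : G, (∀ C ∈ 𝒞, cj l C ∈ 𝒞) → l ∈ Lc := by
    intro l hl
    rw [hLc]
    intro C
    refine ⟨hl C, fun hC' => ?_⟩
    let f : ↥𝒞 → ↥𝒞 := fun C => ⟨cj l C.1, hl C.1 C.2⟩
    have hinj : Function.Injective f := by
      intro C₁ C₂ e
      exact Subtype.ext (cj_injective l (congrArg Subtype.val e))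
    obtain ⟨⟨C', hC'mem⟩, hf⟩ := (Finite.injective_iff_surjective.mp hinj) ⟨cj l C, hC'⟩
    have : C' = C := cj_injective l (congrArg Subtype.val hf)
    rw [← this]; exact hC'mem
  have hC₃Lc : cj (m * g) A ≤ Lc := fun c hc => hLc_of_maps c (hC₃ c hc).2
  -- an element of the stabilizer moving `A`
  have hrsnA : RSN A (cj x M) := by
    have := h.c2 1 (cj x M) hM'.1 (by rw [cj_one]; exact hAM')
      (by rw [cj_one]; exact fun hle => hMM' (coatom_eq_of_le hM' h.hM hle).symm)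
    rwa [cj_one] at this
  have hnotA : ¬ cj x M ≤ Subgroup.normalizer (A : Set G) :=
    fun hle => hMM' (coatom_eq_of_le hM' h.hM (hle.trans h.hN)).symm
  obtain ⟨J₁, J₂, hAJ₁, hJ₁₂, hJ₂M', hJ₁N, hJ₂N, hJ₂A⟩ :=
    exists_two_step A _ (cj x M) le_rfl hrsnA hnotA
  obtain ⟨v, hvJ₂, hvA⟩ := SetLike.not_le_iff_exists.mp hJ₂A
  have hvM' : v ∈ cj x M := hJ₂M' hvJ₂
  have hcjJ₁ : cj v J₁ = J₁ := cj_eq_self_of_le_normalizer hJ₂N hvJ₂
  have hvAM : cj v A ≤ M := by
    have : cj v A ≤ J₁ := by rw [← hcjJ₁]; exact cj_mono v hAJ₁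
    exact this.trans (hJ₁N.trans h.hN)
  have hvmem : cj v A ∈ 𝒞 := hmem v hvAM (cj_le_of_mem hvM' hAM')
  have hvx : cj v A ≠ cj x A := by
    intro e
    have h1 : cj (x⁻¹ * v) A = A := by rw [cj_mul, e, cj_inv_cj]
    have h2 : x⁻¹ * v ∈ M := h.hN (cj_eq_self_iff.mp h1)
    have h3 : x⁻¹ * v * x ∈ M := mem_cj.mp hvM'
    have h4 : x ∈ M := by
      have := M.mul_mem (M.inv_mem h2) h3
      have h5 : (x⁻¹ * v)⁻¹ * (x⁻¹ * v * x) = x := by group
      rwa [h5] at this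
    exact hMM' (cj_eq_of_mem h4).symm
  have hvLc : v ∈ Lc := by
    apply hLc_of_maps
    rintro C ⟨⟨g', rfl⟩, hCM, hCM'⟩
    rw [← cj_mul]
    refine hline v x (v * g') hvmem hxmem hvx ?_ ?_
    · rw [cj_mul]; exact cj_mono v hCM
    · rw [cj_mul]
      have := cj_mono v hCM'
      rwa [cj_eq_of_mem hvM'] at this
  have hnotrsn : ¬ RSN (cj (m * g) A) Lc := by
    intro hr
    have := fp_of_rsn hr 𝒞 A (fun l hl C hC => ((hLc l).mp hl C).mp hC) hAmem
      (fun c hc => (hC₃ c hc).1) hfix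
    exact hvA (this hvLc)
  have hLctop : Lc ≠ ⊤ := by
    intro e
    have h1 : m * g ∈ Lc := e ▸ Subgroup.mem_top _
    exact hC₃not (((hLc _).mp h1 A).mp hAmem)
  have hLcM₃ : Lc ≤ cj (m * g) M := by
    by_contra hn
    exact hnotrsn (h.c2 (m * g) Lc hLctop hC₃Lc hn)
  have hxLc : cj x A ≤ Lc := by
    intro a ha
    apply hLc_of_maps
    rintro C ⟨⟨g₀, rfl⟩, hCM, hCM'⟩
    have hN : cj x A ≤ Subgroup.normalizer (cj g₀ A : Set G) := by
      by_cases e : cj x A = cj g₀ A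
      · rw [← e]; exact Subgroup.le_normalizer
      · obtain ⟨a1, a2, a3⟩ := hadjC x g₀ hxmem (hmem g₀ hCM hCM') e
        exact h.adj_norm a1 a2 a3
    rw [cj_eq_self_of_le_normalizer hN ha]
    exact hmem g₀ hCM hCM'
  have hM₃ : M ≠ cj (m * g) M := by
    intro e
    have h1 : cj m⁻¹ M = cj g M := by
      conv_lhs => rw [e]
      rw [cj_mul, cj_inv_cj]
    rw [cj_eq_of_mem (M.inv_mem hmM)] at h1
    exact hne1 g hg hgA h1.symm
  have hfin := (h.c4 x (m * g) M (cj (m * g) M) h.hM (isCoatom_cj h.hM _) hM₃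
    (fun e => hC₃not (e ▸ hxmem)) hxM (hxLc.trans hLcM₃) hC₃M (h.cjA_le (m * g))).2.2
  exact hC₃not (hmem _ hC₃M hfin)

/-- Flavell's theorem, in internal form. -/
theorem flavell_aux {G : Type*} [Group G] [Finite G] :
    ∀ (n : ℕ) (A : Subgroup G), Nat.card G - Nat.card A ≤ n → A ≠ ⊤ → Perf A ⊤ →
      sSup {H : Subgroup G | Perf A H ∧ H ≠ ⊤} ≠ ⊤ →
      ∀ K₁ K₂ : Subgroup G, IsCoatom K₁ → IsCoatom K₂ → A ≤ K₁ → A ≤ K₂ → K₁ = K₂ := by
  intro n
  induction n with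
  | zero =>
    intro A hcard hAtop
    exfalso
    apply hAtop
    apply (Subgroup.card_eq_iff_eq_top A).mp
    have := Subgroup.card_le_card_group A
    omega
  | succ n ih =>
    intro A hcard hAtop hperf hY K₁ K₂ hK₁ hK₂ hAK₁ hAK₂
    by_contra hne
    have IH : ∀ B : Subgroup G, Nat.card A < Nat.card B → B ≠ ⊤ → Perf B ⊤ →
        sSup {H : Subgroup G | Perf B H ∧ H ≠ ⊤} ≠ ⊤ →
        ∀ K₁ K₂ : Subgroup G, IsCoatom K₁ → IsCoatom K₂ → B ≤ K₁ → B ≤ K₂ → K₁ = K₂ := by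
      intro B hB
      have := Subgroup.card_le_card_group B
      exact ih B (by omega)
    set Y : Subgroup G := sSup {H : Subgroup G | Perf A H ∧ H ≠ ⊤} with hYdef
    have hYperf : Perf A Y := perf_sSup ⟨A, perf_self A, hAtop⟩ (fun H hH => hH.1)
    have hYN : Subgroup.normalizer (Y : Set G) ≠ ⊤ := by
      intro e
      exact hY (top_le_iff.mp (hperf.2 Y hYperf.1 e.ge))
    rcases eq_top_or_exists_le_coatom (Subgroup.normalizer (Y : Set G)) with hYt | ⟨M, hM, hNYM⟩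
    · exact hYN hYt
    have hYM : Y ≤ M := Subgroup.le_normalizer.trans hNYM
    have hNA : Subgroup.normalizer (A : Set G) ≤ M := by
      refine le_trans ?_ hNYM
      intro a ha
      apply cj_eq_self_iff.mp
      refine Subgroup.eq_of_le_of_card_ge ?_ (by rw [card_cj])
      apply le_sSup
      refine ⟨?_, cj_ne_top a hY⟩
      have := hYperf.conj a
      rwa [cj_eq_self_iff.mpr ha] at this
    have hAM : A ≤ M := hYperf.1.trans hYM
    have c2 : ∀ (g : G) (L : Subgroup G), L ≠ ⊤ → cj g A ≤ L → (¬ L ≤ cj g M ∨ Y = A) →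
        RSN (cj g A) L := by
      intro g L hL hAL hor
      have hAL' : A ≤ cj g⁻¹ L := (cj_le_iff g A L).mp hAL
      rcases rsn_or_exists_perf A _ (cj g⁻¹ L) le_rfl hAL' with hr | ⟨H, hHL, hHne, hHp⟩
      · have := hr.conj g
        rwa [cj_cj_inv] at this
      · exfalso
        have hL' : cj g⁻¹ L ≠ ⊤ := cj_ne_top g⁻¹ hL
        have hHtop : H ≠ ⊤ := fun e => hL' (top_le_iff.mp (e ▸ hHL))
        have hHY : H ≤ Y := le_sSup ⟨hHp, hHtop⟩
        rcases hor with hLM | hYA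
        · have hHlt : Nat.card A < Nat.card H := card_lt_of_le_of_ne' hHp.1 (Ne.symm hHne)
          have hHperf : Perf H ⊤ :=
            ⟨le_top, fun X hHX hX => hperf.2 X (hHp.1.trans hHX) hX⟩
          have hHs : sSup {P : Subgroup G | Perf H P ∧ P ≠ ⊤} ≠ ⊤ := by
            intro e
            apply hY
            rw [eq_top_iff, ← e]
            apply sSup_le
            rintro P ⟨hP, hPtop⟩
            exact le_sSup ⟨hHp.trans hP, hPtop⟩
          rcases eq_top_or_exists_le_coatom (cj g⁻¹ L) with ht | ⟨K', hK', hLK'⟩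
          · exact hL' ht
          · have := IH H hHlt hHtop hHperf hHs M K' hM hK' (hHY.trans hYM) (hHL.trans hLK')
            apply hLM
            have h1 : cj g⁻¹ L ≤ M := this ▸ hLK'
            have h2 := (cj_le_iff g⁻¹ L M).mp h1
            rwa [inv_inv] at h2
        · exact hHne (le_antisymm (hYA ▸ hHY) hHp.1)
    -- a second maximal subgroup
    obtain ⟨K, hK, hKM, hAK⟩ : ∃ K : Subgroup G, IsCoatom K ∧ K ≠ M ∧ A ≤ K := by
      by_cases e : K₁ = M
      · exact ⟨K₂, hK₂, fun e2 => hne (e.trans e2.symm), hAK₂⟩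
      · exact ⟨K₁, hK₁, e, hAK₁⟩
    have hKM' : ¬ K ≤ M := fun hle => hKM (coatom_eq_of_le hK hM hle)
    have hrsnK : RSN A K := by
      have := c2 1 K hK.1 (by rw [cj_one]; exact hAK) (Or.inl (by rw [cj_one]; exact hKM'))
      rwa [cj_one] at this
    have hKN : ¬ K ≤ Subgroup.normalizer (A : Set G) := fun hle => hKM' (hle.trans hNA)
    obtain ⟨H₁, H₂, hAH₁, hH₁₂, hH₂K, hH₁N, hH₂N, hH₂A⟩ :=
      exists_two_step A _ K le_rfl hrsnK hKN
    obtain ⟨x, hxH₂, hxN⟩ := SetLike.not_le_iff_exists.mp hH₂A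
    have hcjH₁ : cj x H₁ = H₁ := cj_eq_self_of_le_normalizer hH₂N hxH₂
    have hxH₁ : cj x A ≤ H₁ := by rw [← hcjH₁]; exact cj_mono x hAH₁
    have hxM : cj x A ≤ M := hxH₁.trans (hH₁N.trans hNA)
    have hxK : cj x A ≤ K := hxH₁.trans (hH₁₂.trans hH₂K)
    have hxA : cj x A ≠ A := fun e => hxN (cj_eq_self_iff.mp e)
    by_cases hYA : Y = A
    · -- the zipper case
      have hcard : Nat.card A < Nat.card ↥(A ⊔ cj x A) := by
        have h1 : A ≠ A ⊔ cj x A := by
          intro e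
          have h2 : cj x A ≤ A := by
            have h0 : cj x A ≤ A ⊔ cj x A := le_sup_right
            rwa [← e] at h0
          exact hxA (Subgroup.eq_of_le_of_card_ge h2 (by rw [card_cj]))
        exact card_lt_of_le_of_ne' le_sup_left h1
      have hTM : A ⊔ cj x A ≤ M := sup_le hAM hxM
      have hTtop : A ⊔ cj x A ≠ ⊤ := fun e => hM.1 (top_le_iff.mp (e ▸ hTM))
      have hTperf : Perf (A ⊔ cj x A) ⊤ :=
        ⟨le_top, fun X hTX hX => hperf.2 X (le_sup_left.trans hTX) hX⟩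
      have hs : sSup {H : Subgroup G | Perf (A ⊔ cj x A) H ∧ H ≠ ⊤} ≠ ⊤ := by
        intro e
        have hle : sSup {H : Subgroup G | Perf (A ⊔ cj x A) H ∧ H ≠ ⊤} ≤ A ⊔ cj x A := by
          apply sSup_le
          rintro P ⟨hP, hPtop⟩
          have r1 : RSN A P := by
            have := c2 1 P hPtop (by rw [cj_one]; exact le_sup_left.trans hP.1) (Or.inr hYA)
            rwa [cj_one] at this
          have r2 : RSN (cj x A) P := c2 x P hPtop (le_sup_right.trans hP.1) (Or.inr hYA)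
          exact (eq_of_rsn_of_perf (r1.sup r2) hP).ge
        rw [e] at hle
        exact hTtop (top_le_iff.mp hle)
      exact hKM (IH _ hcard hTtop hTperf hs K M hK hM (sup_le hAK hxK) hTM)
    · -- the main case
      have ctx : Ctx A M :=
        { hM := hM
          hAM := hAM
          hN := hNA
          hperf := hperf
          c2 := fun g L hL hAL hLM => c2 g L hL hAL (Or.inl hLM)
          ih := IH }
      have hMA : ¬ M ≤ Subgroup.normalizer (A : Set G) := by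
        intro hle
        exact hYA (le_antisymm (hYperf.2 A le_rfl (hYM.trans hle)) hYperf.1)
      exact main_contra ctx hMA K hK hKM hAK x hxA hxM hxK

/-- Flavell's theorem: if `A < G` has normal closure `G`, and the `A`-perfect proper subgroups
do not generate `G`, then `A` lies in a unique maximal subgroup. -/
theorem flavell {G : Type*} [Group G] [Finite G] (A : Subgroup G)
    (hA : Subgroup.normalClosure (A : Set G) = ⊤) (hAG : A ≠ ⊤)
    (hY : sSup {H : Subgroup G | A ≤ H ∧ H ≠ ⊤ ∧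
      Subgroup.normalClosure ((A.subgroupOf H : Subgroup ↥H) : Set ↥H) = ⊤} ≠ ⊤) :
    ∃! M : Subgroup G, IsCoatom M ∧ A ≤ M := by
  have hset : {H : Subgroup G | A ≤ H ∧ H ≠ ⊤ ∧
      Subgroup.normalClosure ((A.subgroupOf H : Subgroup ↥H) : Set ↥H) = ⊤} =
      {H : Subgroup G | Perf A H ∧ H ≠ ⊤} := by
    ext H
    simp only [Set.mem_ofPred_eq, perf_iff]
    tauto
  rw [hset] at hY
  rcases eq_top_or_exists_le_coatom A with ht | ⟨M, hM, hAM⟩
  · exact absurd ht hAG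
  · refine ⟨M, ⟨hM, hAM⟩, ?_⟩
    rintro M' ⟨hM', hAM'⟩
    exact flavell_aux _ A le_rfl hAG ((perf_top_iff A).mpr hA) hY M' M hM' hM hAM' hAM

end Cfsg.Agent.Lib.Helper31
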