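import Mathlib
import Cfsg.Agent.Lib.Helper84.GADefs
import Cfsg.Agent.Lib.Helper63.Hup4

/-!
# Project GA (S4840), piece FIX81

`|V| = 81`: an element of order 5 normalises no nontrivial 3-subgroup.
-/

set_option autoImplicit false

namespace Cfsg.Agent.Lib.Helper31.GA

universe u

open Cfsg.Agent.Lib.Helper84.GA

theorem fix81 : Fix81Stmt.{u} := by
  intro p _ Γ _ _ V _ _ _ ρ hTL hp3 hV M hM hMp h hh hc1 hc2
  classical
  subst hp3
  -- the fixed space of `M`
  let W : Submodule (ZMod 3) V :=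
    { carrier := {v | ∀ m ∈ M, ρ m v = v}
      add_mem' := by
        intro a b ha hb m hm
        rw [map_add, ha m hm, hb m hm]
      zero_mem' := by
        intro m hm
        rw [map_zero]
      smul_mem' := by
        intro c a ha m hm
        rw [map_smul, ha m hm] }
  have hWmem : ∀ v, v ∈ W ↔ ∀ m ∈ M, ρ m v = v := fun v => Iff.rfl
  -- `W ≠ ⊥`
  have hWbot : W ≠ ⊥ := by
    letI : MulAction M V := MulAction.compHom V (ρ.comp M.subtype)
    have hsmul : ∀ (x : M) (v : V), x • v = ρ x v := fun x v => rfl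
    have hqV : 3 ∣ Nat.card V := by rw [hV]; norm_num
    have h0 : (0 : V) ∈ MulAction.fixedPoints M V := by
      intro x; rw [hsmul, map_zero]
    obtain ⟨v₀, hv₀f, hv₀⟩ := hMp.exists_fixed_point_of_prime_dvd_card_of_fixed_point V hqV h0
    intro hbot
    have hmem : v₀ ∈ W := by
      rw [hWmem]
      intro m hm
      exact hv₀f ⟨m, hm⟩
    rw [hbot, Submodule.mem_bot] at hmem
    exact hv₀ hmem.symm
  -- `W ≠ ⊤`
  have hWtop : W ≠ ⊤ := by
    intro htop
    apply hM
    rw [eq_bot_iff]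
    intro m hm
    rw [Subgroup.mem_bot]
    apply hTL.inj
    rw [map_one]
    apply LinearEquiv.ext
    intro v
    have hvW : v ∈ W := by rw [htop]; exact Submodule.mem_top
    exact (hWmem v).1 hvW m hm
  -- invariance under `h`
  have hWinv : ∀ v ∈ W, ρ h v ∈ W := by
    intro v hv
    rw [hWmem] at hv ⊢
    intro m hm
    have e : m * h = h * (h⁻¹ * m * h) := by group
    have e2 : ρ m (ρ h v) = ρ h (ρ (h⁻¹ * m * h) v) := by
      show (ρ m * ρ h) v = (ρ h * ρ (h⁻¹ * m * h)) v
      rw [← map_mul, ← map_mul, e]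
    rw [e2, hv _ (hc2 m hm)]
  have hα : (ρ h) ^ 5 = 1 := by
    rw [← map_pow, ← hh, pow_orderOf_eq_one, map_one]
  have hmod := Cfsg.Agent.Lib.Helper63.Hup4.fix_modEq 5 (by norm_num) (ρ h) hα W hWinv
  have hinf : (W ⊓ LinearMap.eqLocus ((ρ h : V ≃ₗ[ZMod 3] V) : V →ₗ[ZMod 3] V) LinearMap.id :
      Submodule (ZMod 3) V) = ⊥ := by
    rw [eq_bot_iff]
    intro v hv
    rw [Submodule.mem_bot]
    by_contra hv0
    have hfix : ρ h v = v := hv.2
    obtain ⟨k, hk⟩ := hTL.stab v hv0 h hfix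
    rw [hh] at hk
    have h35 : 3 ∣ 5 := by
      rcases k with _ | k
      · simp at hk
      · rw [hk]; exact dvd_pow_self 3 (Nat.succ_ne_zero k)
    omega
  rw [hinf] at hmod
  have hbotc : Nat.card (⊥ : Submodule (ZMod 3) V) = 1 := by
    simp
  rw [hbotc] at hmod
  obtain ⟨i, hi⟩ := Cfsg.Agent.Lib.Helper63.Hup4.card_submodule W
  have hne1 : Nat.card W ≠ 1 := by
    intro h1
    apply hWbot
    haveI : Subsingleton W := (Nat.card_eq_one_iff_unique.1 h1).1
    exact Submodule.eq_bot_of_subsingleton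
  have hne81 : Nat.card W ≠ 81 := by
    intro h81
    exact hWtop (Cfsg.Agent.Lib.Helper63.Hup4.eq_top_of_card W (by rw [h81, hV]))
  have hle : Nat.card W ≤ 81 := by
    rw [← hV]
    exact Nat.card_le_card_of_injective _ Subtype.val_injective
  rw [hi] at hmod hne1 hne81 hle
  have hi4 : i ≤ 4 := by
    by_contra hgt
    have h5 : 5 ≤ i := by omega
    have hpow : (3 : ℕ) ^ 5 ≤ 3 ^ i := Nat.pow_le_pow_right (by norm_num) h5
    norm_num at hpow
    omega
  unfold Nat.ModEq at hmod
  interval_cases i <;> simp_all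

end Cfsg.Agent.Lib.Helper31.GA
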