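import Mathlib
import Cfsg.Agent.Lib.Helper84.GADefs
import Cfsg.Agent.Lib.Helper63.Hup1
import Cfsg.Agent.Lib.Helper63.Hup4

/-!
# Project GA (S4840), piece N5

`|V| = 81`: a normal subgroup of order 5.
-/

set_option autoImplicit false

namespace Cfsg.Agent.Lib.Helper31.GA

universe u

open Cfsg.Agent.Lib.Helper84.GA

theorem n5_two_pow_dvd (a : ℕ) (h : 2 ^ a ∣ 80) : a ≤ 4 := by
  by_contra hgt
  have h5 : 5 ≤ a := by omega
  have hd : (2 : ℕ) ^ 5 ∣ 2 ^ a := pow_dvd_pow 2 h5
  have hd2 := dvd_trans hd h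
  norm_num at hd2

theorem n5_five_pow_dvd (j : ℕ) (h : 5 ^ j ∣ 80) : j ≤ 1 := by
  by_contra hgt
  have h2 : 2 ≤ j := by omega
  have hd : (5 : ℕ) ^ 2 ∣ 5 ^ j := pow_dvd_pow 5 h2
  have hd2 := dvd_trans hd h
  norm_num at hd2

theorem n5_prime_dvd (r : ℕ) (hr : r.Prime) (h : r ∣ 80) : r = 2 ∨ r = 5 := by
  have h80 : (80 : ℕ) = 2 ^ 4 * 5 := by norm_num
  rw [h80] at h
  rcases (Nat.Prime.dvd_mul hr).1 h with h1 | h1
  · left
    exact (Nat.prime_dvd_prime_iff_eq hr Nat.prime_two).1 (hr.dvd_of_dvd_pow h1)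
  · right
    exact (Nat.prime_dvd_prime_iff_eq hr (by norm_num)).1 h1

theorem n5_of (hf : FreeStmt.{u}) (hi : InvStmt.{u}) : N5Stmt.{u} := by
  intro p _ Γ _ _ V _ _ _ _ ρ hTL hsol hp3 hV
  classical
  subst hp3
  have h80 : 80 ∣ Nat.card Γ := by
    have h1 := Cfsg.Agent.Lib.Helper63.Hup4.card_dvd ρ hTL.trans
    rwa [hV] at h1
  haveI : Fact (Nat.Prime 5) := ⟨by norm_num⟩
  haveI : Fact (Nat.Prime 2) := ⟨Nat.prime_two⟩
  obtain ⟨h, hh⟩ := exists_prime_orderOf_dvd_card' 5 (dvd_trans (by norm_num) h80)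
  have hh1 : h ≠ 1 := by
    intro h1
    rw [h1, orderOf_one] at hh
    norm_num at hh
  -- subgroups of prime power order prime to 3 have order dividing 80
  have hcard80 : ∀ (r : ℕ) [Fact r.Prime] (N : Subgroup Γ), r ≠ 3 → IsPGroup r N →
      Nat.card N ∣ 80 := by
    intro r _ N hr hN
    have hcop : (Nat.card N).Coprime 3 := by
      obtain ⟨j, hj⟩ := IsPGroup.iff_card.1 hN
      rw [hj]
      apply Nat.Coprime.pow_left
      exact (Nat.coprime_primes Fact.out (by norm_num)).2 hr
    have h1 := hf 3 Γ V ρ hTL N hcop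
    rwa [hV] at h1
  have h3bot : ∀ (N : Subgroup Γ), N.Normal → IsPGroup 3 N → N = ⊥ := by
    intro N hN hN3
    haveI := hN
    exact Cfsg.Agent.Lib.Helper63.Hup4.oq_trivial ρ hTL.inj hTL.trans N hN3
  by_cases hcase : ∃ (r : ℕ) (_ : Fact r.Prime) (N : Subgroup Γ), N.Normal ∧ IsPGroup r N ∧
      ∃ y ∈ N, y * h ≠ h * y
  · obtain ⟨r, hrF, N, hNn, hNr, y, hyN, hyh⟩ := hcase
    haveI := hrF
    haveI := hNn
    have hr : r.Prime := Fact.out
    have hNbot : N ≠ ⊥ := by
      intro hbot
      rw [hbot, Subgroup.mem_bot] at hyN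
      apply hyh
      rw [hyN, one_mul, mul_one]
    have hr3 : r ≠ 3 := by
      intro h3
      subst h3
      exact hNbot (h3bot N hNn hNr)
    have hd := hcard80 r N hr3 hNr
    obtain ⟨j, hj⟩ := IsPGroup.iff_card.1 hNr
    have hj0 : j ≠ 0 := by
      intro h0
      rw [h0, pow_zero] at hj
      exact hNbot (Subgroup.eq_bot_of_card_eq N hj)
    have hrd : r ∣ 80 := by
      rw [hj] at hd
      exact dvd_trans (dvd_pow_self r hj0) hd
    rcases n5_prime_dvd r hr hrd with h2 | h5
    · -- `r = 2`
      exfalso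
      subst h2
      rw [hj] at hd
      have hj4 := n5_two_pow_dvd j hd
      -- an involution in `N`
      have h2N : 2 ∣ Nat.card N := by
        rw [hj]; exact dvd_pow_self 2 hj0
      obtain ⟨t, ht⟩ := exists_prime_orderOf_dvd_card' 2 h2N
      have ht2 : orderOf (t : Γ) = 2 := by
        rw [Subgroup.orderOf_coe]; exact ht
      have htc := (hi 3 Γ V ρ hTL (by norm_num) (t : Γ) ht2).1
      have ht1 : t ≠ 1 := by
        intro h1
        rw [h1, orderOf_one] at ht
        norm_num at ht
      -- the action of `⟨h⟩` on `N`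
      letI : MulAction (Subgroup.zpowers h) N :=
        MulAction.compHom N ((MulAut.conjNormal (H := N)).comp (Subgroup.zpowers h).subtype)
      have hsmul : ∀ (x : Subgroup.zpowers h) (n : N),
          ((x • n : N) : Γ) = (x : Γ) * n * (x : Γ)⁻¹ := fun x n => rfl
      have hP5 : IsPGroup 5 (Subgroup.zpowers h) := by
        apply IsPGroup.of_card (n := 1)
        rw [Nat.card_zpowers, hh, pow_one]
      have hcong := hP5.card_modEq_card_fixedPoints N
      let F : Subgroup N := (Subgroup.centralizer ({h} : Set Γ)).subgroupOf N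
      have hFmem : ∀ n : N, n ∈ F ↔ h * (n : Γ) = (n : Γ) * h := by
        intro n
        show (n : Γ) ∈ Subgroup.centralizer ({h} : Set Γ) ↔ _
        rw [Subgroup.mem_centralizer_iff]
        constructor
        · intro hn
          exact hn h (Set.mem_singleton h)
        · intro hn g hg
          rw [Set.mem_singleton_iff] at hg
          rw [hg]; exact hn
      have hset : MulAction.fixedPoints (Subgroup.zpowers h) N = (F : Set N) := by
        ext n
        rw [MulAction.mem_fixedPoints, SetLike.mem_coe, hFmem]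
        constructor
        · intro hn
          have h1 := congrArg (Subtype.val) (hn ⟨h, Subgroup.mem_zpowers h⟩)
          rw [hsmul] at h1
          have h2 : h * (n : Γ) * h⁻¹ = (n : Γ) := h1
          calc h * (n : Γ) = h * (n : Γ) * h⁻¹ * h := by group
            _ = (n : Γ) * h := by rw [h2]
        · intro hn x
          apply Subtype.ext
          rw [hsmul]
          obtain ⟨k, hk⟩ := Subgroup.mem_zpowers_iff.1 x.2
          have hcomm : Commute h (n : Γ) := hn
          have hcomm2 : Commute (h ^ k) (n : Γ) := hcomm.zpow_left k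
          rw [← hk]
          have h3 : h ^ k * (n : Γ) = (n : Γ) * h ^ k := hcomm2
          rw [h3]
          group
      have hcardF : Nat.card (MulAction.fixedPoints (Subgroup.zpowers h) N) = Nat.card F := by
        rw [hset]; rfl
      rw [hcardF, hj] at hcong
      have hFd : Nat.card F ∣ Nat.card N := Subgroup.card_subgroup_dvd_card F
      rw [hj] at hFd
      obtain ⟨b, hb, hFb⟩ := (Nat.dvd_prime_pow Nat.prime_two).1 hFd
      have htF : t ∈ F := by
        rw [hFmem]
        exact (htc h).symm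
      have hb0 : b ≠ 0 := by
        intro h0
        rw [h0, pow_zero] at hFb
        have hFbot := Subgroup.eq_bot_of_card_eq F hFb
        rw [hFbot, Subgroup.mem_bot] at htF
        exact ht1 htF
      rw [hFb] at hcong
      have hjb : j = b := by
        have hb1 : 1 ≤ b := Nat.pos_of_ne_zero hb0
        unfold Nat.ModEq at hcong
        interval_cases j <;> interval_cases b <;> first | rfl | (exfalso; revert hcong; decide)
      have hFtop : F = ⊤ := by
        apply Subgroup.eq_top_of_card_eq
        rw [hFb, hj, hjb]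
      have hyF : (⟨y, hyN⟩ : N) ∈ F := by rw [hFtop]; exact Subgroup.mem_top _
      rw [hFmem] at hyF
      exact hyh hyF.symm
    · -- `r = 5`
      subst h5
      rw [hj] at hd
      have hj1 := n5_five_pow_dvd j hd
      have hj1' : j = 1 := by omega
      refine ⟨N, hNn, ?_⟩
      rw [hj, hj1', pow_one]
  · -- `h` centralises all normal subgroups of prime power order
    have hall : ∀ (r : ℕ) [Fact r.Prime] (N : Subgroup Γ), N.Normal → IsPGroup r N →
        ∀ y ∈ N, y * h = h * y := by
      intro r hrF N hNn hNr y hy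
      by_contra hne
      exact hcase ⟨r, hrF, N, hNn, hNr, y, hy, hne⟩
    obtain ⟨N, hNn, hN5, hhN⟩ := Cfsg.Agent.Lib.Helper63.Hup1.mem_normal_pgroup hsol 5 h 1
      (by rw [hh, pow_one]) hall
    refine ⟨N, hNn, ?_⟩
    have hd := hcard80 5 N (by norm_num) hN5
    obtain ⟨j, hj⟩ := IsPGroup.iff_card.1 hN5
    rw [hj] at hd
    have hj1 := n5_five_pow_dvd j hd
    have hj0 : j ≠ 0 := by
      intro h0
      rw [h0, pow_zero] at hj
      have hbot := Subgroup.eq_bot_of_card_eq N hj
      rw [hbot, Subgroup.mem_bot] at hhN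
      exact hh1 hhN
    have hj1' : j = 1 := by omega
    rw [hj, hj1', pow_one]

end Cfsg.Agent.Lib.Helper31.GA
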