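import Cfsg.Agent.Lib.Helper47.GLSylDefs

/-!
# Piece MAXWR for S2249 (poster helper47)

Normal elementary abelian `2`-subgroups of a regular wreath product `D ≀ᵣ Q` with `|Q| = 2`
lie in the base group as soon as `D` has an element whose square is not `1`; hence their order
is at most the square of the bound for `D`.
-/

set_option autoImplicit false

namespace Cfsg.Agent.Lib.Helper31.GLSyl

open Cfsg.Agent.Lib.Helper47
open RegularWreathProduct

section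

variable {D Q : Type*} [Group D] [Group Q]

/-- In a normal subgroup of exponent two of `D ≀ᵣ Q`, every element lies in the base group,
provided `D` has an element whose square is not `1`. -/
theorem wr_right_eq_one [DecidableEq Q] (E : Subgroup (D ≀ᵣ Q)) (hn : E.Normal)
    (h2 : ∀ x ∈ E, x ^ 2 = 1) {t : D} (ht : t ^ 2 ≠ 1) (a : D ≀ᵣ Q) (ha : a ∈ E) :
    a.right = 1 := by
  by_contra hr
  set b : D ≀ᵣ Q := ⟨Pi.mulSingle 1 t, 1⟩ with hb
  have hbl : b.left = Pi.mulSingle 1 t := rfl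
  have hbr : b.right = 1 := rfl
  have hcE : b * a * b⁻¹ * a⁻¹ ∈ E := E.mul_mem (hn.conj_mem a ha b) (E.inv_mem ha)
  have hcr : (b * a * b⁻¹ * a⁻¹).right = 1 := by
    simp [hbr]
  have hcl : (b * a * b⁻¹ * a⁻¹).left 1 = t := by
    have hne : a.right⁻¹ ≠ 1 := fun h => hr (inv_eq_one.mp h)
    simp [hbr, hbl, Pi.mulSingle_eq_of_ne hne]
  have hsq := h2 _ hcE
  have hsq1 : ((b * a * b⁻¹ * a⁻¹) ^ 2).left 1 = t ^ 2 := by
    rw [pow_two, RegularWreathProduct.mul_left, Pi.mul_apply, hcr, inv_one, one_mul, hcl,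
      pow_two]
  rw [hsq] at hsq1
  exact ht hsq1.symm

/-- The projection of a subgroup of the base group onto the coordinate `q`. -/
def wrCoord (E : Subgroup (D ≀ᵣ Q)) (hE : ∀ a ∈ E, a.right = 1) (q : Q) : Subgroup D where
  carrier := {d | ∃ a ∈ E, a.left q = d}
  mul_mem' := by
    rintro _ _ ⟨a, ha, rfl⟩ ⟨a', ha', rfl⟩
    refine ⟨a * a', E.mul_mem ha ha', ?_⟩
    rw [RegularWreathProduct.mul_left, Pi.mul_apply, hE a ha, inv_one, one_mul]
  one_mem' := ⟨1, E.one_mem, rfl⟩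
  inv_mem' := by
    rintro _ ⟨a, ha, rfl⟩
    refine ⟨a⁻¹, E.inv_mem ha, ?_⟩
    rw [RegularWreathProduct.inv_left, hE a ha]
    simp

theorem wrCoord_normal [DecidableEq Q] (E : Subgroup (D ≀ᵣ Q)) (hn : E.Normal)
    (hE : ∀ a ∈ E, a.right = 1) (q : Q) : (wrCoord E hE q).Normal := by
  constructor
  rintro _ ⟨a, ha, rfl⟩ d₀
  refine ⟨(⟨Pi.mulSingle q d₀, 1⟩ : D ≀ᵣ Q) * a * (⟨Pi.mulSingle q d₀, 1⟩ : D ≀ᵣ Q)⁻¹,
    hn.conj_mem a ha _, ?_⟩
  simp [hE a ha]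

theorem wrCoord_comm (E : Subgroup (D ≀ᵣ Q)) (hE : ∀ a ∈ E, a.right = 1)
    (hc : ∀ x ∈ E, ∀ y ∈ E, x * y = y * x) (q : Q) :
    ∀ x ∈ wrCoord E hE q, ∀ y ∈ wrCoord E hE q, x * y = y * x := by
  rintro _ ⟨a, ha, rfl⟩ _ ⟨a', ha', rfl⟩
  have h := congrArg (fun c : D ≀ᵣ Q => c.left q) (hc a ha a' ha')
  simpa [hE a ha, hE a' ha'] using h

theorem wrCoord_sq (E : Subgroup (D ≀ᵣ Q)) (hE : ∀ a ∈ E, a.right = 1)
    (h2 : ∀ x ∈ E, x ^ 2 = 1) (q : Q) : ∀ x ∈ wrCoord E hE q, x ^ 2 = 1 := by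
  rintro _ ⟨a, ha, rfl⟩
  have h := congrArg (fun c : D ≀ᵣ Q => c.left q) (h2 a ha)
  simpa [pow_two, hE a ha] using h

end

theorem MaxNE_wreath {D Q : Type*} [Group D] [Group Q] [Finite D] [Finite Q]
    (hQ : Nat.card Q = 2) {m : ℕ} (ht : ∃ t : D, t ^ 2 ≠ 1) (h : MaxNE D m) :
    MaxNE (D ≀ᵣ Q) (2 * m) := by
  classical
  obtain ⟨t, ht⟩ := ht
  intro E hn hc h2
  have hE : ∀ a ∈ E, a.right = 1 := wr_right_eq_one E hn h2 ht
  have hq : ∀ q : Q, Nat.card (wrCoord E hE q) ≤ 2 ^ m := fun q =>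
    h _ (wrCoord_normal E hn hE q) (wrCoord_comm E hE hc q) (wrCoord_sq E hE h2 q)
  have : Fintype Q := Fintype.ofFinite Q
  have hinj : Function.Injective
      (fun (a : E) (q : Q) => (⟨a.1.left q, a.1, a.2, rfl⟩ : wrCoord E hE q)) := by
    intro a a' haa
    apply Subtype.ext
    ext q
    · have := congrFun haa q
      exact congrArg Subtype.val this
    · rw [hE a.1 a.2, hE a'.1 a'.2]
  calc Nat.card E ≤ Nat.card (∀ q : Q, wrCoord E hE q) := Nat.card_le_card_of_injective _ hinj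
    _ = ∏ q : Q, Nat.card (wrCoord E hE q) := Nat.card_pi
    _ ≤ ∏ _q : Q, 2 ^ m := Finset.prod_le_prod' (fun q _ => hq q)
    _ = (2 ^ m) ^ Nat.card Q := by
        rw [Finset.prod_const, Finset.card_univ, Nat.card_eq_fintype_card]
    _ = 2 ^ (2 * m) := by rw [hQ, ← pow_mul, mul_comm]

end Cfsg.Agent.Lib.Helper31.GLSyl
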