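import Cfsg.Agent.Lib.Helper47.GLSylDefs

/-!
# Piece SD for S2249 (poster helper47)

A Sylow `2`-subgroup of `GL₂(q)`, `q ≡ 3 (mod 4)`, has no normal elementary abelian subgroup of
order greater than `2`.
-/

set_option autoImplicit false

namespace Cfsg.Agent.Lib.Helper31.GLSyl

open Cfsg.Agent.Lib.Helper47 Matrix

section Mat

variable {F : Type*} [Field F]

/-- Cayley–Hamilton for `2 × 2` matrices. -/
theorem sd_ch_two (A : Matrix (Fin 2) (Fin 2) F) :
    A * A = A.trace • A - A.det • (1 : Matrix (Fin 2) (Fin 2) F) := by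
  ext i j
  fin_cases i <;> fin_cases j <;>
    simp [Matrix.mul_apply, Fin.sum_univ_two, Matrix.trace_fin_two, Matrix.det_fin_two] <;> ring

/-- An invertible matrix commuting with a singular `P`, `P² = c P`, `c ≠ 0`, acts on `P` as a
scalar. -/
theorem sd_key_scalar (P N : Matrix (Fin 2) (Fin 2) F) (c : F) (hc : c ≠ 0)
    (hP : P * P = c • P) (hdet : P.det = 0) (hN : IsUnit N) (hcomm : N * P = P * N) :
    ∃ α : F, N * P = α • P := by
  refine ⟨c⁻¹ * (P * N).trace, ?_⟩
  have h1 : (P * N) * (P * N) = (P * N).trace • (P * N) := by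
    rw [sd_ch_two (P * N), Matrix.det_mul, hdet, zero_mul, zero_smul, sub_zero]
  have h2 : (P * N) * (P * N) = (c • (P * N)) * N := by
    calc (P * N) * (P * N) = P * (N * P) * N := by simp only [mul_assoc]
      _ = P * (P * N) * N := by rw [hcomm]
      _ = (P * P) * N * N := by simp only [mul_assoc]
      _ = (c • (P * N)) * N := by rw [hP, Matrix.smul_mul]
  have h3 : (c • (P * N)) * N = ((P * N).trace • P) * N := by
    rw [← h2, h1, Matrix.smul_mul]
  have h4 : c • (P * N) = (P * N).trace • P := hN.mul_left_injective h3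
  rw [hcomm, mul_smul, ← h4, smul_smul, inv_mul_cancel₀ hc, one_smul]

theorem sd_pow_mul_eq (P N : Matrix (Fin 2) (Fin 2) F) (α : F) (h : N * P = α • P) (k : ℕ) :
    N ^ k * P = α ^ k • P := by
  induction k with
  | zero => simp
  | succ k ih =>
    rw [pow_succ, mul_assoc, h, Matrix.mul_smul, ih, smul_smul, pow_succ, mul_comm]

theorem sd_eq_one_or_neg_one_of_pow [Fintype F] (hq : Fintype.card F % 4 = 3)
    (α : F) (j : ℕ) (h : α ^ (2 ^ j) = 1) : α = 1 ∨ α = -1 := by
  have hα0 : α ≠ 0 := by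
    rintro rfl
    rw [zero_pow (pow_ne_zero _ (by norm_num))] at h
    exact zero_ne_one h
  have h1 : α ^ (Fintype.card F - 1) = 1 := FiniteField.pow_card_sub_one_eq_one α hα0
  have hd1 : orderOf α ∣ 2 ^ j := orderOf_dvd_of_pow_eq_one h
  have hd2 : orderOf α ∣ Fintype.card F - 1 := orderOf_dvd_of_pow_eq_one h1
  obtain ⟨i, -, hio⟩ := (Nat.dvd_prime_pow Nat.prime_two).1 hd1
  have hi1 : i ≤ 1 := by
    by_contra hcon
    push Not at hcon
    have h4 : 4 ∣ Fintype.card F - 1 := by
      refine dvd_trans ?_ hd2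
      rw [hio]
      exact pow_dvd_pow 2 (show 2 ≤ i by omega)
    omega
  have hsq : α ^ 2 = 1 := by
    have h2 : orderOf α ∣ 2 := by
      rw [hio]
      calc 2 ^ i ∣ 2 ^ 1 := pow_dvd_pow 2 hi1
        _ = 2 := by norm_num
    exact orderOf_dvd_iff_pow_eq_one.1 h2
  have h0 : (α - 1) * (α + 1) = 0 := by linear_combination hsq
  rcases mul_eq_zero.1 h0 with h | h
  · left; exact sub_eq_zero.1 h
  · right; exact eq_neg_of_add_eq_zero_left h

theorem sd_two_ne_zero [Fintype F] (hq : Fintype.card F % 4 = 3) : (2 : F) ≠ 0 := by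
  intro h
  have h2 : ringChar F = 2 := CharP.ringChar_of_prime_eq_zero Nat.prime_two (by exact_mod_cast h)
  have := FiniteField.even_card_of_char_two h2
  omega

/-- An invertible matrix of `2`-power order commuting with a non-scalar involution `M` is one of
`1, -1, M, -M`. -/
theorem sd_comm_two_pow [Fintype F] (hq : Fintype.card F % 4 = 3)
    (M N : Matrix (Fin 2) (Fin 2) F) (hM : M * M = 1) (hM1 : M ≠ 1) (hM2 : M ≠ -1)
    (hN : IsUnit N) (hcomm : N * M = M * N) (j : ℕ) (hj : N ^ (2 ^ j) = 1) :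
    N = 1 ∨ N = -1 ∨ N = M ∨ N = -M := by
  have h2 : (2 : F) ≠ 0 := sd_two_ne_zero hq
  -- `P = M + 1`
  have hP : (M + 1) * (M + 1) = (2 : F) • (M + 1) := by
    simp only [add_mul, mul_add, hM, mul_one, one_mul, two_smul]; abel
  have hP0 : M + 1 ≠ 0 := fun h => hM2 (eq_neg_of_add_eq_zero_left h)
  have hPdet : (M + 1).det = 0 := by
    by_contra hd
    have hu : IsUnit (M + 1) := (Matrix.isUnit_iff_isUnit_det _).2 (Ne.isUnit hd)
    have h0 : (M + 1) * (M - 1) = (M + 1) * 0 := by
      simp only [add_mul, mul_sub, hM, mul_one, one_mul, mul_zero]; abel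
    exact hM1 (sub_eq_zero.1 (hu.mul_right_injective h0))
  have hPc : N * (M + 1) = (M + 1) * N := by
    rw [mul_add, add_mul, hcomm, mul_one, one_mul]
  -- `P' = M - 1`
  have hP' : (M - 1) * (M - 1) = (-2 : F) • (M - 1) := by
    simp only [sub_mul, mul_sub, hM, mul_one, one_mul, neg_smul, two_smul]; abel
  have hP'0 : M - 1 ≠ 0 := fun h => hM1 (sub_eq_zero.1 h)
  have hP'det : (M - 1).det = 0 := by
    by_contra hd
    have hu : IsUnit (M - 1) := (Matrix.isUnit_iff_isUnit_det _).2 (Ne.isUnit hd)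
    have h0 : (M - 1) * (M + 1) = (M - 1) * 0 := by
      simp only [sub_mul, mul_add, hM, mul_one, one_mul, mul_zero]; abel
    exact hM2 (eq_neg_of_add_eq_zero_left (hu.mul_right_injective h0))
  have hP'c : N * (M - 1) = (M - 1) * N := by
    rw [mul_sub, sub_mul, hcomm, mul_one, one_mul]
  obtain ⟨α, hα⟩ := sd_key_scalar (M + 1) N 2 h2 hP hPdet hN hPc
  obtain ⟨μ, hμ⟩ := sd_key_scalar (M - 1) N (-2) (neg_ne_zero.2 h2) hP' hP'det hN hP'c
  have hαpow : α ^ (2 ^ j) = 1 := by
    have h := sd_pow_mul_eq (M + 1) N α hα (2 ^ j)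
    rw [hj, one_mul] at h
    have h' : (α ^ (2 ^ j) - 1) • (M + 1) = 0 := by rw [sub_smul, one_smul, ← h, sub_self]
    rcases smul_eq_zero.1 h' with h'' | h''
    · exact sub_eq_zero.1 h''
    · exact absurd h'' hP0
  have hμpow : μ ^ (2 ^ j) = 1 := by
    have h := sd_pow_mul_eq (M - 1) N μ hμ (2 ^ j)
    rw [hj, one_mul] at h
    have h' : (μ ^ (2 ^ j) - 1) • (M - 1) = 0 := by rw [sub_smul, one_smul, ← h, sub_self]
    rcases smul_eq_zero.1 h' with h'' | h''
    · exact sub_eq_zero.1 h''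
    · exact absurd h'' hP'0
  have key : (2 : F) • N = α • (M + 1) - μ • (M - 1) := by
    rw [← hα, ← hμ, ← mul_sub, two_smul]
    have : M + 1 - (M - 1) = 1 + 1 := by abel
    rw [this, mul_add, mul_one]
  have hinj : Function.Injective (fun X : Matrix (Fin 2) (Fin 2) F => (2 : F) • X) :=
    smul_right_injective _ h2
  rcases sd_eq_one_or_neg_one_of_pow hq α j hαpow with rfl | rfl <;>
    rcases sd_eq_one_or_neg_one_of_pow hq μ j hμpow with rfl | rfl
  · left
    apply hinj
    show (2 : F) • N = (2 : F) • (1 : Matrix (Fin 2) (Fin 2) F)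
    rw [key, one_smul, one_smul, two_smul]; abel
  · right; right; left
    apply hinj
    show (2 : F) • N = (2 : F) • M
    rw [key, one_smul, neg_smul, one_smul, two_smul]; abel
  · right; right; right
    apply hinj
    show (2 : F) • N = (2 : F) • (-M)
    rw [key, one_smul, neg_smul, one_smul, two_smul]; abel
  · right; left
    apply hinj
    show (2 : F) • N = (2 : F) • (-1 : Matrix (Fin 2) (Fin 2) F)
    rw [key, neg_smul, neg_smul, one_smul, one_smul, two_smul]; abel

end Mat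

theorem sd_sixteen_dvd {F : Type*} [Field F] [Fintype F] (hq : Fintype.card F % 4 = 3) :
    2 ^ 4 ∣ Nat.card (GL (Fin 2) F) := by
  rw [Matrix.card_GL_field, Fin.prod_univ_two]
  obtain ⟨k, hk⟩ : ∃ k, Fintype.card F = 4 * k + 3 := ⟨Fintype.card F / 4, by omega⟩
  have e1 : Fintype.card F ^ 2 - Fintype.card F ^ ((0 : Fin 2) : ℕ)
      = 8 * (2 * k ^ 2 + 3 * k + 1) := by
    rw [hk]
    apply Nat.sub_eq_of_eq_add
    simp only [Fin.val_zero, pow_zero]
    ring
  have e2 : Fintype.card F ^ 2 - Fintype.card F ^ ((1 : Fin 2) : ℕ)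
      = 2 * (8 * k ^ 2 + 10 * k + 3) := by
    rw [hk]
    apply Nat.sub_eq_of_eq_add
    simp only [Fin.val_one, pow_one]
    ring
  rw [e1, e2]
  exact ⟨(2 * k ^ 2 + 3 * k + 1) * (8 * k ^ 2 + 10 * k + 3), by ring⟩

theorem maxNE_sylow_GL2 {F : Type*} [Field F] [Fintype F] (hq : Fintype.card F % 4 = 3)
    (S : Sylow 2 (GL (Fin 2) F)) : MaxNE ↥S 1 := by
  classical
  have : Fact (Nat.Prime 2) := ⟨Nat.prime_two⟩
  intro E hEn hEc hE2
  by_contra hcard
  push Not at hcard
  set mat : ↥S → Matrix (Fin 2) (Fin 2) F :=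
    fun s => ((s : GL (Fin 2) F) : Matrix (Fin 2) (Fin 2) F) with hmat
  have hmat_inj : Function.Injective mat := fun a b h => Subtype.ext (Units.ext h)
  have hmat_mul : ∀ a b, mat (a * b) = mat a * mat b := fun a b => rfl
  have hmat_one : mat 1 = 1 := rfl
  have hmat_unit : ∀ a, IsUnit (mat a) := fun a => ⟨(a : GL (Fin 2) F), rfl⟩
  have hmat_inv_mul : ∀ a, mat a⁻¹ * mat a = 1 := fun a => by
    rw [← hmat_mul, inv_mul_cancel, hmat_one]
  have hmat_mul_inv : ∀ a, mat a * mat a⁻¹ = 1 := fun a => by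
    rw [← hmat_mul, mul_inv_cancel, hmat_one]
  have hmat_pow : ∀ (a : ↥S) (n : ℕ), mat (a ^ n) = mat a ^ n := by
    intro a n
    induction n with
    | zero => simp [hmat_one]
    | succ n ih => rw [pow_succ, hmat_mul, ih, pow_succ]
  -- an element of `E` which is not `±1`
  obtain ⟨e, heE, he1, he2⟩ : ∃ e ∈ E, mat e ≠ 1 ∧ mat e ≠ -1 := by
    by_contra hcon
    push Not at hcon
    have hinj : Function.Injective (fun x : E => decide (mat x.1 = 1)) := by
      intro x y hxy
      apply Subtype.ext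
      apply hmat_inj
      by_cases hx : mat x.1 = 1
      · have hy : mat y.1 = 1 := by
          have : decide (mat x.1 = 1) = decide (mat y.1 = 1) := hxy
          simpa [hx] using this
        rw [hx, hy]
      · have hy : mat y.1 ≠ 1 := by
          have : decide (mat x.1 = 1) = decide (mat y.1 = 1) := hxy
          simpa [hx] using this
        rw [hcon x x.2 hx, hcon y y.2 hy]
    have := Nat.card_le_card_of_injective _ hinj
    rw [Nat.card_eq_fintype_card (α := Bool), Fintype.card_bool] at this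
    omega
  set M := mat e with hMdef
  have hMM : M * M = 1 := by
    rw [hMdef, ← hmat_mul, ← pow_two, hE2 e heE, hmat_one]
  -- conjugates of `M` under `S` are `±M`
  have hconj : ∀ s : ↥S, mat s * M = M * mat s ∨ mat s * M = -(M * mat s) := by
    intro s
    have hmem : s * e * s⁻¹ ∈ E := hEn.conj_mem e heE s
    have hN : mat (s * e * s⁻¹) = mat s * M * mat s⁻¹ := by
      rw [hmat_mul, hmat_mul]
    have hcomm : mat (s * e * s⁻¹) * M = M * mat (s * e * s⁻¹) := by
      rw [hMdef, ← hmat_mul, ← hmat_mul, hEc _ hmem _ heE]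
    have hsq : mat (s * e * s⁻¹) ^ 2 ^ 1 = 1 := by
      rw [pow_one, ← hmat_pow, hE2 _ hmem, hmat_one]
    have hne1 : mat (s * e * s⁻¹) ≠ 1 := by
      intro h
      apply he1
      have h' : s * e * s⁻¹ = 1 := hmat_inj (by rw [h, hmat_one])
      have h'' : e = 1 := by
        have := congrArg (fun x => s⁻¹ * x * s) h'
        simpa [mul_assoc] using this
      rw [hMdef, h'', hmat_one]
    have hne2 : mat (s * e * s⁻¹) ≠ -1 := by
      intro h
      apply he2
      have : mat s⁻¹ * (mat s * M * mat s⁻¹) * mat s = M := by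
        calc mat s⁻¹ * (mat s * M * mat s⁻¹) * mat s
            = (mat s⁻¹ * mat s) * M * (mat s⁻¹ * mat s) := by simp only [mul_assoc]
          _ = M := by rw [hmat_inv_mul, one_mul, mul_one]
      rw [← hN, h] at this
      rw [← this, mul_neg, mul_one, neg_mul, hmat_inv_mul]
    rcases sd_comm_two_pow hq M _ hMM he1 he2 (hmat_unit _) hcomm 1 hsq with h | h | h | h
    · exact absurd h hne1
    · exact absurd h hne2
    · left
      rw [hN] at h
      calc mat s * M = mat s * M * (mat s⁻¹ * mat s) := by rw [hmat_inv_mul, mul_one]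
        _ = (mat s * M * mat s⁻¹) * mat s := by simp only [mul_assoc]
        _ = M * mat s := by rw [h]
    · right
      rw [hN] at h
      calc mat s * M = mat s * M * (mat s⁻¹ * mat s) := by rw [hmat_inv_mul, mul_one]
        _ = (mat s * M * mat s⁻¹) * mat s := by simp only [mul_assoc]
        _ = -(M * mat s) := by rw [h, neg_mul]
  -- elements commuting with `M`
  have hcent : ∀ s : ↥S, mat s * M = M * mat s →
      mat s = 1 ∨ mat s = -1 ∨ mat s = M ∨ mat s = -M := by
    intro s hs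
    obtain ⟨k, hk⟩ := S.isPGroup' s
    exact sd_comm_two_pow hq M _ hMM he1 he2 (hmat_unit s) hs k (by rw [← hmat_pow, hk, hmat_one])
  -- choose `s₁`
  obtain ⟨s₁, hs₁⟩ : ∃ s₁ : ↥S, ∀ s : ↥S, mat s * M = -(M * mat s) →
      mat (s₁⁻¹ * s) * M = M * mat (s₁⁻¹ * s) := by
    by_cases hex : ∃ s₁ : ↥S, mat s₁ * M = -(M * mat s₁)
    · obtain ⟨s₁, h₁⟩ := hex
      refine ⟨s₁, fun s hs => ?_⟩
      have h₁' : mat s₁⁻¹ * M = -(M * mat s₁⁻¹) := by
        have : mat s₁⁻¹ * (mat s₁ * M) * mat s₁⁻¹ = mat s₁⁻¹ * (-(M * mat s₁)) * mat s₁⁻¹ := by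
          rw [h₁]
        have e1 : mat s₁⁻¹ * (mat s₁ * M) * mat s₁⁻¹ = M * mat s₁⁻¹ := by
          rw [← mul_assoc, hmat_inv_mul, one_mul]
        have e2 : mat s₁⁻¹ * (-(M * mat s₁)) * mat s₁⁻¹ = -(mat s₁⁻¹ * M) := by
          rw [mul_neg, neg_mul]
          congr 1
          calc mat s₁⁻¹ * (M * mat s₁) * mat s₁⁻¹
              = mat s₁⁻¹ * M * (mat s₁ * mat s₁⁻¹) := by simp only [mul_assoc]
            _ = mat s₁⁻¹ * M := by rw [hmat_mul_inv, mul_one]
        rw [e1, e2] at this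
        rw [this, neg_neg]
      calc mat (s₁⁻¹ * s) * M = mat s₁⁻¹ * (mat s * M) := by rw [hmat_mul, mul_assoc]
        _ = -(mat s₁⁻¹ * M * mat s) := by rw [hs, mul_neg, mul_assoc]
        _ = M * mat s₁⁻¹ * mat s := by rw [h₁', neg_mul, neg_neg]
        _ = M * mat (s₁⁻¹ * s) := by rw [hmat_mul, mul_assoc]
    · refine ⟨1, fun s hs => absurd ⟨s, hs⟩ hex⟩
  -- all of `S` lies in a list of eight matrices
  set W : Finset (Matrix (Fin 2) (Fin 2) F) :=
    [1, -1, M, -M, mat s₁, -mat s₁, mat s₁ * M, -(mat s₁ * M)].toFinset with hW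
  have hSW : ∀ s : ↥S, mat s ∈ W := by
    intro s
    rw [hW, List.mem_toFinset]
    rcases hconj s with h | h
    · rcases hcent s h with h' | h' | h' | h' <;> simp [h']
    · have h2 := hcent _ (hs₁ s h)
      have hs : mat s = mat s₁ * mat (s₁⁻¹ * s) := by
        rw [← hmat_mul, mul_inv_cancel_left]
      rcases h2 with h' | h' | h' | h' <;> rw [hs, h'] <;> simp
  have hle : Nat.card ↥S ≤ 8 := by
    have h1 := Nat.card_le_card_of_injective (fun s : ↥S => (⟨mat s, hSW s⟩ : W))
      (fun a b h => hmat_inj (congrArg Subtype.val h))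
    rw [Nat.card_eq_fintype_card (α := ↥W), Fintype.card_coe] at h1
    exact h1.trans (List.toFinset_card_le _)
  have hdvd : 2 ^ 4 ∣ Nat.card ↥S := S.pow_dvd_card_of_pow_dvd_card (sd_sixteen_dvd hq)
  have hpos : 0 < Nat.card ↥S := Nat.card_pos
  have := Nat.le_of_dvd hpos hdvd
  omega

end Cfsg.Agent.Lib.Helper31.GLSyl
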