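import Mathlib

/-! S2930 project (helper6), piece PC: a normal self-centralising copy of `A_n` contains the
Sylow 3-subgroups. -/

set_option autoImplicit false

namespace Cfsg.Agent.Lib.Helper6.PM3

open scoped Pointwise
open MulAction

theorem pc_conjNormal_injective {X : Type*} [Group X] (L : Subgroup X) [L.Normal]
    (hC : Subgroup.centralizer (L : Set X) ≤ L) (n : ℕ) (hn : 5 ≤ n)
    (e : ↥L ≃* ↥(alternatingGroup (Fin n))) :
    Function.Injective (MulAut.conjNormal : X →* MulAut ↥L) := by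
  rw [injective_iff_map_eq_one]
  intro x hx
  have hfix : ∀ l : ↥L, x * (l : X) * x⁻¹ = l := by
    intro l
    have := congrArg (fun f : MulAut ↥L => ((f l : ↥L) : X)) hx
    simpa [MulAut.conjNormal_apply] using this
  have hxc : x ∈ Subgroup.centralizer (L : Set X) := by
    rw [Subgroup.mem_centralizer_iff]
    intro l hl
    have := hfix ⟨l, hl⟩
    simp only at this
    calc l * x = (x * l * x⁻¹) * x := by rw [this]
      _ = x * l := by group
  have hxL : x ∈ L := hC hxc
  have hcen : e ⟨x, hxL⟩ ∈ Subgroup.center ↥(alternatingGroup (Fin n)) := by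
    rw [Subgroup.mem_center_iff]
    intro a
    obtain ⟨l, rfl⟩ := e.surjective a
    rw [← map_mul, ← map_mul]
    congr 1
    apply Subtype.ext
    have := hfix l
    simp only [Subgroup.coe_mul]
    calc (l : X) * x = (x * l * x⁻¹) * x := by rw [this]
      _ = x * l := by group
  have h4 : 4 ≤ Nat.card (Fin n) := by rw [Nat.card_fin]; omega
  rw [alternatingGroup.center_eq_bot h4, Subgroup.mem_bot] at hcen
  have h1 : (⟨x, hxL⟩ : ↥L) = 1 := by
    apply e.injective
    rw [hcen, map_one]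
  exact congrArg Subtype.val h1

theorem sylow_le_of_alt {X : Type*} [Group X] [Finite X] (L : Subgroup X) [L.Normal]
    (hC : Subgroup.centralizer (L : Set X) ≤ L) (n : ℕ) (hn : 5 ≤ n)
    (e : ↥L ≃* ↥(alternatingGroup (Fin n)))
    (hAut : Nat.card (MulAut ↥(alternatingGroup (Fin n))) ∣ 4 * Nat.card ↥(alternatingGroup (Fin n)))
    (S : Sylow 3 X) : (S : Subgroup X) ≤ L := by
  have hinj := pc_conjNormal_injective L hC n hn e
  have h1 : Nat.card X ∣ Nat.card (MulAut ↥L) := Subgroup.card_dvd_of_injective _ hinj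
  have h2 : Nat.card (MulAut ↥L) = Nat.card (MulAut ↥(alternatingGroup (Fin n))) :=
    Nat.card_congr (MulAut.congr e).toEquiv
  have h3 : Nat.card ↥L = Nat.card ↥(alternatingGroup (Fin n)) := Nat.card_congr e.toEquiv
  have h4 : Nat.card X ∣ 4 * Nat.card ↥L := by
    rw [h3]
    rw [h2] at h1
    exact h1.trans hAut
  have hidx : L.index ∣ 4 := by
    rw [← Subgroup.card_mul_index L, mul_comm 4] at h4
    exact Nat.dvd_of_mul_dvd_mul_left Nat.card_pos h4
  intro s hs
  obtain ⟨k, hk⟩ := S.isPGroup' ⟨s, hs⟩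
  have hk' : s ^ 3 ^ k = 1 := by
    have := congrArg Subtype.val hk
    simpa using this
  have e1 : (QuotientGroup.mk s : X ⧸ L) ^ 3 ^ k = 1 := by
    rw [← QuotientGroup.mk_pow, hk']; rfl
  have e2 : (QuotientGroup.mk s : X ⧸ L) ^ 4 = 1 := by
    obtain ⟨c, hc⟩ := hidx
    have : (QuotientGroup.mk s : X ⧸ L) ^ L.index = 1 := by
      rw [Subgroup.index_eq_card]; exact pow_card_eq_one'
    rw [hc, pow_mul, this, one_pow]
  have e3 := pow_gcd_eq_one.2 ⟨e1, e2⟩
  have hcop : Nat.gcd (3 ^ k) 4 = 1 := Nat.Coprime.pow_left k (by norm_num)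
  rw [hcop, pow_one] at e3
  exact (QuotientGroup.eq_one_iff s).1 e3

end Cfsg.Agent.Lib.Helper6.PM3
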