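import Mathlib
import Cfsg.Agent.Lib.Helper48.QADefs

/-!
# Project QA (helper48, S2787), piece QIDEM (helper31)

In a finite monoid some positive power of every element is idempotent.
-/

set_option autoImplicit false

universe u

namespace Cfsg.Agent.Lib.Helper48.QA

open Matrix Polynomial

/-- QA-QIDEM -/
theorem exists_idem {R : Type*} [Monoid R] [Finite R] (P : R) :
    ∃ j : ℕ, 1 ≤ j ∧ P ^ j * P ^ j = P ^ j := by
  obtain ⟨x, y, hxy, hf⟩ := Finite.exists_ne_map_eq_of_infinite (fun n : ℕ => P ^ (n + 1))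
  have hf' : P ^ (x + 1) = P ^ (y + 1) := hf
  have key : ∃ a b : ℕ, 1 ≤ a ∧ 1 ≤ b ∧ P ^ (a + b) = P ^ a := by
    rcases lt_or_gt_of_ne hxy with h | h
    · refine ⟨x + 1, y - x, by omega, by omega, ?_⟩
      have e : x + 1 + (y - x) = y + 1 := by omega
      rw [e]
      exact hf'.symm
    · refine ⟨y + 1, x - y, by omega, by omega, ?_⟩
      have e : y + 1 + (x - y) = x + 1 := by omega
      rw [e]
      exact hf'
  obtain ⟨a, b, ha, hb, hab⟩ := key
  have h1 : ∀ i : ℕ, a ≤ i → P ^ (i + b) = P ^ i := by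
    intro i hi
    obtain ⟨c, rfl⟩ := Nat.exists_eq_add_of_le hi
    have e : a + c + b = c + (a + b) := by omega
    rw [e, pow_add, hab, ← pow_add]
    congr 1
    omega
  have h2 : ∀ (k i : ℕ), a ≤ i → P ^ (i + k * b) = P ^ i := by
    intro k
    induction k with
    | zero =>
      intro i _
      rw [Nat.zero_mul, Nat.add_zero]
    | succ k ih =>
      intro i hi
      have e : i + (k + 1) * b = (i + k * b) + b := by ring
      rw [e, h1 _ (le_trans hi (Nat.le_add_right _ _)), ih i hi]
  refine ⟨a * b, Nat.mul_pos ha hb, ?_⟩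
  rw [← pow_add]
  exact h2 a (a * b) (Nat.le_mul_of_pos_right a hb)

end Cfsg.Agent.Lib.Helper48.QA
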