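import Mathlib

set_option autoImplicit false

namespace Cfsg.Agent.Lib.Helper31.RU3

variable {F : Type*} [Field F] [Fintype F] {q : ℕ}

/-- a generator of the multiplicative group, as an element of `F` -/
theorem par_exists_gen (hF : Fintype.card F = q ^ 2) :
    ∃ γ : F, γ ≠ 0 ∧ (∀ n : ℕ, γ ^ n = 1 ↔ (q ^ 2 - 1) ∣ n) ∧
      ∀ r : F, r ≠ 0 → ∃ j : ℕ, γ ^ j = r := by
  classical
  obtain ⟨g, hg⟩ := IsCyclic.exists_generator (α := Fˣ)
  have hord : orderOf g = q ^ 2 - 1 := by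
    rw [orderOf_eq_card_of_forall_mem_zpowers hg, Nat.card_eq_fintype_card, Fintype.card_units, hF]
  refine ⟨(g : F), g.ne_zero, ?_, ?_⟩
  · intro n
    rw [← hord, orderOf_dvd_iff_pow_eq_one]
    constructor
    · intro h
      exact Units.ext (by simpa using h)
    · intro h
      have := congrArg Units.val h
      simpa using this
  · intro r hr
    have h1 : Units.mk0 r hr ∈ Subgroup.zpowers g := hg _
    rw [← mem_powers_iff_mem_zpowers] at h1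
    obtain ⟨j, hj⟩ := h1
    refine ⟨j, ?_⟩
    have := congrArg Units.val hj
    simpa using this

theorem par_pow_sub {γ : F} (hγ : γ ≠ 0) {a b : ℕ} (hab : b ≤ a) (h : γ ^ a = γ ^ b) :
    γ ^ (a - b) = 1 := by
  have h1 : γ ^ b * γ ^ (a - b) = γ ^ b * 1 := by
    rw [← pow_add, Nat.add_sub_cancel' hab, mul_one, h]
  exact mul_left_cancel₀ (pow_ne_zero _ hγ) h1

/-- the generic part: properties of a generator `γ` of `Fˣ`, `|F| = (m+3)^2`. -/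
theorem par_gen {m : ℕ} {γ : F} (hγ0 : γ ≠ 0)
    (hγ : ∀ n : ℕ, γ ^ n = 1 ↔ ((m + 2) * (m + 4)) ∣ n)
    (hsurj : ∀ r : F, r ≠ 0 → ∃ j : ℕ, γ ^ j = r) :
    γ ^ (m + 3) ≠ γ ∧ γ * γ ^ (m + 3) ≠ 1 ∧
    (∀ r : F, r ≠ 0 → r ^ (m + 3) = r → ∃ k : ℕ, (γ * γ ^ (m + 3)) ^ k = r) ∧
    ((γ ^ (m + 3)) ^ 6 = γ ^ 6 → m = 2) ∧ ((γ ^ (m + 3)) ^ 9 = γ ^ 9 → m = 5) := by
  refine ⟨?_, ?_, ?_, ?_, ?_⟩
  · intro h
    have h1 : γ ^ (m + 3 - 1) = 1 := par_pow_sub hγ0 (by omega) (by simpa using h)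
    have h2 := (hγ _).1 h1
    have h3 := Nat.le_of_dvd (by omega) h2
    have h4 : m + 3 - 1 = m + 2 := by omega
    nlinarith
  · intro h
    have h1 : γ ^ (m + 4) = 1 := by
      rw [← h]; ring
    have h2 := (hγ _).1 h1
    have h3 := Nat.le_of_dvd (by omega) h2
    nlinarith
  · intro r hr hrq
    obtain ⟨j, rfl⟩ := hsurj r hr
    have h0 : γ ^ (j * (m + 3)) = γ ^ j := by rw [pow_mul]; exact hrq
    have h1 : γ ^ (j * (m + 3) - j) = 1 := par_pow_sub hγ0 (by nlinarith) h0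
    have h2 := (hγ _).1 h1
    have h3 : j * (m + 3) - j = (m + 2) * j := by
      have : j * (m + 3) = (m + 2) * j + j := by ring
      omega
    rw [h3] at h2
    have h4 : (m + 4) ∣ j := Nat.dvd_of_mul_dvd_mul_left (by omega) h2
    obtain ⟨k, rfl⟩ := h4
    refine ⟨k, ?_⟩
    rw [← pow_succ', ← pow_mul]
  · intro h
    have h0 : γ ^ (6 * (m + 3)) = γ ^ 6 := by rw [← h, ← pow_mul]; ring_nf
    have h1 : γ ^ (6 * (m + 3) - 6) = 1 := par_pow_sub hγ0 (by omega) h0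
    have h2 := (hγ _).1 h1
    have h3 : 6 * (m + 3) - 6 = (m + 2) * 6 := by omega
    rw [h3] at h2
    have h4 : (m + 4) ∣ 6 := Nat.dvd_of_mul_dvd_mul_left (by omega) h2
    have h5 := Nat.le_of_dvd (by norm_num) h4
    have h6 : m ≤ 2 := by omega
    interval_cases m
    · norm_num at h4
    · norm_num at h4
    · rfl
  · intro h
    have h0 : γ ^ (9 * (m + 3)) = γ ^ 9 := by rw [← h, ← pow_mul]; ring_nf
    have h1 : γ ^ (9 * (m + 3) - 9) = 1 := par_pow_sub hγ0 (by omega) h0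
    have h2 := (hγ _).1 h1
    have h3 : 9 * (m + 3) - 9 = (m + 2) * 9 := by omega
    rw [h3] at h2
    have h4 : (m + 4) ∣ 9 := Nat.dvd_of_mul_dvd_mul_left (by omega) h2
    have h5 := Nat.le_of_dvd (by norm_num) h4
    have h6 : m ≤ 5 := by omega
    interval_cases m
    · norm_num at h4
    · norm_num at h4
    · norm_num at h4
    · norm_num at h4
    · norm_num at h4
    · rfl

/-- the case `q = 8`, alternative 4 -/
theorem par_alt4 (t : F) (h2 : (2 : F) = 0) (h21 : t ^ 21 = 1) (ht0 : t ≠ 0) (ht1 : t ≠ 1) :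
    (t ^ 8 - t) ^ 3 ≠ (1 - t * t ^ 8) * t ^ 8 * t := by
  intro heq
  have key : t ^ 9 * (t + 1) ^ 9 = 0 := by
    linear_combination heq + (t ^ 9 + 3 * t ^ 10 + 18 * t ^ 11 + 42 * t ^ 12 + 63 * t ^ 13
      + 63 * t ^ 14 + 42 * t ^ 15 + 18 * t ^ 16 + 6 * t ^ 17) * h2 - t ^ 3 * h21
  rcases mul_eq_zero.1 key with h | h
  · exact ht0 (pow_eq_zero_iff (by norm_num) |>.1 h)
  · have h1 : t + 1 = 0 := pow_eq_zero_iff (by norm_num) |>.1 h
    apply ht1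
    linear_combination h1 - h2

/-- the case `q = 5`, alternative 2 -/
theorem par_alt2 (t : F) (h5 : (5 : F) = 0) (hQ : t ^ 12 + 1 = 0) :
    3 * t ^ 2 * t ^ 5 + 3 * t * (t ^ 5) ^ 2 - 2 * t ^ 2 * (t ^ 5) ^ 2 - t ^ 3 - (t ^ 5) ^ 3
            - 2 * t * t ^ 5 ≠ 0 := by
  intro hP
  have : (1 : F) = 0 := by
    linear_combination (1 + 3 * t + t ^ 2 + t ^ 4 + 3 * t ^ 5 + t ^ 6 + 4 * t ^ 8 + t ^ 10) * hP
      + (1 + t ^ 3 + 3 * t ^ 4 + t ^ 5 + 2 * t ^ 6 + 4 * t ^ 7 + t ^ 8 + 3 * t ^ 9 + 2 * t ^ 10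
          + 4 * t ^ 11 + t ^ 13) * hQ
      - (t ^ 8 + t ^ 9 + 3 * t ^ 12 - 2 * t ^ 14 + 3 * t ^ 15 + t ^ 16 + 3 * t ^ 19 - 2 * t ^ 20
          + t ^ 21) * h5
  exact one_ne_zero this

theorem par (hF : Fintype.card F = q ^ 2) (hq : 3 ≤ q) :
    ∃ t : F, t ≠ 0 ∧ t ^ q ≠ t ∧ t * t ^ q ≠ 1 ∧
      (∀ r : F, r ≠ 0 → r ^ q = r → ∃ k : ℕ, (t * t ^ q) ^ k = r) ∧
      (((2 : F) ≠ 0 ∧ (t ^ q) ^ 6 ≠ t ^ 6) ∨
       ((2 : F) ≠ 0 ∧ (t ^ q) ^ 3 = -t ^ 3 ∧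
          3 * t ^ 2 * t ^ q + 3 * t * (t ^ q) ^ 2 - 2 * t ^ 2 * (t ^ q) ^ 2 - t ^ 3 - (t ^ q) ^ 3
            - 2 * t * t ^ q ≠ 0) ∨
       ((2 : F) = 0 ∧ (t ^ q) ^ 6 ≠ t ^ 6 ∧ (t ^ q) ^ 9 ≠ t ^ 9) ∨
       ((2 : F) = 0 ∧ (t ^ q - t) ^ 3 ≠ (1 - t * t ^ q) * t ^ q * t)) := by
  obtain ⟨γ, hγ0, hγ, hsurj⟩ := par_exists_gen hF
  obtain ⟨m, rfl⟩ : ∃ m, q = m + 3 := ⟨q - 3, by omega⟩
  have hN : (m + 3) ^ 2 - 1 = (m + 2) * (m + 4) := by
    have : (m + 3) ^ 2 = (m + 2) * (m + 4) + 1 := by ring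
    omega
  rw [hN] at hγ
  have hcard : ((Fintype.card F : ℕ) : F) = 0 := FiniteField.cast_card_eq_zero F
  obtain ⟨ha, hb, hc, hd6, hd9⟩ := par_gen hγ0 hγ hsurj
  by_cases h5 : m = 2
  · -- q = 5
    subst h5
    norm_num at hγ ha hb hc hF ⊢
    have h5F : (5 : F) = 0 := by
      rw [hF] at hcard
      have h25 : (5 : F) * 5 = 0 := by
        have : ((25 : ℕ) : F) = 0 := hcard
        push_cast at this
        linear_combination this
      exact mul_self_eq_zero.1 h25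
    have h2F : (2 : F) ≠ 0 := by
      intro h
      have : (1 : F) = 0 := by linear_combination h5F - 2 * h
      exact one_ne_zero this
    have h24 : γ ^ 24 = 1 := (hγ 24).2 (by norm_num)
    have h12 : γ ^ 12 ≠ 1 := fun h => by
      have := (hγ 12).1 h
      norm_num at this
    have hQ : γ ^ 12 + 1 = 0 := by
      have h1 : (γ ^ 12 - 1) * (γ ^ 12 + 1) = 0 := by linear_combination h24
      rcases mul_eq_zero.1 h1 with h | h
      · exact absurd (sub_eq_zero.1 h) h12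
      · exact h
    refine ⟨γ, hγ0, ha, hb, hc, Or.inr (Or.inl ⟨h2F, ?_, par_alt2 γ h5F hQ⟩)⟩
    linear_combination γ ^ 3 * hQ
  by_cases h8 : m = 5
  · -- q = 8
    subst h8
    norm_num at hγ hF ⊢
    have h2F : (2 : F) = 0 := by
      rw [hF] at hcard
      have h64 : (2 : F) ^ 6 = 0 := by
        have : ((64 : ℕ) : F) = 0 := hcard
        push_cast at this
        linear_combination this
      exact pow_eq_zero_iff (by norm_num) |>.1 h64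
    have h63 : γ ^ 63 = 1 := (hγ 63).2 (by norm_num)
    have ht0 : γ ^ 3 ≠ 0 := pow_ne_zero _ hγ0
    have h21 : (γ ^ 3) ^ 21 = 1 := by rw [← pow_mul]; exact h63
    have ht1 : γ ^ 3 ≠ 1 := fun h => by
      have := (hγ 3).1 h
      norm_num at this
    refine ⟨γ ^ 3, ht0, ?_, ?_, ?_, Or.inr (Or.inr (Or.inr ⟨h2F, par_alt4 (γ ^ 3) h2F h21 ht0 ht1⟩))⟩
    · intro h
      have h1 : γ ^ (24 - 3) = 1 := par_pow_sub hγ0 (by norm_num) (by rw [← h]; ring)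
      have := (hγ _).1 h1
      norm_num at this
    · intro h
      have h1 : γ ^ 27 = 1 := by rw [← h]; ring
      have := (hγ _).1 h1
      norm_num at this
    · intro r hr hrq
      obtain ⟨j, rfl⟩ := hsurj r hr
      have h0 : γ ^ (8 * j) = γ ^ j := by rw [← hrq]; ring
      have h1 : γ ^ (8 * j - j) = 1 := par_pow_sub hγ0 (by omega) h0
      have h2 := (hγ _).1 h1
      have h3 : 9 ∣ j := by omega
      obtain ⟨k, rfl⟩ := h3
      refine ⟨5 * k, ?_⟩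
      have h4 : (γ ^ 3 * (γ ^ 3) ^ 8) ^ (5 * k) = γ ^ (9 * k) * (γ ^ 63) ^ (2 * k) := by ring
      rw [h4, h63, one_pow, mul_one]
  · -- generic case
    have h6 : (γ ^ (m + 3)) ^ 6 ≠ γ ^ 6 := fun h => h5 (hd6 h)
    have h9 : (γ ^ (m + 3)) ^ 9 ≠ γ ^ 9 := fun h => h8 (hd9 h)
    by_cases h2 : (2 : F) = 0
    · exact ⟨γ, hγ0, ha, hb, hc, Or.inr (Or.inr (Or.inl ⟨h2, h6, h9⟩))⟩
    · exact ⟨γ, hγ0, ha, hb, hc, Or.inl ⟨h2, h6⟩⟩

end Cfsg.Agent.Lib.Helper31.RU3
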