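import Mathlib
import Cfsg.Agent.Lib.Helper23.Syl
import Cfsg.Agent.Lib.Helper23.Syl2
import Cfsg.Agent.Lib.Helper23.SimpleGen
import Cfsg.Agent.Lib.Helper76.SylPrime

set_option autoImplicit false
set_option linter.unusedVariables false
set_option linter.unusedSectionVars false

/-! S0496 (helper11), piece N40A: order 720 with forty Sylow 3-subgroups; the normalizer of a
Sylow 3-subgroup `P` normalizes every subgroup of `P`. -/

namespace Cfsg.Agent.S496

theorem n40_norm {G : Type*} [Group G] [Finite G] [IsSimpleGroup G] (h : Nat.card G = 720)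
    (h40 : Nat.card (Sylow 3 G) = 40) (P : Sylow 3 G) (D : Subgroup G) (hD : D ≤ (P : Subgroup G)) :
    Subgroup.normalizer ((P : Subgroup G) : Set G) ≤ Subgroup.normalizer (D : Set G) := by
  classical
  have hp3 : Fact (Nat.Prime 3) := ⟨by norm_num⟩
  have hp2 : Fact (Nat.Prime 2) := ⟨by norm_num⟩
  have hG : ¬ IsMulCommutative G :=
    Cfsg.Agent.Lib.Helper23.not_comm_of_simple_of_not_prime (by rw [h]; norm_num)
  have hP9 : Nat.card (P : Subgroup G) = 3 ^ 2 :=
    Cfsg.Agent.Lib.Helper23.sylow_card_of_eq (k := 2) (m := 80) (by rw [h]; norm_num) (by norm_num) P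
  have hPN : (P : Subgroup G) ≤ Subgroup.normalizer ((P : Subgroup G) : Set G) :=
    Subgroup.le_normalizer
  have hN18 : Nat.card (Subgroup.normalizer ((P : Subgroup G) : Set G)) = 18 := by
    have h1 := Cfsg.Agent.Lib.Helper23.card_normalizer_sylow_mul P
    rw [h40, h] at h1
    omega
  have hPab : ∀ a ∈ (P : Subgroup G), ∀ b ∈ (P : Subgroup G), a * b = b * a := by
    intro a ha b hb
    have h0 : IsMulCommutative (P : Subgroup G) :=
      IsPGroup.isMulCommutative_of_card_eq_prime_sq (p := 3) hP9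
    have h1 := h0.is_comm.comm ⟨a, ha⟩ ⟨b, hb⟩
    exact congrArg Subtype.val h1
  obtain ⟨t, htN, ht1, ht2⟩ :=
    Cfsg.Agent.Lib.Helper76.SylPrime.exists_mem_pow_eq_one
      (Subgroup.normalizer ((P : Subgroup G) : Set G)) 2 (by rw [hN18]; norm_num)
  have htP : t ∉ (P : Subgroup G) := by
    intro htP
    have h1 := Subgroup.orderOf_dvd_natCard (P : Subgroup G) htP
    rw [orderOf_eq_prime ht2 ht1, hP9] at h1
    norm_num at h1
  have ht' : t * t = 1 := by rw [← pow_two]; exact ht2
  have htinv : t⁻¹ = t := inv_eq_of_mul_eq_one_right ht'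
  have hidx : ((P : Subgroup G).subgroupOf
      (Subgroup.normalizer ((P : Subgroup G) : Set G))).index = 2 := by
    have h1 := Subgroup.card_mul_index ((P : Subgroup G).subgroupOf
      (Subgroup.normalizer ((P : Subgroup G) : Set G)))
    have h2 : Nat.card ((P : Subgroup G).subgroupOf
        (Subgroup.normalizer ((P : Subgroup G) : Set G))) = Nat.card (P : Subgroup G) :=
      Nat.card_congr (Subgroup.subgroupOfEquivOfLe hPN).toEquiv
    rw [h2, hP9, hN18] at h1
    omega
  have hcos : ∀ n ∈ Subgroup.normalizer ((P : Subgroup G) : Set G), n ∉ (P : Subgroup G) →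
      n * t ∈ (P : Subgroup G) := by
    intro n hn hnP
    have h1 := Subgroup.mul_mem_iff_of_index_two hidx
      (a := (⟨n, hn⟩ : Subgroup.normalizer ((P : Subgroup G) : Set G))) (b := ⟨t, htN⟩)
    rw [Subgroup.mem_subgroupOf, Subgroup.mem_subgroupOf, Subgroup.mem_subgroupOf] at h1
    exact h1.2 ⟨fun h => absurd h hnP, fun h => absurd h htP⟩
  have hfix : ∀ x ∈ (P : Subgroup G), t * x = x * t → x = 1 := by
    intro x hx hxt
    by_contra hx1
    apply Cfsg.Agent.Lib.Helper23.simple_no_central_fusion hG P hPab x hx hx1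
    intro n hn
    by_cases hnP : n ∈ (P : Subgroup G)
    · exact hPab n hnP x hx
    · have h1 := hPab (n * t) (hcos n hn hnP) x hx
      have h2 : n * x * t = x * n * t := by
        rw [mul_assoc n x t, ← hxt, ← mul_assoc, h1, mul_assoc]
      exact mul_right_cancel h2
  have htconj : ∀ y ∈ (P : Subgroup G), t * y * t⁻¹ ∈ (P : Subgroup G) := by
    intro y hy
    exact (Subgroup.mem_normalizer_iff.mp htN y).1 hy
  have hinv : ∀ y ∈ (P : Subgroup G), t * y * t⁻¹ = y⁻¹ := by
    intro y hy
    have hw : y * (t * y * t⁻¹) ∈ (P : Subgroup G) := mul_mem hy (htconj y hy)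
    have hc := hPab y hy (t * y * t⁻¹) (htconj y hy)
    have h1 : t * (y * (t * y * t⁻¹)) = (y * (t * y * t⁻¹)) * t := by
      rw [htinv] at hc ⊢
      calc t * (y * (t * y * t)) = t * ((t * y * t) * y) := by rw [hc]
        _ = (t * t) * y * t * y := by simp only [mul_assoc]
        _ = y * t * y * (t * t) := by rw [ht']; simp [mul_assoc]
        _ = (y * (t * y * t)) * t := by simp only [mul_assoc]
    have h2 := hfix _ hw h1
    exact (eq_inv_of_mul_eq_one_right h2)
  have hclaim : ∀ n ∈ Subgroup.normalizer ((P : Subgroup G) : Set G), ∀ d ∈ D,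
      n * d * n⁻¹ ∈ D := by
    intro n hn d hd
    by_cases hnP : n ∈ (P : Subgroup G)
    · have h1 := hPab n hnP d (hD hd)
      have h2 : n * d * n⁻¹ = d := by rw [h1, mul_inv_cancel_right]
      rw [h2]; exact hd
    · have hy := hcos n hn hnP
      have hdinv := hinv d (hD hd)
      have h1 := hPab (n * t) hy d⁻¹ (inv_mem (hD hd))
      have h2 : n * d * n⁻¹ = d⁻¹ := by
        have e : n * d * n⁻¹ = (n * t) * (t * d * t⁻¹) * (n * t)⁻¹ := by
          have e1 : (n * t) * (t * d * t⁻¹) * (n * t)⁻¹ =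
              n * (t * t) * d * (t⁻¹ * t⁻¹) * n⁻¹ := by
            simp only [mul_inv_rev, mul_assoc]
          rw [e1, ht', htinv, ht', mul_one, mul_one]
        rw [e, hdinv, h1, mul_inv_cancel_right]
      rw [h2]; exact inv_mem hd
  intro n hn
  rw [Subgroup.mem_normalizer_iff]
  intro g
  constructor
  · exact hclaim n hn g
  · intro hg
    have h1 := hclaim n⁻¹ (inv_mem hn) _ hg
    simpa [mul_assoc] using h1

end Cfsg.Agent.S496
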