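import Mathlib
import Cfsg.Agent.Lib.Helper23.Syl
import Cfsg.Agent.Lib.Helper23.Syl2
import Cfsg.Agent.Lib.Helper23.SylInter
import Cfsg.Agent.Lib.Helper23.SimpleGen
import Cfsg.Agent.Lib.Helper76.SylPrime

set_option autoImplicit false
set_option linter.unusedVariables false
set_option linter.unusedSectionVars false

/-! S0496 (helper11), piece N40B: order 720 with forty Sylow 3-subgroups; there is a subgroup
`D` of order 3 whose normalizer has order 72. -/

namespace Cfsg.Agent.S496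

open scoped Pointwise

theorem n40b_aux_arith : ∀ k ≤ 40, k ∣ 40 → k % 3 = 1 → k ≠ 1 → k = 4 ∨ k = 10 ∨ k = 40 := by
  decide

theorem n40_exists {G : Type*} [Group G] [Finite G] [IsSimpleGroup G] (h : Nat.card G = 720)
    (h40 : Nat.card (Sylow 3 G) = 40)
    (hnorm : ∀ (P : Sylow 3 G) (D : Subgroup G), D ≤ (P : Subgroup G) →
      Subgroup.normalizer ((P : Subgroup G) : Set G) ≤ Subgroup.normalizer (D : Set G)) :
    ∃ D : Subgroup G, Nat.card D = 3 ∧ Nat.card (Subgroup.normalizer (D : Set G)) = 72 := by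
  classical
  have hp3 : Fact (Nat.Prime 3) := ⟨by norm_num⟩
  have hG : ¬ IsMulCommutative G :=
    Cfsg.Agent.Lib.Helper23.not_comm_of_simple_of_not_prime (by rw [h]; norm_num)
  have hS9 : ∀ Q : Sylow 3 G, Nat.card (Q : Subgroup G) = 3 ^ 2 := fun Q =>
    Cfsg.Agent.Lib.Helper23.sylow_card_of_eq (k := 2) (m := 80) (by rw [h]; norm_num)
      (by norm_num) Q
  have hSab : ∀ Q : Sylow 3 G, IsMulCommutative (Q : Subgroup G) := fun Q =>
    IsPGroup.isMulCommutative_of_card_eq_prime_sq (p := 3) (hS9 Q)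
  obtain ⟨P⟩ : Nonempty (Sylow 3 G) := inferInstance
  have hmod : ¬ Nat.card (Sylow 3 G) ≡ 1 [MOD 3 ^ 2] := by
    rw [h40]; decide
  obtain ⟨R, hPR, hidx⟩ := Cfsg.Agent.Lib.Helper23.exists_sylow_pair_large_inter 3 2 hmod P
  have hmul := Cfsg.Agent.Lib.Helper23.card_inf_mul_index_subgroupOf (P : Subgroup G)
    (R : Subgroup G)
  rw [hS9 P] at hmul
  have hD3 : Nat.card ((P : Subgroup G) ⊓ (R : Subgroup G) : Subgroup G) = 3 := by
    have hdvd : ((R : Subgroup G).subgroupOf (P : Subgroup G)).index ∣ 9 :=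
      Dvd.intro_left _ hmul
    have hle : ((R : Subgroup G).subgroupOf (P : Subgroup G)).index ≤ 3 := by
      simpa using hidx
    have hcases : ((R : Subgroup G).subgroupOf (P : Subgroup G)).index = 1 ∨
        ((R : Subgroup G).subgroupOf (P : Subgroup G)).index = 3 := by
      generalize ((R : Subgroup G).subgroupOf (P : Subgroup G)).index = k at hdvd hle
      interval_cases k <;> simp_all
    rcases hcases with h1 | h3
    · exfalso
      rw [h1, mul_one] at hmul
      have hDP : (P : Subgroup G) ⊓ (R : Subgroup G) = (P : Subgroup G) :=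
        Subgroup.eq_of_le_of_card_ge inf_le_left (by rw [hmul, hS9 P])
      have hPleR : (P : Subgroup G) ≤ (R : Subgroup G) := by
        rw [← hDP]; exact inf_le_right
      have hPeqR : (P : Subgroup G) = (R : Subgroup G) :=
        Subgroup.eq_of_le_of_card_ge hPleR (by rw [hS9 P, hS9 R])
      exact hPR (Sylow.ext hPeqR)
    · rw [h3] at hmul
      omega
  refine ⟨(P : Subgroup G) ⊓ (R : Subgroup G), hD3, ?_⟩
  have hDleS : ∀ Q : Sylow 3 G, (P : Subgroup G) ⊓ (R : Subgroup G) ≤ (Q : Subgroup G) →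
      (Q : Subgroup G) ≤
        Subgroup.normalizer (((P : Subgroup G) ⊓ (R : Subgroup G) : Subgroup G) : Set G) := by
    intro Q hQ
    have hQc := hSab Q
    exact Cfsg.Agent.Lib.Helper23.le_normalizer_of_le_of_comm hQ
  have hPF : P ∈ {Q : Sylow 3 G | (P : Subgroup G) ⊓ (R : Subgroup G) ≤ (Q : Subgroup G)} := by
    show (P : Subgroup G) ⊓ (R : Subgroup G) ≤ (P : Subgroup G)
    exact inf_le_left
  have hRF : R ∈ {Q : Sylow 3 G | (P : Subgroup G) ⊓ (R : Subgroup G) ≤ (Q : Subgroup G)} := by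
    show (P : Subgroup G) ⊓ (R : Subgroup G) ≤ (R : Subgroup G)
    exact inf_le_right
  have hDF : ∀ d ∈ Subgroup.normalizer (((P : Subgroup G) ⊓ (R : Subgroup G) : Subgroup G) : Set G),
      ∀ Q ∈ {Q : Sylow 3 G | (P : Subgroup G) ⊓ (R : Subgroup G) ≤ (Q : Subgroup G)},
      d • Q ∈ {Q : Sylow 3 G | (P : Subgroup G) ⊓ (R : Subgroup G) ≤ (Q : Subgroup G)} := by
    intro d hd Q hQ
    show (P : Subgroup G) ⊓ (R : Subgroup G) ≤ ((d • Q : Sylow 3 G) : Subgroup G)
    intro x hx
    rw [Sylow.coe_subgroup_smul, Subgroup.mem_pointwise_smul_iff_inv_smul_mem]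
    have h1 : d⁻¹ * x * d⁻¹⁻¹ ∈ (P : Subgroup G) ⊓ (R : Subgroup G) :=
      (Subgroup.mem_normalizer_iff.mp (inv_mem hd) x).1 hx
    have h2 : (MulAut.conj d)⁻¹ • x = d⁻¹ * x * d⁻¹⁻¹ := by
      simp [MulAut.smul_def]
    rw [h2]
    exact hQ h1
  have hcard := Cfsg.Agent.Lib.Helper76.SylPrime.card_eq_of_orbit P
    (Subgroup.normalizer (((P : Subgroup G) ⊓ (R : Subgroup G) : Subgroup G) : Set G))
    {Q : Sylow 3 G | (P : Subgroup G) ⊓ (R : Subgroup G) ≤ (Q : Subgroup G)} hPF hDF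
    (fun Q hQ => hDleS Q hQ)
  have hNP : Subgroup.normalizer (((P : Subgroup G) ⊓ (R : Subgroup G) : Subgroup G) : Set G) ⊓
      Subgroup.normalizer ((P : Subgroup G) : Set G) =
      Subgroup.normalizer ((P : Subgroup G) : Set G) :=
    inf_eq_right.mpr (hnorm P _ inf_le_left)
  have hN18 : Nat.card (Subgroup.normalizer ((P : Subgroup G) : Set G)) = 18 := by
    have h1 := Cfsg.Agent.Lib.Helper23.card_normalizer_sylow_mul P
    rw [h40, h] at h1
    omega
  rw [hNP, hN18] at hcard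
  have hFmod := Cfsg.Agent.Lib.Helper76.SylPrime.ncard_mod_of_mem P
    {Q : Sylow 3 G | (P : Subgroup G) ⊓ (R : Subgroup G) ≤ (Q : Subgroup G)}
    (fun x hx δ hδ => hDF x (hDleS P inf_le_left hx) δ hδ) hPF
  have hFne1 : {Q : Sylow 3 G | (P : Subgroup G) ⊓ (R : Subgroup G) ≤ (Q : Subgroup G)}.ncard
      ≠ 1 := by
    intro h1
    obtain ⟨a, ha⟩ := Set.ncard_eq_one.mp h1
    have e1 : P = a := by
      have := hPF; rw [ha] at this; exact this
    have e2 : R = a := by
      have := hRF; rw [ha] at this; exact this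
    exact hPR (e1.trans e2.symm)
  have hdvd : Nat.card (Subgroup.normalizer
      (((P : Subgroup G) ⊓ (R : Subgroup G) : Subgroup G) : Set G)) ∣ 720 := by
    rw [← h]; exact Subgroup.card_subgroup_dvd_card _
  generalize {Q : Sylow 3 G | (P : Subgroup G) ⊓ (R : Subgroup G) ≤ (Q : Subgroup G)}.ncard = k
    at hcard hFmod hFne1
  have hk40 : k ∣ 40 := by
    rw [hcard] at hdvd
    have : k * 18 ∣ 40 * 18 := by simpa using hdvd
    exact Nat.dvd_of_mul_dvd_mul_right (by norm_num) this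
  have hkle : k ≤ 40 := Nat.le_of_dvd (by norm_num) hk40
  have hDbot : (P : Subgroup G) ⊓ (R : Subgroup G) ≠ ⊥ := by
    rw [← Subgroup.one_lt_card_iff_ne_bot, hD3]; norm_num
  have hDtop : (P : Subgroup G) ⊓ (R : Subgroup G) ≠ ⊤ := by
    intro ht
    rw [ht, Subgroup.card_top, h] at hD3
    omega
  have hNtop := Cfsg.Agent.Lib.Helper23.simple_normalizer_ne_top _ hDbot hDtop
  rcases n40b_aux_arith k hkle hk40 hFmod hFne1 with rfl | rfl | rfl
  · rw [hcard]
  · exfalso
    have hfac := Cfsg.Agent.Lib.Helper23.simple_two_mul_card_dvd_factorial hG _ hNtop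
    have hi := Subgroup.card_mul_index (Subgroup.normalizer
      (((P : Subgroup G) ⊓ (R : Subgroup G) : Subgroup G) : Set G))
    rw [hcard, h] at hi
    have hi4 : (Subgroup.normalizer
      (((P : Subgroup G) ⊓ (R : Subgroup G) : Subgroup G) : Set G)).index = 4 := by omega
    rw [hi4, h] at hfac
    revert hfac
    decide
  · exfalso
    apply hNtop
    apply Subgroup.eq_top_of_card_eq
    rw [hcard, h]
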