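import Mathlib

/-!
# S0983, piece T5: the `17`-smooth numbers up to `6232`
-/

set_option autoImplicit false

namespace Cfsg.Agent.S983

theorem t5_aux_le {p a N : ℕ} (hp : 2 ≤ p) (k : ℕ) (hN : N < p ^ (k + 1)) (h0 : 0 < N)
    (hd : p ^ a ∣ N) : a ≤ k := by
  by_contra hlt
  rw [not_le] at hlt
  have h1 : p ^ (k + 1) ≤ p ^ a := Nat.pow_le_pow_right (by omega) hlt
  have h2 : p ^ a ≤ N := Nat.le_of_dvd h0 hd
  omega

theorem smooth_dvd {N : ℕ} (hpos : 0 < N) (hle : N ≤ 6232)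
    (hs : ∀ p : ℕ, p.Prime → p ∣ N → p ≤ 17) :
    N ∣ 2 ^ 12 * 3 ^ 7 * 5 ^ 5 * 7 ^ 4 * 11 ^ 3 * 13 ^ 3 * 17 ^ 3 := by
  obtain ⟨a, N1, h2, e1⟩ := Nat.exists_eq_pow_mul_and_not_dvd hpos.ne' 2 (by norm_num)
  have hN1 : N1 ≠ 0 := by
    rintro rfl
    exact h2 (dvd_zero _)
  obtain ⟨b, N2, h3, e2⟩ := Nat.exists_eq_pow_mul_and_not_dvd hN1 3 (by norm_num)
  have hN2 : N2 ≠ 0 := by
    rintro rfl
    exact h3 (dvd_zero _)
  obtain ⟨c, N3, h5, e3⟩ := Nat.exists_eq_pow_mul_and_not_dvd hN2 5 (by norm_num)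
  have hN3 : N3 ≠ 0 := by
    rintro rfl
    exact h5 (dvd_zero _)
  obtain ⟨d, N4, h7, e4⟩ := Nat.exists_eq_pow_mul_and_not_dvd hN3 7 (by norm_num)
  have hN4 : N4 ≠ 0 := by
    rintro rfl
    exact h7 (dvd_zero _)
  obtain ⟨e, N5, h11, e5⟩ := Nat.exists_eq_pow_mul_and_not_dvd hN4 11 (by norm_num)
  have hN5 : N5 ≠ 0 := by
    rintro rfl
    exact h11 (dvd_zero _)
  obtain ⟨f, N6, h13, e6⟩ := Nat.exists_eq_pow_mul_and_not_dvd hN5 13 (by norm_num)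
  have hN6 : N6 ≠ 0 := by
    rintro rfl
    exact h13 (dvd_zero _)
  obtain ⟨g, N7, h17, e7⟩ := Nat.exists_eq_pow_mul_and_not_dvd hN6 17 (by norm_num)
  have d76 : N7 ∣ N6 := e7 ▸ dvd_mul_left _ _
  have d65 : N6 ∣ N5 := e6 ▸ dvd_mul_left _ _
  have d54 : N5 ∣ N4 := e5 ▸ dvd_mul_left _ _
  have d43 : N4 ∣ N3 := e4 ▸ dvd_mul_left _ _
  have d32 : N3 ∣ N2 := e3 ▸ dvd_mul_left _ _
  have d21 : N2 ∣ N1 := e2 ▸ dvd_mul_left _ _
  have d10 : N1 ∣ N := e1 ▸ dvd_mul_left _ _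
  have d20 : N2 ∣ N := d21.trans d10
  have d30 : N3 ∣ N := d32.trans d20
  have d40 : N4 ∣ N := d43.trans d30
  have d50 : N5 ∣ N := d54.trans d40
  have d60 : N6 ∣ N := d65.trans d50
  have d70 : N7 ∣ N := d76.trans d60
  have hN7 : N7 = 1 := by
    by_contra hne
    obtain ⟨p, hp, hpd⟩ := Nat.exists_prime_and_dvd hne
    have hp17 : p ≤ 17 := hs p hp (hpd.trans d70)
    have hp2 := hp.two_le
    interval_cases p
    · exact h2 (hpd.trans (d76.trans (d65.trans (d54.trans (d43.trans (d32.trans d21))))))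
    · exact h3 (hpd.trans (d76.trans (d65.trans (d54.trans (d43.trans d32)))))
    · exact absurd hp (by norm_num)
    · exact h5 (hpd.trans (d76.trans (d65.trans (d54.trans d43))))
    · exact absurd hp (by norm_num)
    · exact h7 (hpd.trans (d76.trans (d65.trans d54)))
    · exact absurd hp (by norm_num)
    · exact absurd hp (by norm_num)
    · exact absurd hp (by norm_num)
    · exact h11 (hpd.trans (d76.trans d65))
    · exact absurd hp (by norm_num)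
    · exact h13 (hpd.trans d76)
    · exact absurd hp (by norm_num)
    · exact absurd hp (by norm_num)
    · exact absurd hp (by norm_num)
    · exact h17 hpd
  subst hN7
  rw [Nat.mul_one] at e7
  subst e7
  have ha : a ≤ 12 :=
    t5_aux_le (p := 2) (by norm_num) 12 (by omega) hpos (e1 ▸ dvd_mul_right _ _)
  have hb : b ≤ 7 :=
    t5_aux_le (p := 3) (by norm_num) 7 (by omega) hpos
      ((show 3 ^ b ∣ N1 from e2 ▸ dvd_mul_right _ _).trans d10)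
  have hc : c ≤ 5 :=
    t5_aux_le (p := 5) (by norm_num) 5 (by omega) hpos
      ((show 5 ^ c ∣ N2 from e3 ▸ dvd_mul_right _ _).trans d20)
  have hd : d ≤ 4 :=
    t5_aux_le (p := 7) (by norm_num) 4 (by omega) hpos
      ((show 7 ^ d ∣ N3 from e4 ▸ dvd_mul_right _ _).trans d30)
  have he : e ≤ 3 :=
    t5_aux_le (p := 11) (by norm_num) 3 (by omega) hpos
      ((show 11 ^ e ∣ N4 from e5 ▸ dvd_mul_right _ _).trans d40)
  have hf : f ≤ 3 :=
    t5_aux_le (p := 13) (by norm_num) 3 (by omega) hpos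
      ((show 13 ^ f ∣ N5 from e6 ▸ dvd_mul_right _ _).trans d50)
  have hg : g ≤ 3 :=
    t5_aux_le (p := 17) (by norm_num) 3 (by omega) hpos d60
  have hN : N = 2 ^ a * 3 ^ b * 5 ^ c * 7 ^ d * 11 ^ e * 13 ^ f * 17 ^ g := by
    rw [e1, e2, e3, e4, e5, e6]; ring
  rw [hN]
  exact Nat.mul_dvd_mul (Nat.mul_dvd_mul (Nat.mul_dvd_mul (Nat.mul_dvd_mul (Nat.mul_dvd_mul
    (Nat.mul_dvd_mul (pow_dvd_pow 2 ha) (pow_dvd_pow 3 hb)) (pow_dvd_pow 5 hc))
    (pow_dvd_pow 7 hd)) (pow_dvd_pow 11 he)) (pow_dvd_pow 13 hf)) (pow_dvd_pow 17 hg)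

end Cfsg.Agent.S983
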