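import Mathlib
import Cfsg.Agent.Lib.Helper18.SLMDefs

/-!
# Project SLM (S2332, helper18), piece E4 (helper31)

For `k ≥ 4`, a transvection of the Levi factor fixing a non-zero weight `l` is a commutator of two
transvections fixing `l`, hence acts trivially on the (one-dimensional) weight space.
-/

set_option autoImplicit false
set_option linter.unusedSectionVars false

namespace Cfsg.Agent.Lib.Helper18.SLM

open Matrix

universe u

variable {F : Type u} [Field F] [Fintype F]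

/-- a commutator of two operators preserving a line acts trivially on it -/
theorem e4_comm {G : Type*} [Group G] {V : Type*} [AddCommGroup V] [Module ℂ V]
    (ρ : Representation ℂ G V) (L : Submodule ℂ V) (hL : Module.finrank ℂ L = 1) (a b : G)
    (ha : ∀ v ∈ L, ρ a v ∈ L) (hb : ∀ v ∈ L, ρ b v ∈ L) :
    ∀ v ∈ L, ρ (a * b * a⁻¹ * b⁻¹) v = v := by
  obtain ⟨e, he0, hgen⟩ := finrank_eq_one_iff'.1 hL
  have hsc : ∀ g : G, (∀ v ∈ L, ρ g v ∈ L) → ∃ x : ℂ, ρ g (e : V) = x • (e : V) := by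
    intro g hg
    obtain ⟨c, hc⟩ := hgen ⟨ρ g (e : V), hg _ e.2⟩
    refine ⟨c, ?_⟩
    have h := congrArg Subtype.val hc
    rw [Submodule.coe_smul] at h
    exact h.symm
  obtain ⟨x, hx⟩ := hsc a ha
  obtain ⟨y, hy⟩ := hsc b hb
  have hinv : ∀ (g : G) (z : ℂ), ρ g (e : V) = z • (e : V) →
      ρ g⁻¹ (e : V) = z⁻¹ • (e : V) ∧ z ≠ 0 := by
    intro g z hz
    have h1 : ρ g⁻¹ (ρ g (e : V)) = (e : V) := by
      rw [← Module.End.mul_apply, ← map_mul, inv_mul_cancel, map_one, Module.End.one_apply]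
    rw [hz, map_smul] at h1
    have hz0 : z ≠ 0 := by
      intro h
      rw [h, zero_smul] at h1
      exact he0 (Subtype.ext h1.symm)
    refine ⟨?_, hz0⟩
    calc ρ g⁻¹ (e : V) = z⁻¹ • (z • ρ g⁻¹ (e : V)) := by
          rw [smul_smul, inv_mul_cancel₀ hz0, one_smul]
      _ = z⁻¹ • (e : V) := by rw [h1]
  obtain ⟨hxi, hx0⟩ := hinv a x hx
  obtain ⟨hyi, hy0⟩ := hinv b y hy
  have he : ρ (a * b * a⁻¹ * b⁻¹) (e : V) = (e : V) := by
    rw [map_mul, map_mul, map_mul, Module.End.mul_apply, Module.End.mul_apply,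
      Module.End.mul_apply]
    simp only [map_smul, hx, hy, hxi, hyi, smul_smul]
    have h1 : y⁻¹ * (x⁻¹ * (y * x)) = 1 := by field_simp
    convert one_smul ℂ (e : V) using 2
    rw [← h1]
    ring
  intro v hv
  obtain ⟨c, hc⟩ := hgen ⟨v, hv⟩
  have hv' : v = c • (e : V) := by
    have h := congrArg Subtype.val hc
    rw [Submodule.coe_smul] at h
    exact h.symm
  rw [hv', map_smul, he]

omit [Fintype F] in
theorem e4_det {k : ℕ} (a φ : Fin k → F) (h : φ ⬝ᵥ a = 0) :
    (1 + vecMulVec a φ : Matrix (Fin k) (Fin k) F).det = 1 := by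
  rw [vecMulVec_eq Unit, det_one_add_replicateCol_mul_replicateRow, h, add_zero]

omit [Fintype F] in
theorem e4_mulVec {k : ℕ} (a φ l : Fin k → F) :
    (1 + vecMulVec a φ : Matrix (Fin k) (Fin k) F) *ᵥ l = l + (φ ⬝ᵥ l) • a := by
  rw [Matrix.add_mulVec, Matrix.one_mulVec, vecMulVec_mulVec]
  congr 1
  ext i
  simp [mul_comm]

theorem e4_ring {R : Type*} [Ring R] (A B : R) (hBA : B * A = 0) (hBB : B * B = 0) :
    (1 + A) * (1 + B) = (1 + A * B) * (1 + B) * (1 + A) := by
  have e : (1 + A * B) * (1 + B) * (1 + A) =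
      1 + A + B + A * B + (B * A + A * (B * B) + A * (B * A) + A * (B * B) * A) := by
    noncomm_ring
  rw [e, hBA, hBB]
  noncomm_ring

omit [Fintype F] in
theorem e4_exists {k : ℕ} (hk : 4 ≤ k) (a φ l : Fin k → F) :
    ∃ b α : Fin k → F, φ ⬝ᵥ b = 0 ∧ α ⬝ᵥ a = 0 ∧ α ⬝ᵥ l = 0 ∧ α ⬝ᵥ b = 1 := by
  classical
  let fφ : (Fin k → F) →ₗ[F] F :=
    { toFun := fun x => φ ⬝ᵥ x
      map_add' := fun x y => dotProduct_add φ x y
      map_smul' := fun c x => by simp [dotProduct_smul] }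
  have hker : k ≤ Module.finrank F (LinearMap.ker fφ) + 1 := by
    have h := LinearMap.finrank_range_add_finrank_ker fφ
    rw [Module.finrank_fin_fun] at h
    have h1 : Module.finrank F (LinearMap.range fφ) ≤ 1 := by
      have h2 := Submodule.finrank_le (LinearMap.range fφ)
      rw [Module.finrank_self] at h2
      exact h2
    omega
  have hspan : Module.finrank F (Submodule.span F ({a, l} : Set (Fin k → F))) ≤ 2 := by
    have h := finrank_span_finset_le_card (R := F) ({a, l} : Finset (Fin k → F))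
    have h2 : ({a, l} : Finset (Fin k → F)).card ≤ 2 := Finset.card_le_two
    have h3 : (({a, l} : Finset (Fin k → F)) : Set (Fin k → F)) = {a, l} := by simp
    rw [Set.finrank, h3] at h
    omega
  have hnot : ¬ LinearMap.ker fφ ≤ Submodule.span F ({a, l} : Set (Fin k → F)) := by
    intro hle
    have h := Submodule.finrank_mono hle
    omega
  obtain ⟨b, hb, hbn⟩ := SetLike.not_le_iff_exists.1 hnot
  obtain ⟨f, hfb, hf⟩ := Submodule.exists_dual_map_eq_bot_of_notMem hbn inferInstance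
  let α₀ : Fin k → F := fun i => f (Pi.single i 1)
  have hα₀ : ∀ x : Fin k → F, α₀ ⬝ᵥ x = f x := by
    intro x
    rw [LinearMap.pi_apply_eq_sum_univ f x]
    unfold dotProduct
    apply Finset.sum_congr rfl
    intro i _
    rw [smul_eq_mul, mul_comm]
    show x i * f (Pi.single i 1) = x i * f (fun j => if i = j then 1 else 0)
    congr 2
    ext j
    simp [Pi.single_apply, eq_comm]
  have hvan : ∀ x ∈ Submodule.span F ({a, l} : Set (Fin k → F)), f x = 0 := by
    intro x hx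
    have h : f x ∈ (Submodule.span F ({a, l} : Set (Fin k → F))).map f :=
      Submodule.mem_map_of_mem hx
    rw [hf, Submodule.mem_bot] at h
    exact h
  refine ⟨b, (f b)⁻¹ • α₀, LinearMap.mem_ker.1 hb, ?_, ?_, ?_⟩
  · rw [smul_dotProduct, hα₀, hvan a (Submodule.subset_span (by simp)), smul_zero]
  · rw [smul_dotProduct, hα₀, hvan l (Submodule.subset_span (by simp)), smul_zero]
  · rw [smul_dotProduct, hα₀, smul_eq_mul, inv_mul_cancel₀ hfb]

-- piece E4
theorem ep_of_m1_ge4 {V : Type*} [AddCommGroup V] [Module ℂ V] (ψ : AddChar F ℂ) {k : ℕ}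
    (hk : 4 ≤ k) (ρ : Representation ℂ (Matrix.SpecialLinearGroup (Fin (k + 1)) F) V)
    (hM : M1 ψ ρ)
    (hmap : ∀ (g : Matrix.SpecialLinearGroup (Fin k) F) (l : Fin k → F), ∀ v ∈ wt ψ ρ l,
      ρ (lev g) v ∈ wt ψ ρ ((g : Matrix (Fin k) (Fin k) F) *ᵥ l)) :
    EP ψ ρ := by
  intro l hl g hg hgl v hv
  obtain ⟨a, φ, hφa, hgm⟩ := hg
  by_cases ha : a = 0
  · have hg1 : g = 1 := by
      apply Subtype.ext
      rw [hgm, ha]
      ext i j
      simp
    rw [hg1, map_one, map_one]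
    rfl
  have hφl : φ ⬝ᵥ l = 0 := by
    rw [hgm, e4_mulVec] at hgl
    have h1 : (φ ⬝ᵥ l) • a = 0 := by
      have h2 := congrArg (fun z => z - l) hgl
      simpa using h2
    rcases smul_eq_zero.1 h1 with h | h
    · exact h
    · exact absurd h ha
  obtain ⟨b, α, hφb, hαa, hαl, hαb⟩ := e4_exists hk a φ l
  let g₁ : Matrix.SpecialLinearGroup (Fin k) F := ⟨1 + vecMulVec a α, e4_det a α hαa⟩
  let g₂ : Matrix.SpecialLinearGroup (Fin k) F := ⟨1 + vecMulVec b φ, e4_det b φ hφb⟩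
  have hg₁l : (g₁ : Matrix (Fin k) (Fin k) F) *ᵥ l = l := by
    show (1 + vecMulVec a α : Matrix (Fin k) (Fin k) F) *ᵥ l = l
    rw [e4_mulVec, hαl, zero_smul, add_zero]
  have hg₂l : (g₂ : Matrix (Fin k) (Fin k) F) *ᵥ l = l := by
    show (1 + vecMulVec b φ : Matrix (Fin k) (Fin k) F) *ᵥ l = l
    rw [e4_mulVec, hφl, zero_smul, add_zero]
  have hcomm : g₁ * g₂ = g * g₂ * g₁ := by
    apply Subtype.ext
    show (1 + vecMulVec a α) * (1 + vecMulVec b φ) =
      (g : Matrix (Fin k) (Fin k) F) * (1 + vecMulVec b φ) * (1 + vecMulVec a α)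
    have hAB : vecMulVec a α * vecMulVec b φ = vecMulVec a φ := by
      rw [vecMulVec_mul_vecMulVec, hαb, one_smul]
    have hBA : vecMulVec b φ * vecMulVec a α = 0 := by
      rw [vecMulVec_mul_vecMulVec, hφa, zero_smul]
      ext i j
      simp [vecMulVec_apply]
    have hBB : vecMulVec b φ * vecMulVec b φ = 0 := by
      rw [vecMulVec_mul_vecMulVec, hφb, zero_smul]
      ext i j
      simp [vecMulVec_apply]
    rw [hgm, ← hAB]
    exact e4_ring _ _ hBA hBB
  have hgeq : g = g₁ * g₂ * g₁⁻¹ * g₂⁻¹ := by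
    rw [hcomm]
    group
  have hL := hM l hl
  have h1 : ∀ w ∈ wt ψ ρ l, ρ (lev g₁) w ∈ wt ψ ρ l := by
    intro w hw
    have h := hmap g₁ l w hw
    rw [hg₁l] at h
    exact h
  have h2 : ∀ w ∈ wt ψ ρ l, ρ (lev g₂) w ∈ wt ψ ρ l := by
    intro w hw
    have h := hmap g₂ l w hw
    rw [hg₂l] at h
    exact h
  have h3 := e4_comm ρ (wt ψ ρ l) hL (lev g₁) (lev g₂) h1 h2 v hv
  have hlev : lev g = lev g₁ * lev g₂ * (lev g₁)⁻¹ * (lev g₂)⁻¹ := by
    rw [hgeq, map_mul, map_mul, map_mul, map_inv, map_inv]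
  rw [hlev]
  exact h3

end Cfsg.Agent.Lib.Helper18.SLM
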