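import Mathlib
import Cfsg.Prelude.Def_OddOrderLocal

set_option autoImplicit false
open scoped commutatorElement

universe u

namespace Cfsg.Agent.Lib.Helper31.SSol

theorem index_ker_eq_prime {S H : Type*} [Group S] [Group H] {p : ℕ} [Fact p.Prime]
    (f : S →* H) (h : H) (hh : h ^ p = 1) (hf : ∀ x, f x ∈ Subgroup.zpowers h)
    (hne : ∃ x, f x ≠ 1) : f.ker.index = p := by
  have hp : p.Prime := Fact.out
  rw [Subgroup.index_ker]
  have hle : f.range ≤ Subgroup.zpowers h := by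
    rintro _ ⟨x, rfl⟩
    exact hf x
  have h1 : Nat.card f.range ∣ Nat.card (Subgroup.zpowers h) := Subgroup.card_dvd_of_le hle
  have h2 : Nat.card (Subgroup.zpowers h) ∣ p := by
    rw [Nat.card_zpowers]
    exact orderOf_dvd_of_pow_eq_one hh
  have h3 : Nat.card f.range ≠ 1 := by
    intro h4
    have h5 := Subgroup.eq_bot_of_card_eq _ h4
    obtain ⟨x, hx⟩ := hne
    apply hx
    have h6 : f x ∈ f.range := ⟨x, rfl⟩
    rw [h5, Subgroup.mem_bot] at h6
    exact h6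
  exact ((Nat.dvd_prime hp).mp (h1.trans h2)).resolve_left h3

theorem pow_mul_comm_of_central {Q : Type*} [Group Q] (x y : Q)
    (hz : ∀ g : Q, g * ⁅y, x⁆ = ⁅y, x⁆ * g) (k : ℕ) :
    y ^ k * x = ⁅y, x⁆ ^ k * x * y ^ k := by
  induction k with
  | zero => simp
  | succ k ih =>
    have hyx : y * x = ⁅y, x⁆ * x * y := by rw [commutatorElement_def]; group
    calc y ^ (k + 1) * x = y ^ k * (y * x) := by rw [pow_succ, mul_assoc]
      _ = y ^ k * ⁅y, x⁆ * x * y := by rw [hyx, mul_assoc, mul_assoc, mul_assoc]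
      _ = ⁅y, x⁆ * (y ^ k * x) * y := by rw [hz (y ^ k), mul_assoc ⁅y, x⁆]
      _ = ⁅y, x⁆ * (⁅y, x⁆ ^ k * x * y ^ k) * y := by rw [ih]
      _ = ⁅y, x⁆ ^ (k + 1) * x * y ^ (k + 1) := by
        rw [pow_succ' ⁅y, x⁆, pow_succ y]
        simp only [mul_assoc]

theorem mul_pow_of_central {Q : Type*} [Group Q] (x y : Q)
    (hz : ∀ g : Q, g * ⁅y, x⁆ = ⁅y, x⁆ * g) (k : ℕ) :
    (x * y) ^ k = x ^ k * y ^ k * ⁅y, x⁆ ^ (k.choose 2) := by
  have hzk : ∀ (m : ℕ) (g : Q), g * ⁅y, x⁆ ^ m = ⁅y, x⁆ ^ m * g := by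
    intro m g
    have hc : Commute g ⁅y, x⁆ := hz g
    exact (hc.pow_right m).eq
  induction k with
  | zero => simp
  | succ k ih =>
    have hch : (k + 1).choose 2 = k.choose 2 + k := by
      rw [Nat.choose_succ_succ, Nat.choose_one_right, add_comm]
    calc (x * y) ^ (k + 1) = x ^ k * y ^ k * ⁅y, x⁆ ^ (k.choose 2) * (x * y) := by
          rw [pow_succ, ih]
      _ = ⁅y, x⁆ ^ (k.choose 2) * (x ^ k * (y ^ k * x) * y) := by
          rw [hzk (k.choose 2) (x ^ k * y ^ k)]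
          simp only [mul_assoc]
      _ = ⁅y, x⁆ ^ (k.choose 2) * (x ^ k * (⁅y, x⁆ ^ k * x * y ^ k) * y) := by
          rw [pow_mul_comm_of_central x y hz k]
      _ = ⁅y, x⁆ ^ (k.choose 2) * (⁅y, x⁆ ^ k * (x ^ k * x * y ^ k * y)) := by
          rw [← mul_assoc (x ^ k) (⁅y, x⁆ ^ k * x), ← mul_assoc (x ^ k) (⁅y, x⁆ ^ k),
            hzk k (x ^ k)]
          simp only [mul_assoc]
      _ = x ^ (k + 1) * y ^ (k + 1) * ⁅y, x⁆ ^ ((k + 1).choose 2) := by
          rw [hch, pow_add ⁅y, x⁆, pow_succ x, pow_succ y,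
            ← mul_assoc _ (⁅y, x⁆ ^ k.choose 2), hzk (k.choose 2), mul_assoc, hzk k]
          simp only [mul_assoc]
          rw [← mul_assoc, ← mul_assoc (⁅y, x⁆ ^ k), hzk (k.choose 2) (⁅y, x⁆ ^ k)]

theorem prime_dvd_choose_two_pow {p : ℕ} (hp : p.Prime) (hp2 : p ≠ 2) (n : ℕ) (hn : n ≠ 0) :
    p ∣ (p ^ n).choose 2 := by
  have h1 : 2 * (p ^ n).choose 2 = p ^ n * (p ^ n - 1) := by
    rw [Nat.choose_two_right]
    exact Nat.mul_div_cancel' (even_iff_two_dvd.mp (Nat.even_mul_pred_self (p ^ n)))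
  have h2 : p ∣ 2 * (p ^ n).choose 2 := by
    rw [h1]
    exact Dvd.dvd.mul_right (dvd_pow_self p hn) _
  rcases (Nat.Prime.dvd_mul hp).mp h2 with h | h
  · exact absurd ((Nat.prime_dvd_prime_iff_eq hp Nat.prime_two).mp h) hp2
  · exact h

theorem zpow_pow_eq_one {Q : Type*} [Group Q] (a : Q) (t : ℤ) (p : ℕ) (ha : a ^ p = 1) :
    (a ^ t) ^ p = 1 := by
  rw [← zpow_natCast, ← zpow_mul, mul_comm, zpow_mul, zpow_natCast, ha, one_zpow]

theorem exists_zmod_hom {S : Type*} [Group S] (m : ℕ) (c : S) (hc : c ^ m = 1) :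
    ∃ f : Multiplicative (ZMod m) →* S,
      ∀ i : ℤ, f (Multiplicative.ofAdd (i : ZMod m)) = c ^ i := by
  have h0 : (zmultiplesHom (Additive S) (Additive.ofMul c)) (m : ℤ) = 0 := by
    show ((m : ℤ)) • Additive.ofMul c = 0
    rw [natCast_zsmul]
    exact congrArg Additive.ofMul hc
  refine ⟨AddMonoidHom.toMultiplicativeLeft
    (ZMod.lift m ⟨zmultiplesHom (Additive S) (Additive.ofMul c), h0⟩), fun i => ?_⟩
  show Additive.toMul ((ZMod.lift m ⟨zmultiplesHom (Additive S) (Additive.ofMul c), h0⟩)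
    (i : ZMod m)) = c ^ i
  rw [ZMod.lift_coe]
  rfl


theorem exists_char_max_of_metacyclic {S : Type u} [Group S] [Finite S] {p : ℕ} [Fact p.Prime]
    (hp : p ≠ 2) (hS : IsPGroup p S) (hm : Cfsg.IsMetacyclic S) (hnc : ¬ IsCyclic S)
    (hnh : ¬ ∃ n : ℕ, 0 < n ∧
      Nonempty (S ≃* Multiplicative (ZMod (p ^ n)) × Multiplicative (ZMod (p ^ n)))) :
    ∃ L : Subgroup S, L.index = p ∧ ∀ α : MulAut S, ∀ x ∈ L, α x ∈ L := by
  classical
  have hpp : p.Prime := Fact.out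
  obtain ⟨N, hNn, hNc, hQc⟩ := hm
  obtain ⟨g, hg⟩ := hNc.exists_generator
  obtain ⟨q, hq⟩ := hQc.exists_generator
  obtain ⟨d, rfl⟩ := QuotientGroup.mk_surjective q
  obtain ⟨c, hcdef⟩ : ∃ c : S, c = (g : S) := ⟨_, rfl⟩
  have hNc' : ∀ x ∈ N, x ∈ Subgroup.zpowers c := by
    intro x hx
    obtain ⟨k, hk⟩ := Subgroup.mem_zpowers_iff.mp (hg ⟨x, hx⟩)
    refine Subgroup.mem_zpowers_iff.mpr ⟨k, ?_⟩
    have h1 := congrArg (Subtype.val : N → S) hk
    rw [Subgroup.coe_zpow] at h1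
    rw [hcdef]
    exact h1
  have hrep : ∀ x : S, ∃ i j : ℤ, x = d ^ j * c ^ i := by
    intro x
    obtain ⟨j, hj⟩ := Subgroup.mem_zpowers_iff.mp (hq (QuotientGroup.mk x))
    have h1 : (d ^ j)⁻¹ * x ∈ N := by
      rw [← QuotientGroup.eq, QuotientGroup.mk_zpow]
      exact hj
    obtain ⟨i, hi⟩ := Subgroup.mem_zpowers_iff.mp (hNc' _ h1)
    exact ⟨i, j, by rw [hi]; group⟩
  have hDN : commutator S ≤ N := by
    rw [commutator_def, Subgroup.commutator_le]
    intro x _ y _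
    rw [← QuotientGroup.eq_one_iff]
    have h1 : ((⁅x, y⁆ : S) : S ⧸ N) = ⁅(x : S ⧸ N), (y : S ⧸ N)⁆ :=
      map_commutatorElement (QuotientGroup.mk' N) x y
    rw [h1, commutatorElement_eq_one_iff_commute]
    obtain ⟨a, ha⟩ := Subgroup.mem_zpowers_iff.mp (hq (QuotientGroup.mk x))
    obtain ⟨b, hb⟩ := Subgroup.mem_zpowers_iff.mp (hq (QuotientGroup.mk y))
    rw [← ha, ← hb]
    exact (Commute.refl _).zpow_zpow a b
  have hDc : ∀ x ∈ commutator S, x ∈ Subgroup.zpowers c := fun x hx => hNc' x (hDN hx)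
  have hDchar : (commutator S).Characteristic := by
    rw [commutator_def]
    infer_instance
  have hDstab : ∀ (α : MulAut S) (x : S), x ∈ commutator S → α x ∈ commutator S := by
    intro α x hx
    have h1 : x ∈ (commutator S).comap α.toMonoidHom := by
      rw [hDchar.fixed α]
      exact hx
    exact h1
  have hDtop : commutator S ≠ ⊤ := by
    intro h
    apply hnc
    rw [isCyclic_iff_exists_zpowers_eq_top]
    exact ⟨c, eq_top_iff.mpr (fun x _ => hDc x (h ▸ Subgroup.mem_top x))⟩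
  have hex : ∃ n : ℕ, ∀ x : S, x ^ p ^ n ∈ commutator S := by
    obtain ⟨e, he⟩ := IsPGroup.iff_card.mp hS
    exact ⟨e, fun x => by rw [← he, pow_card_eq_one']; exact one_mem _⟩
  have hn0 : Nat.find hex ≠ 0 := by
    intro h0
    have h1 := Nat.find_spec hex
    rw [h0] at h1
    apply hDtop
    rw [eq_top_iff]
    intro x _
    simpa using h1 x
  obtain ⟨n', hn'⟩ := Nat.exists_eq_succ_of_ne_zero hn0
  have hnspec : ∀ x : S, x ^ p ^ (n' + 1) ∈ commutator S := by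
    have h1 := Nat.find_spec hex
    rwa [hn'] at h1
  have hnmin : ¬ ∀ x : S, x ^ p ^ n' ∈ commutator S := Nat.find_min hex (by omega)
  obtain ⟨ψ, hψdef⟩ : ∃ ψ : S →* Abelianization S,
      ψ = (powMonoidHom (p ^ n')).comp Abelianization.of := ⟨_, rfl⟩
  have hψapp : ∀ x, ψ x = Abelianization.of (x ^ p ^ n') := by
    intro x
    rw [hψdef, map_pow]
    rfl
  have hψ : ∀ x, ψ x = 1 ↔ x ^ p ^ n' ∈ commutator S := by
    intro x
    rw [hψapp, ← MonoidHom.mem_ker, Abelianization.ker_of]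
  have hψp : ∀ x, ψ x ^ p = 1 := by
    intro x
    rw [hψapp, ← map_pow, ← pow_mul, ← pow_succ, ← MonoidHom.mem_ker, Abelianization.ker_of]
    exact hnspec x
  have hψne : ∃ x, ψ x ≠ 1 := by
    by_contra h
    push Not at h
    exact hnmin (fun x => (hψ x).mp (h x))
  have hψstab : ∀ (α : MulAut S) (x : S), x ∈ ψ.ker → α x ∈ ψ.ker := by
    intro α x hx
    rw [MonoidHom.mem_ker, hψ] at hx ⊢
    rw [← map_pow]
    exact hDstab α _ hx
  have hψrep : ∀ (x : S) (i j : ℤ), x = d ^ j * c ^ i → ψ x = ψ d ^ j * ψ c ^ i := by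
    intro x i j h
    rw [h, map_mul, map_zpow, map_zpow]
  by_cases hcyc : ∃ h : Abelianization S, h ^ p = 1 ∧ ∀ x, ψ x ∈ Subgroup.zpowers h
  · obtain ⟨h, hh, hfh⟩ := hcyc
    exact ⟨ψ.ker, index_ker_eq_prime ψ h hh hfh hψne, hψstab⟩
  have hc1 : ψ c ≠ 1 := by
    intro h1
    apply hcyc
    refine ⟨ψ d, hψp d, fun x => ?_⟩
    obtain ⟨i, j, hx⟩ := hrep x
    rw [hψrep x i j hx, h1, one_zpow, mul_one]
    exact Subgroup.zpow_mem _ (Subgroup.mem_zpowers _) _
  have hd1 : ψ d ∉ Subgroup.zpowers (ψ c) := by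
    intro h1
    apply hcyc
    refine ⟨ψ c, hψp _, fun x => ?_⟩
    obtain ⟨i, j, hx⟩ := hrep x
    rw [hψrep x i j hx]
    exact Subgroup.mul_mem _ (Subgroup.zpow_mem _ h1 _)
      (Subgroup.zpow_mem _ (Subgroup.mem_zpowers _) _)
  have hcD : c ^ p ^ n' ∉ commutator S := fun h => hc1 ((hψ _).mpr h)
  have hDg : ∀ x ∈ commutator S, x ∈ Subgroup.zpowers (c ^ p ^ (n' + 1)) := by
    intro x hx
    obtain ⟨i, hi⟩ := mem_powers_iff_mem_zpowers.mpr (hDc x hx)
    have hi' : c ^ i = x := hi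
    have hgcd : c ^ (Nat.gcd i (p ^ (n' + 1))) ∈ commutator S := by
      have h1 := Nat.gcd_eq_gcd_ab i (p ^ (n' + 1))
      have h2 : c ^ ((Nat.gcd i (p ^ (n' + 1)) : ℕ) : ℤ) =
          (c ^ i) ^ (Nat.gcdA i (p ^ (n' + 1))) *
            (c ^ p ^ (n' + 1)) ^ (Nat.gcdB i (p ^ (n' + 1))) := by
        rw [h1, zpow_add, zpow_mul, zpow_mul, zpow_natCast, zpow_natCast]
      rw [← zpow_natCast, h2]
      exact Subgroup.mul_mem _ (Subgroup.zpow_mem _ (hi' ▸ hx) _)
        (Subgroup.zpow_mem _ (hnspec _) _)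
    obtain ⟨a, ha, hga⟩ := (Nat.dvd_prime_pow hpp).mp (Nat.gcd_dvd_right i (p ^ (n' + 1)))
    rw [hga] at hgcd
    have han : a = n' + 1 := by
      by_contra hne
      have ha' : a ≤ n' := by omega
      apply hcD
      have h3 : c ^ p ^ n' = (c ^ p ^ a) ^ p ^ (n' - a) := by
        rw [← pow_mul, ← pow_add, Nat.add_sub_cancel' ha']
      rw [h3]
      exact Subgroup.pow_mem _ hgcd _
    have hdvd : p ^ (n' + 1) ∣ i := by
      have h4 := Nat.gcd_dvd_left i (p ^ (n' + 1))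
      rwa [hga, han] at h4
    obtain ⟨t, rfl⟩ := hdvd
    rw [← hi', pow_mul]
    exact Subgroup.pow_mem _ (Subgroup.mem_zpowers _) _
  by_cases hg0 : c ^ p ^ (n' + 1) = 1
  · -- case (a): `S` is abelian
    have hD1 : ∀ x ∈ commutator S, x = 1 := by
      intro x hx
      have h1 := hDg x hx
      rw [hg0, Subgroup.zpowers_one_eq_bot, Subgroup.mem_bot] at h1
      exact h1
    have hcomm : ∀ x y : S, x * y = y * x := by
      intro x y
      have h1 : ⁅x, y⁆ ∈ commutator S := by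
        rw [commutator_def]
        exact Subgroup.commutator_mem_commutator (Subgroup.mem_top _) (Subgroup.mem_top _)
      exact commutatorElement_eq_one_iff_mul_comm.mp (hD1 _ h1)
    have hψ1 : ∀ x, ψ x = 1 ↔ x ^ p ^ n' = 1 := by
      intro x
      rw [hψ]
      exact ⟨fun h => hD1 _ h, fun h => h ▸ one_mem _⟩
    have hco : orderOf c = p ^ (n' + 1) :=
      orderOf_eq_prime_pow (fun h => hc1 ((hψ1 c).mpr h)) hg0
    have hd0 : d ^ p ^ (n' + 1) = 1 := hD1 _ (hnspec d)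
    have hdn : ¬ d ^ p ^ n' = 1 := by
      intro h
      apply hd1
      rw [(hψ1 d).mpr h]
      exact one_mem _
    have hdo : orderOf d = p ^ (n' + 1) := orderOf_eq_prime_pow hdn hd0
    have hint : ∀ y : S, y ∈ Subgroup.zpowers c → y ∈ Subgroup.zpowers d → y = 1 := by
      intro y hyc hyd
      by_contra hy1
      obtain ⟨i, hi⟩ := mem_powers_iff_mem_zpowers.mpr hyc
      obtain ⟨j, hj⟩ := mem_powers_iff_mem_zpowers.mpr hyd
      have hi' : c ^ i = y := hi
      have hj' : d ^ j = y := hj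
      have hj0 : j ≠ 0 := by
        rintro rfl
        rw [pow_zero] at hj'
        exact hy1 hj'.symm
      obtain ⟨a, j', hj'nd, rfl⟩ := Nat.exists_eq_pow_mul_and_not_dvd hj0 p hpp.ne_one
      have ha : a ≤ n' := by
        by_contra hlt
        apply hy1
        rw [← hj']
        have h1 : p ^ (n' + 1) ∣ p ^ a * j' :=
          Dvd.dvd.mul_right (pow_dvd_pow p (by omega)) _
        rw [← hdo] at h1
        exact orderOf_dvd_iff_pow_eq_one.mp h1
      have hw1 : y ^ p ^ (n' - a) = d ^ (p ^ n' * j') := by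
        rw [← hj', ← pow_mul]
        congr 1
        rw [mul_right_comm, ← pow_add, Nat.add_sub_cancel' ha]
      have hw2 : y ^ p ^ (n' - a) = c ^ (i * p ^ (n' - a)) := by
        rw [← hi', ← pow_mul]
      have hw3 : (c ^ (i * p ^ (n' - a))) ^ p = 1 := by
        rw [← hw2, hw1, ← pow_mul]
        have h1 : p ^ (n' + 1) ∣ p ^ n' * j' * p := ⟨j', by ring⟩
        rw [← hdo] at h1
        exact orderOf_dvd_iff_pow_eq_one.mp h1
      have hdvd : p ^ n' ∣ i * p ^ (n' - a) := by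
        rw [← pow_mul] at hw3
        have h1 := orderOf_dvd_of_pow_eq_one hw3
        rw [hco, pow_succ] at h1
        exact Nat.dvd_of_mul_dvd_mul_right hpp.pos h1
      obtain ⟨i', hi'2⟩ := hdvd
      have h5 : ψ d ^ j' = ψ c ^ i' := by
        rw [hψapp, hψapp, ← map_pow, ← map_pow, ← pow_mul, ← pow_mul, ← hw1, hw2, hi'2]
      have hcop : Nat.Coprime j' (orderOf (ψ d)) := by
        have h6 : orderOf (ψ d) ∣ p := orderOf_dvd_of_pow_eq_one (hψp d)
        have h7 : Nat.Coprime j' p := ((Nat.Prime.coprime_iff_not_dvd hpp).mpr hj'nd).symm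
        exact Nat.Coprime.coprime_dvd_right h6 h7
      obtain ⟨m, hm⟩ := exists_pow_eq_self_of_coprime hcop
      apply hd1
      rw [← hm, h5]
      exact Subgroup.pow_mem _ (Subgroup.pow_mem _ (Subgroup.mem_zpowers _) _) _
    obtain ⟨f₁, hf₁⟩ := exists_zmod_hom (p ^ (n' + 1)) c hg0
    obtain ⟨f₂, hf₂⟩ := exists_zmod_hom (p ^ (n' + 1)) d hd0
    have hφmul : ∀ a b : Multiplicative (ZMod (p ^ (n' + 1))) ×
        Multiplicative (ZMod (p ^ (n' + 1))),
        f₁ (a * b).1 * f₂ (a * b).2 = f₁ a.1 * f₂ a.2 * (f₁ b.1 * f₂ b.2) := by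
      intro a b
      rw [Prod.fst_mul, Prod.snd_mul, map_mul, map_mul, mul_assoc, mul_assoc,
        ← mul_assoc (f₁ b.1), hcomm (f₁ b.1), mul_assoc]
    have hinj : Function.Injective (MonoidHom.mk'
        (fun a : Multiplicative (ZMod (p ^ (n' + 1))) × Multiplicative (ZMod (p ^ (n' + 1))) =>
          f₁ a.1 * f₂ a.2) hφmul) := by
      rw [injective_iff_map_eq_one]
      rintro ⟨a, b⟩ hab
      have hab' : f₁ a * f₂ b = 1 := hab
      obtain ⟨ia, hia⟩ := ZMod.intCast_surjective (Multiplicative.toAdd a)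
      obtain ⟨ib, hib⟩ := ZMod.intCast_surjective (Multiplicative.toAdd b)
      have ha : a = Multiplicative.ofAdd (ia : ZMod (p ^ (n' + 1))) := by rw [hia]; rfl
      have hb : b = Multiplicative.ofAdd (ib : ZMod (p ^ (n' + 1))) := by rw [hib]; rfl
      rw [ha, hb, hf₁, hf₂] at hab'
      have h1 : c ^ ia = (d ^ ib)⁻¹ := eq_inv_of_mul_eq_one_left hab'
      have h2 : c ^ ia = 1 :=
        hint _ (Subgroup.zpow_mem _ (Subgroup.mem_zpowers _) _)
          (by rw [h1]; exact Subgroup.inv_mem _ (Subgroup.zpow_mem _ (Subgroup.mem_zpowers _) _))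
      have h3 : d ^ ib = 1 := by
        rw [h2, one_mul] at hab'
        exact hab'
      have h4 : (ia : ZMod (p ^ (n' + 1))) = 0 := by
        rw [ZMod.intCast_zmod_eq_zero_iff_dvd]
        have h6 := orderOf_dvd_iff_zpow_eq_one.mpr h2
        rwa [hco] at h6
      have h5 : (ib : ZMod (p ^ (n' + 1))) = 0 := by
        rw [ZMod.intCast_zmod_eq_zero_iff_dvd]
        have h6 := orderOf_dvd_iff_zpow_eq_one.mpr h3
        rwa [hdo] at h6
      rw [ha, hb, h4, h5]
      rfl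
    have hsurj : Function.Surjective (MonoidHom.mk'
        (fun a : Multiplicative (ZMod (p ^ (n' + 1))) × Multiplicative (ZMod (p ^ (n' + 1))) =>
          f₁ a.1 * f₂ a.2) hφmul) := by
      intro x
      obtain ⟨i, j, hx⟩ := hrep x
      refine ⟨(Multiplicative.ofAdd (i : ZMod (p ^ (n' + 1))),
        Multiplicative.ofAdd (j : ZMod (p ^ (n' + 1)))), ?_⟩
      show f₁ _ * f₂ _ = x
      rw [hf₁, hf₂, hx, hcomm]
    exact absurd ⟨n' + 1, Nat.succ_pos _,
      ⟨(MulEquiv.ofBijective _ ⟨hinj, hsurj⟩).symm⟩⟩ hnh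
  · -- case (b): the commutator subgroup is nontrivial
    obtain ⟨g₀, hg₀def⟩ : ∃ g₀ : S, g₀ = c ^ p ^ (n' + 1) := ⟨_, rfl⟩
    rw [← hg₀def] at hg0 hDg
    have hg₀D : g₀ ∈ commutator S := hg₀def ▸ hnspec c
    obtain ⟨b, hb⟩ := (IsPGroup.iff_orderOf.mp hS) g₀
    have hb0 : b ≠ 0 := by
      rintro rfl
      rw [pow_zero, orderOf_eq_one_iff] at hb
      exact hg0 hb
    have hpdvd : p ∣ orderOf g₀ := by
      rw [hb]
      exact dvd_pow_self p hb0
    have hMstab : ∀ (α : MulAut S) (x : S), x ∈ Subgroup.zpowers (g₀ ^ p) →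
        α x ∈ Subgroup.zpowers (g₀ ^ p) := by
      intro α x hx
      obtain ⟨k, rfl⟩ := Subgroup.mem_zpowers_iff.mp hx
      obtain ⟨t, ht⟩ := Subgroup.mem_zpowers_iff.mp (hDg _ (hDstab α g₀ hg₀D))
      rw [map_zpow, map_pow, ← ht]
      have h1 : (g₀ ^ t) ^ p = (g₀ ^ p) ^ t := by
        rw [← zpow_natCast, ← zpow_natCast, ← zpow_mul, ← zpow_mul, mul_comm]
      rw [h1]
      exact Subgroup.zpow_mem _ (Subgroup.zpow_mem _ (Subgroup.mem_zpowers _) _) _
    have hMn : (Subgroup.zpowers (g₀ ^ p)).Normal :=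
      ⟨fun x hx s => hMstab (MulAut.conj s) x hx⟩
    have hg₀M : g₀ ∉ Subgroup.zpowers (g₀ ^ p) := by
      intro h
      obtain ⟨t, ht⟩ := Subgroup.mem_zpowers_iff.mp h
      have h1 : g₀ ^ ((p : ℤ) * t - 1) = 1 := by
        rw [zpow_sub, zpow_mul, zpow_natCast, ht, zpow_one, mul_inv_cancel]
      have h2 : (orderOf g₀ : ℤ) ∣ (p : ℤ) * t - 1 := orderOf_dvd_iff_zpow_eq_one.mpr h1
      have h3 : (p : ℤ) ∣ (orderOf g₀ : ℤ) := Int.natCast_dvd_natCast.mpr hpdvd
      have h4 : (p : ℤ) ∣ (p : ℤ) * t - 1 := h3.trans h2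
      have h5 : (p : ℤ) ∣ 1 := by
        have h6 := Int.dvd_sub (dvd_mul_right (p : ℤ) t) h4
        simpa using h6
      have h7 : (p : ℤ) = 1 := Int.eq_one_of_dvd_one (by positivity) h5
      exact hpp.one_lt.ne' (by exact_mod_cast h7)
    have hcentral : ∀ s : S, s * g₀ * s⁻¹ * g₀⁻¹ ∈ Subgroup.zpowers (g₀ ^ p) := by
      intro s
      have hDnorm : (commutator S).Normal := inferInstance
      have h1 : s * g₀ * s⁻¹ ∈ commutator S := hDnorm.conj_mem g₀ hg₀D s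
      obtain ⟨t, ht⟩ := mem_powers_iff_mem_zpowers.mpr (hDg _ h1)
      have ht' : g₀ ^ t = s * g₀ * s⁻¹ := ht
      have hit : ∀ k : ℕ, s ^ k * g₀ * (s ^ k)⁻¹ = g₀ ^ (t ^ k) := by
        intro k
        induction k with
        | zero => simp
        | succ k ih =>
          calc s ^ (k + 1) * g₀ * (s ^ (k + 1))⁻¹
              = s * (s ^ k * g₀ * (s ^ k)⁻¹) * s⁻¹ := by rw [pow_succ']; group
            _ = s * g₀ ^ (t ^ k) * s⁻¹ := by rw [ih]
            _ = (s * g₀ * s⁻¹) ^ (t ^ k) := by rw [conj_pow]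
            _ = g₀ ^ (t ^ (k + 1)) := by rw [← ht', ← pow_mul, ← pow_succ']
      obtain ⟨e, he⟩ := hS s
      have h2 := hit (p ^ e)
      rw [he, one_mul, inv_one, mul_one] at h2
      have h3 : (t : ZMod p) = 1 := by
        have h4 : g₀ ^ (t ^ p ^ e) = g₀ ^ 1 := by rw [pow_one]; exact h2.symm
        rw [pow_eq_pow_iff_modEq] at h4
        have h5 : t ^ p ^ e ≡ 1 [MOD p] := h4.of_dvd hpdvd
        have h6 : ((t ^ p ^ e : ℕ) : ZMod p) = ((1 : ℕ) : ZMod p) :=
          (ZMod.natCast_eq_natCast_iff _ _ _).mpr h5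
        rw [Nat.cast_pow, ZMod.pow_card_pow, Nat.cast_one] at h6
        exact h6
      have h7 : t % p = 1 := by
        have h8 : ((t : ℕ) : ZMod p) = ((1 : ℕ) : ZMod p) := by rw [h3, Nat.cast_one]
        have h9 := (ZMod.natCast_eq_natCast_iff' _ _ _).mp h8
        rw [Nat.mod_eq_of_lt hpp.one_lt] at h9
        exact h9
      have h8 : t = p * (t / p) + 1 := by
        have h9 := Nat.div_add_mod t p
        omega
      have h9 : g₀ ^ t = (g₀ ^ p) ^ (t / p) * g₀ := by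
        conv_lhs => rw [h8]
        rw [pow_succ, pow_mul]
      rw [← ht', h9, mul_inv_cancel_right]
      exact Subgroup.pow_mem _ (Subgroup.mem_zpowers _) _
    have hgbp : (QuotientGroup.mk g₀ : S ⧸ Subgroup.zpowers (g₀ ^ p)) ^ p = 1 := by
      rw [← QuotientGroup.mk_pow, QuotientGroup.eq_one_iff]
      exact Subgroup.mem_zpowers _
    have hgb1 : (QuotientGroup.mk g₀ : S ⧸ Subgroup.zpowers (g₀ ^ p)) ≠ 1 := by
      rw [Ne, QuotientGroup.eq_one_iff]
      exact hg₀M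
    have hgbc : ∀ q : S ⧸ Subgroup.zpowers (g₀ ^ p),
        q * QuotientGroup.mk g₀ = QuotientGroup.mk g₀ * q := by
      intro q
      obtain ⟨s, rfl⟩ := QuotientGroup.mk_surjective q
      have h1 := (QuotientGroup.eq_one_iff (N := Subgroup.zpowers (g₀ ^ p)) _).mpr (hcentral s)
      rw [QuotientGroup.mk_mul, QuotientGroup.mk_mul, QuotientGroup.mk_mul, QuotientGroup.mk_inv,
        QuotientGroup.mk_inv] at h1
      have h2 := mul_inv_eq_one.mp h1
      rw [mul_inv_eq_iff_eq_mul] at h2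
      exact h2
    have hcommQ : ∀ x y : S, ∃ t : ℤ,
        ⁅(QuotientGroup.mk y : S ⧸ Subgroup.zpowers (g₀ ^ p)), QuotientGroup.mk x⁆ =
          (QuotientGroup.mk g₀ : S ⧸ Subgroup.zpowers (g₀ ^ p)) ^ t := by
      intro x y
      have h1 : ⁅y, x⁆ ∈ commutator S := by
        rw [commutator_def]
        exact Subgroup.commutator_mem_commutator (Subgroup.mem_top _) (Subgroup.mem_top _)
      obtain ⟨t, ht⟩ := Subgroup.mem_zpowers_iff.mp (hDg _ h1)
      refine ⟨t, ?_⟩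
      have h2 : ((⁅y, x⁆ : S) : S ⧸ Subgroup.zpowers (g₀ ^ p)) =
          ⁅(y : S ⧸ Subgroup.zpowers (g₀ ^ p)), (x : S ⧸ Subgroup.zpowers (g₀ ^ p))⁆ :=
        map_commutatorElement (QuotientGroup.mk' (Subgroup.zpowers (g₀ ^ p))) y x
      rw [← h2, ← ht, QuotientGroup.mk_zpow]
    have hθmul : ∀ x y : S,
        (QuotientGroup.mk (x * y) : S ⧸ Subgroup.zpowers (g₀ ^ p)) ^ p ^ (n' + 1) =
          (QuotientGroup.mk x) ^ p ^ (n' + 1) * (QuotientGroup.mk y) ^ p ^ (n' + 1) := by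
      intro x y
      obtain ⟨t, ht⟩ := hcommQ x y
      have hz : ∀ q : S ⧸ Subgroup.zpowers (g₀ ^ p),
          q * ⁅(QuotientGroup.mk y : S ⧸ Subgroup.zpowers (g₀ ^ p)), QuotientGroup.mk x⁆ =
            ⁅(QuotientGroup.mk y : S ⧸ Subgroup.zpowers (g₀ ^ p)), QuotientGroup.mk x⁆ * q := by
        intro q
        rw [ht]
        have hc : Commute q (QuotientGroup.mk g₀) := hgbc q
        exact (hc.zpow_right t).eq
      have hzp : ⁅(QuotientGroup.mk y : S ⧸ Subgroup.zpowers (g₀ ^ p)),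
          (QuotientGroup.mk x : S ⧸ Subgroup.zpowers (g₀ ^ p))⁆ ^ p = 1 := by
        rw [ht]
        exact zpow_pow_eq_one _ t p hgbp
      obtain ⟨u, hu⟩ := prime_dvd_choose_two_pow hpp hp (n' + 1) (Nat.succ_ne_zero _)
      rw [QuotientGroup.mk_mul, mul_pow_of_central _ _ hz, hu, pow_mul, hzp, one_pow, mul_one]
    obtain ⟨θ, hθ⟩ : ∃ θ : S →* S ⧸ Subgroup.zpowers (g₀ ^ p),
        ∀ x, θ x = (QuotientGroup.mk x) ^ p ^ (n' + 1) :=
      ⟨MonoidHom.mk' (fun x => (QuotientGroup.mk x : S ⧸ Subgroup.zpowers (g₀ ^ p)) ^ p ^ (n' + 1))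
        hθmul, fun x => rfl⟩
    have hθker : ∀ x, x ∈ θ.ker ↔ x ^ p ^ (n' + 1) ∈ Subgroup.zpowers (g₀ ^ p) := by
      intro x
      rw [MonoidHom.mem_ker, hθ, ← QuotientGroup.mk_pow, QuotientGroup.eq_one_iff]
    refine ⟨θ.ker, index_ker_eq_prime θ (QuotientGroup.mk g₀) hgbp ?_ ⟨c, ?_⟩, ?_⟩
    · intro x
      obtain ⟨t, ht⟩ := Subgroup.mem_zpowers_iff.mp (hDg _ (hnspec x))
      rw [hθ, ← QuotientGroup.mk_pow, ← ht, QuotientGroup.mk_zpow]
      exact Subgroup.zpow_mem _ (Subgroup.mem_zpowers _) _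
    · rw [hθ, ← QuotientGroup.mk_pow, ← hg₀def]
      exact hgb1
    · intro α x hx
      rw [hθker] at hx ⊢
      rw [← map_pow]
      exact hMstab α _ hx

end Cfsg.Agent.Lib.Helper31.SSol
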