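import Mathlib

set_option autoImplicit false

namespace Cfsg.Agent.Lib.Helper31.SSol

/-- moving a power of `y` past a power of `x` when `y x y⁻¹ = x ^ e` -/
theorem rel_conj_pow {G : Type*} [Group G] {x y : G} {e : ℕ} (h : y * x * y⁻¹ = x ^ e)
    (j k : ℕ) : y ^ j * x ^ k = x ^ (k * e ^ j) * y ^ j := by
  induction j generalizing k with
  | zero => simp
  | succ j ih =>
    have h1 : y * x ^ k = x ^ (k * e) * y := by
      have h2 : (y * x * y⁻¹) ^ k = y * x ^ k * y⁻¹ := conj_pow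
      rw [h, ← pow_mul] at h2
      rw [mul_comm k e, h2]
      group
    calc y ^ (j + 1) * x ^ k = y ^ j * (y * x ^ k) := by rw [pow_succ, mul_assoc]
      _ = y ^ j * x ^ (k * e) * y := by rw [h1, mul_assoc]
      _ = x ^ (k * e * e ^ j) * y ^ j * y := by rw [ih]
      _ = x ^ (k * e ^ (j + 1)) * y ^ (j + 1) := by
        rw [pow_succ e, pow_succ y, mul_assoc, mul_assoc k, mul_comm e]

theorem rel_mul {G : Type*} [Group G] {x y : G} {e : ℕ} (h : y * x * y⁻¹ = x ^ e)
    (i j k l : ℕ) :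
    x ^ i * y ^ j * (x ^ k * y ^ l) = x ^ (i + k * e ^ j) * y ^ (j + l) := by
  calc x ^ i * y ^ j * (x ^ k * y ^ l) = x ^ i * (y ^ j * x ^ k) * y ^ l := by group
    _ = x ^ i * (x ^ (k * e ^ j) * y ^ j) * y ^ l := by rw [rel_conj_pow h]
    _ = x ^ (i + k * e ^ j) * y ^ (j + l) := by rw [pow_add, pow_add]; group

theorem exists_hom_of_rel {S H : Type*} [Group S] [Finite S] [Group H] {m e : ℕ} (x y : S)
    (X Y : H) (hcard : Nat.card S = 2 * m) (hx : orderOf x = m) (hy : y * y = 1)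
    (hyx : y ∉ Subgroup.zpowers x) (hrel : y * x * y⁻¹ = x ^ e)
    (hX : X ^ m = 1) (hY : Y * Y = 1) (hRel : Y * X * Y⁻¹ = X ^ e) :
    ∃ f : S →* H, f x = X ∧ f y = Y ∧ f.range = Subgroup.closure {X, Y} ∧
      (orderOf X = m → Y ∉ Subgroup.zpowers X → Function.Injective f) := by
  have hmpos : 0 < m := by rw [← hx]; exact orderOf_pos x
  have hy2 : y ^ 2 = 1 := by rw [pow_two]; exact hy
  have hY2 : Y ^ 2 = 1 := by rw [pow_two]; exact hY
  have hidx : (Subgroup.zpowers x).index = 2 := by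
    have h1 := (Subgroup.zpowers x).card_mul_index
    rw [Nat.card_zpowers, hx, hcard] at h1
    have h2 : m * (Subgroup.zpowers x).index = m * 2 := by rw [h1, mul_comm]
    exact Nat.eq_of_mul_eq_mul_left hmpos h2
  have hpowmem : ∀ i : ℕ, x ^ i ∈ Subgroup.zpowers x :=
    fun i => Subgroup.pow_mem _ (Subgroup.mem_zpowers x) i
  have hsurj : ∀ s : S, ∃ ij : ℕ × ℕ, x ^ ij.1 * y ^ ij.2 = s := by
    intro s
    by_cases hs : s ∈ Subgroup.zpowers x
    · obtain ⟨i, hi⟩ := mem_powers_iff_mem_zpowers.mpr hs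
      exact ⟨(i, 0), by simpa using hi⟩
    · have h1 : s * y ∈ Subgroup.zpowers x :=
        (Subgroup.mul_mem_iff_of_index_two hidx).mpr
          ⟨fun h => absurd h hs, fun h => absurd h hyx⟩
      obtain ⟨i, hi⟩ := mem_powers_iff_mem_zpowers.mpr h1
      refine ⟨(i, 1), ?_⟩
      show x ^ i * y ^ 1 = s
      have h2 : x ^ i = s * y := hi
      rw [pow_one, h2, mul_assoc, hy, mul_one]
  have hxx : ∀ a b : ℕ, x ^ a = x ^ b → X ^ a = X ^ b := by
    intro a b hab
    rw [pow_eq_pow_iff_modEq, hx] at hab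
    rw [pow_eq_pow_mod a hX, pow_eq_pow_mod b hX]
    exact congrArg (fun t => X ^ t) hab
  have hwd : ∀ i j k l : ℕ, x ^ i * y ^ j = x ^ k * y ^ l → X ^ i * Y ^ j = X ^ k * Y ^ l := by
    intro i j k l h
    have hyj : y ^ j = y ^ (j % 2) := pow_eq_pow_mod j hy2
    have hyl : y ^ l = y ^ (l % 2) := pow_eq_pow_mod l hy2
    have hYj : Y ^ j = Y ^ (j % 2) := pow_eq_pow_mod j hY2
    have hYl : Y ^ l = Y ^ (l % 2) := pow_eq_pow_mod l hY2
    rw [hyj, hyl] at h
    rw [hYj, hYl]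
    rcases Nat.mod_two_eq_zero_or_one j with hj | hj <;>
      rcases Nat.mod_two_eq_zero_or_one l with hl | hl <;> rw [hj, hl] at h ⊢
    · simp only [pow_zero, mul_one] at h ⊢
      exact hxx _ _ h
    · exfalso
      apply hyx
      simp only [pow_zero, mul_one, pow_one] at h
      have h1 : y = (x ^ k)⁻¹ * x ^ i := by rw [h]; group
      rw [h1]
      exact Subgroup.mul_mem _ (Subgroup.inv_mem _ (hpowmem k)) (hpowmem i)
    · exfalso
      apply hyx
      simp only [pow_zero, mul_one, pow_one] at h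
      have h1 : y = (x ^ i)⁻¹ * x ^ k := by rw [← h]; group
      rw [h1]
      exact Subgroup.mul_mem _ (Subgroup.inv_mem _ (hpowmem i)) (hpowmem k)
    · simp only [pow_one] at h ⊢
      rw [hxx _ _ (mul_right_cancel h)]
  have hf₀ : ∀ i j : ℕ,
      X ^ (Classical.choose (hsurj (x ^ i * y ^ j))).1 *
        Y ^ (Classical.choose (hsurj (x ^ i * y ^ j))).2 = X ^ i * Y ^ j := by
    intro i j
    exact hwd _ _ _ _ (Classical.choose_spec (hsurj (x ^ i * y ^ j)))
  have hmul : ∀ s t : S,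
      X ^ (Classical.choose (hsurj (s * t))).1 * Y ^ (Classical.choose (hsurj (s * t))).2 =
        X ^ (Classical.choose (hsurj s)).1 * Y ^ (Classical.choose (hsurj s)).2 *
          (X ^ (Classical.choose (hsurj t)).1 * Y ^ (Classical.choose (hsurj t)).2) := by
    intro s t
    obtain ⟨⟨i, j⟩, rfl⟩ := hsurj s
    obtain ⟨⟨k, l⟩, rfl⟩ := hsurj t
    show X ^ (Classical.choose (hsurj (x ^ i * y ^ j * (x ^ k * y ^ l)))).1 *
        Y ^ (Classical.choose (hsurj (x ^ i * y ^ j * (x ^ k * y ^ l)))).2 =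
      X ^ (Classical.choose (hsurj (x ^ i * y ^ j))).1 *
          Y ^ (Classical.choose (hsurj (x ^ i * y ^ j))).2 *
        (X ^ (Classical.choose (hsurj (x ^ k * y ^ l))).1 *
          Y ^ (Classical.choose (hsurj (x ^ k * y ^ l))).2)
    rw [hf₀ i j, hf₀ k l, rel_mul hRel, ← hf₀ (i + k * e ^ j) (j + l), rel_mul hrel]
  have hfx : X ^ (Classical.choose (hsurj x)).1 * Y ^ (Classical.choose (hsurj x)).2 = X := by
    have h1 := hf₀ 1 0
    simp only [pow_one, pow_zero, mul_one] at h1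
    exact h1
  have hfy : X ^ (Classical.choose (hsurj y)).1 * Y ^ (Classical.choose (hsurj y)).2 = Y := by
    have h1 := hf₀ 0 1
    simp only [pow_one, pow_zero, one_mul] at h1
    exact h1
  refine ⟨MonoidHom.mk' (fun s => X ^ (Classical.choose (hsurj s)).1 *
    Y ^ (Classical.choose (hsurj s)).2) hmul, hfx, hfy, ?_, ?_⟩
  · apply le_antisymm
    · rintro _ ⟨s, rfl⟩
      exact Subgroup.mul_mem _
        (Subgroup.pow_mem _ (Subgroup.subset_closure (by simp)) _)
        (Subgroup.pow_mem _ (Subgroup.subset_closure (by simp)) _)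
    · rw [Subgroup.closure_le]
      rintro z (rfl | rfl)
      · exact ⟨x, hfx⟩
      · exact ⟨y, hfy⟩
  · intro hXo hYX
    rw [injective_iff_map_eq_one]
    intro s hs
    obtain ⟨⟨i, j⟩, rfl⟩ := hsurj s
    have hs' : X ^ i * Y ^ j = 1 := by
      rw [← hf₀]
      exact hs
    have hYj : Y ^ j = Y ^ (j % 2) := pow_eq_pow_mod j hY2
    have hyj : y ^ j = y ^ (j % 2) := pow_eq_pow_mod j hy2
    rcases Nat.mod_two_eq_zero_or_one j with hj | hj
    · rw [hYj, hj, pow_zero, mul_one] at hs'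
      have h1 : m ∣ i := by
        rw [← hXo]
        exact orderOf_dvd_of_pow_eq_one hs'
      show x ^ i * y ^ j = 1
      rw [hyj, hj, pow_zero, mul_one]
      rw [← hx] at h1
      exact orderOf_dvd_iff_pow_eq_one.mp h1
    · exfalso
      apply hYX
      rw [hYj, hj, pow_one] at hs'
      have h1 : Y = (X ^ i)⁻¹ := eq_inv_of_mul_eq_one_right hs'
      rw [h1]
      exact Subgroup.inv_mem _ (Subgroup.pow_mem _ (Subgroup.mem_zpowers X) _)

end Cfsg.Agent.Lib.Helper31.SSol
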