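import Mathlib

/-!
# Project TG (S2197, helper99), piece TG-DEG

The degree of a faithful 2-transitive action of a group of order `17971200` with a Sylow
2-subgroup `S` of order `2048` all of whose subgroups of order at least `128` contain a fixed
nonidentity element is `40` or `65`.
-/

set_option autoImplicit false

namespace Cfsg.Agent.Lib.Helper99.TG

theorem tgdeg_arith_aux : ∀ a < 67, ∀ b < 64, 32 ≤ 64 * a + b →
    (64 * a + b) * (64 * a + b - 1) ∣ 17971200 → 64 * a + b = 40 ∨ 64 * a + b = 65 := by
  decide +kernel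

theorem tgdeg_arith : ∀ n < 4241, 32 ≤ n → n * (n - 1) ∣ 17971200 → n = 40 ∨ n = 65 := by
  intro n hn h32 hd
  have h := tgdeg_arith_aux (n / 64) (by omega) (n % 64) (Nat.mod_lt _ (by norm_num))
  have e : 64 * (n / 64) + n % 64 = n := Nat.div_add_mod n 64
  rw [e] at h
  exact h h32 hd

theorem tgdeg_card_dvd (G : Type*) [Group G] [Finite G] (X : Type*) [MulAction G X]
    [MulAction.IsPretransitive G X] [Nonempty X] : Nat.card X ∣ Nat.card G := by
  obtain ⟨x⟩ := ‹Nonempty X›
  rw [← MulAction.index_stabilizer_of_transitive G x]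
  exact Subgroup.index_dvd_card _

set_option linter.unusedVariables false in
theorem tg_degree {G : Type*} [Group G] [Finite G] {Ω : Type*} [Fintype Ω] [MulAction G Ω]
    [FaithfulSMul G Ω] (hΩ : 3 ≤ Fintype.card Ω) (h2 : MulAction.IsMultiplyPretransitive G Ω 2)
    (hG : Nat.card G = 17971200) (S : Subgroup G) (z : G) (hS : Nat.card S = 2048)
    (hzS : z ∈ S) (hz1 : z ≠ 1)
    (hc : ∀ K : Subgroup G, K ≤ S → 128 ≤ Nat.card K → z ∈ K) :
    Fintype.card Ω = 40 ∨ Fintype.card Ω = 65 := by
  classical
  -- (1) `n * (n - 1)` divides the order of `G`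
  have hdvd : Fintype.card Ω * (Fintype.card Ω - 1) ∣ 17971200 := by
    have hne : Nonempty (Fin 2 ↪ Ω) :=
      Function.Embedding.nonempty_of_card_le (by rw [Fintype.card_fin]; omega)
    have hpre : MulAction.IsPretransitive G (Fin 2 ↪ Ω) := h2
    have h := tgdeg_card_dvd G (Fin 2 ↪ Ω)
    rw [hG, Nat.card_eq_fintype_card, Fintype.card_embedding_eq, Fintype.card_fin] at h
    have h3 : (Fintype.card Ω).descFactorial 2 = Fintype.card Ω * (Fintype.card Ω - 1) := by
      rw [Nat.descFactorial_succ, Nat.descFactorial_succ, Nat.descFactorial_zero]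
      simp [mul_comm]
    rwa [h3] at h
  -- (2) an orbit of `S` of length at least 32
  have h32 : 32 ≤ Fintype.card Ω := by
    obtain ⟨ω, hω⟩ : ∃ ω : Ω, z • ω ≠ ω := by
      by_contra hcon
      push Not at hcon
      exact hz1 (FaithfulSMul.eq_of_smul_eq_smul (α := Ω)
        (fun a => by rw [one_smul]; exact hcon a))
    let K : Subgroup G := S ⊓ MulAction.stabilizer G ω
    have hzK : z ∉ K := fun h => hω (MulAction.mem_stabilizer_iff.1 (Subgroup.mem_inf.1 h).2)
    have hKle : K ≤ S := inf_le_left
    have hK128 : Nat.card K < 128 := by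
      by_contra hcon
      exact hzK (hc K hKle (not_lt.1 hcon))
    have hKdvd : Nat.card K ∣ 2048 := by rw [← hS]; exact Subgroup.card_dvd_of_le hKle
    have hidx : Nat.card K * K.relIndex S = 2048 := by
      have h1 := Subgroup.relIndex_mul_relIndex (⊥ : Subgroup G) K S bot_le hKle
      rw [Subgroup.relIndex_bot_left, Subgroup.relIndex_bot_left, hS] at h1
      exact h1
    have hrel : 32 ≤ K.relIndex S := by
      have h2048 : (2048 : ℕ) = 2 ^ 11 := by norm_num
      rw [h2048] at hKdvd
      obtain ⟨j, hj, hjeq⟩ := (Nat.dvd_prime_pow Nat.prime_two).1 hKdvd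
      rw [hjeq] at hidx hK128
      interval_cases j <;> omega
    have hstab : MulAction.stabilizer ↥S ω = K.subgroupOf S := by
      ext x
      rw [MulAction.mem_stabilizer_iff, Subgroup.mem_subgroupOf, Subgroup.mem_inf]
      constructor
      · intro h
        exact ⟨x.2, MulAction.mem_stabilizer_iff.2 h⟩
      · intro h
        exact MulAction.mem_stabilizer_iff.1 h.2
    have horb : (MulAction.orbit ↥S ω).ncard = K.relIndex S := by
      rw [← MulAction.index_stabilizer, hstab]; rfl
    have hle : (MulAction.orbit ↥S ω).ncard ≤ Nat.card Ω := Set.ncard_le_card _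
    rw [Nat.card_eq_fintype_card] at hle
    omega
  -- (3) arithmetic
  have hlt : Fintype.card Ω < 4241 := by
    by_contra hcon
    push Not at hcon
    have h1 := Nat.le_of_dvd (by norm_num) hdvd
    have h3 : 4241 * 4240 ≤ Fintype.card Ω * (Fintype.card Ω - 1) :=
      Nat.mul_le_mul hcon (by omega)
    omega
  exact tgdeg_arith _ hlt h32 hdvd

end Cfsg.Agent.Lib.Helper99.TG
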