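import Mathlib
import Cfsg.Prelude.Def_Classical
import Cfsg.Agent.Lib.Helper18.UEDefs
import Cfsg.Agent.Lib.Helper18.Unitary

/-!
# S2335 (project UE, helper18), piece UE-CHARFORM

Every complex character of the additive group of Hermitian matrices has the shape
`S ↦ ψ₀ (trace (S * K))` with `K` Hermitian.
-/

set_option autoImplicit false

namespace Cfsg.Agent.Lib.Helper18.UE

open Matrix

universe u

variable {F : Type u} [Field F] {m : ℕ}

/-- the Hermitian retraction -/
def charformTheta (σ : F →+* F) (η : F) (X : Matrix (Fin m) (Fin m) F) :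
    Matrix (Fin m) (Fin m) F :=
  Matrix.of fun i j => if i < j then X i j else if j < i then σ (X j i)
    else η * X i i + σ (η * X i i)

theorem charformTheta_apply (σ : F →+* F) (η : F) (X : Matrix (Fin m) (Fin m) F) (i j : Fin m) :
    charformTheta σ η X i j = if i < j then X i j else if j < i then σ (X j i)
      else η * X i i + σ (η * X i i) := rfl

theorem charformTheta_add (σ : F →+* F) (η : F) (X Y : Matrix (Fin m) (Fin m) F) :
    charformTheta σ η (X + Y) = charformTheta σ η X + charformTheta σ η Y := by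
  ext i j
  rw [Matrix.add_apply, charformTheta_apply, charformTheta_apply, charformTheta_apply]
  by_cases h1 : i < j
  · simp only [if_pos h1, Matrix.add_apply]
  · by_cases h2 : j < i
    · simp only [if_neg h1, if_pos h2, Matrix.add_apply, map_add]
    · simp only [if_neg h1, if_neg h2, Matrix.add_apply, map_add, mul_add]
      ring

theorem charformTheta_zero (σ : F →+* F) (η : F) :
    charformTheta σ η (0 : Matrix (Fin m) (Fin m) F) = 0 := by
  ext i j
  simp [charformTheta_apply]

theorem charformTheta_isHerm (σ : F →+* F) (hσσ : ∀ x, σ (σ x) = x) (η : F)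
    (X : Matrix (Fin m) (Fin m) F) : IsHerm σ (charformTheta σ η X) := by
  show hconj σ (charformTheta σ η X) = charformTheta σ η X
  ext i j
  rw [hconj_apply, charformTheta_apply, charformTheta_apply]
  by_cases h1 : i < j
  · have h2 : ¬ j < i := not_lt.2 h1.le
    simp only [if_pos h1, if_neg h2, hσσ]
  · by_cases h2 : j < i
    · simp only [if_neg h1, if_pos h2]
    · have hij : i = j := le_antisymm (not_lt.1 h2) (not_lt.1 h1)
      subst hij
      simp only [if_neg h1, map_add, hσσ]
      ring

theorem charformTheta_of_isHerm (σ : F →+* F) (η : F) (hη : η + σ η = 1)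
    {S : Matrix (Fin m) (Fin m) F} (hS : IsHerm σ S) : charformTheta σ η S = S := by
  have hS' : ∀ i j, σ (S j i) = S i j := by
    intro i j
    have h := congrFun (congrFun hS i) j
    rw [hconj_apply] at h
    exact h
  ext i j
  rw [charformTheta_apply]
  by_cases h1 : i < j
  · simp only [if_pos h1]
  · by_cases h2 : j < i
    · simp only [if_neg h1, if_pos h2, hS']
    · have hij : i = j := le_antisymm (not_lt.1 h2) (not_lt.1 h1)
      subst hij
      simp only [if_neg h1, map_mul, hS']
      linear_combination S i i * hη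

theorem charform_map_sum {A : Type*} [AddCommMonoid A] {ι : Type*} (φ : AddChar A ℂ)
    (s : Finset ι) (f : ι → A) : φ (∑ i ∈ s, f i) = ∏ i ∈ s, φ (f i) := by
  classical
  induction s using Finset.induction_on with
  | empty => simp
  | insert a s ha ih =>
    rw [Finset.sum_insert ha, Finset.prod_insert ha, AddChar.map_add_eq_mul, ih]

-- piece CHARFORM
theorem herm_char_form [Fintype F] {q : ℕ} (hF : Fintype.card F = q ^ 2) (σ : F →+* F)
    (hσ : ∀ x, σ x = x ^ q) (ψ₀ : AddChar F ℂ)
    (hψ : ∀ φ : AddChar F ℂ, ∃ a : F, ∀ y : F, φ y = ψ₀ (a * y + (a * y) ^ q))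
    (χ : Matrix (Fin m) (Fin m) F → ℂ) (h0 : χ 0 = 1)
    (hadd : ∀ S T : Matrix (Fin m) (Fin m) F, IsHerm σ S → IsHerm σ T →
      χ (S + T) = χ S * χ T) :
    ∃ K : Matrix (Fin m) (Fin m) F, IsHerm σ K ∧
      ∀ S : Matrix (Fin m) (Fin m) F, IsHerm σ S → χ S = ψ₀ (trace (S * K)) := by
  have hσσ : ∀ x, σ (σ x) = x := by
    intro x
    rw [hσ, hσ, ← pow_mul, ← pow_two, ← hF, FiniteField.pow_card]
  obtain ⟨η, hη'⟩ := Cfsg.Agent.Lib.Helper18.exists_trace_one hF
  have hη : η + σ η = 1 := by rw [hσ]; exact hη'
  -- the character of all matrices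
  let Φ : AddChar (Matrix (Fin m) (Fin m) F) ℂ :=
    { toFun := fun X => χ (charformTheta σ η X)
      map_zero_eq_one' := by rw [charformTheta_zero]; exact h0
      map_add_eq_mul' := fun X Y => by
        rw [charformTheta_add]
        exact hadd _ _ (charformTheta_isHerm σ hσσ η X) (charformTheta_isHerm σ hσσ η Y) }
  have hΦ : ∀ X, Φ X = χ (charformTheta σ η X) := fun X => rfl
  -- its restriction to each coordinate
  have hcoord : ∀ i j : Fin m, ∃ c : F, ∀ x : F,
      Φ (Matrix.single i j x) = ψ₀ (c * x + σ (c * x)) := by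
    intro i j
    let φ : AddChar F ℂ :=
      { toFun := fun x => Φ (Matrix.single i j x)
        map_zero_eq_one' := by
          rw [Matrix.single_zero]
          exact Φ.map_zero_eq_one
        map_add_eq_mul' := fun x y => by
          rw [Matrix.single_add]
          exact Φ.map_add_eq_mul _ _ }
    obtain ⟨c, hc⟩ := hψ φ
    refine ⟨c, fun x => ?_⟩
    rw [hσ]
    exact hc x
  choose a ha using hcoord
  let M : Matrix (Fin m) (Fin m) F := Matrix.of fun j i => a i j
  have hM : ∀ i j, M i j = a j i := fun i j => rfl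
  have hK : IsHerm σ (M + hconj σ M) := by
    show hconj σ (M + hconj σ M) = M + hconj σ M
    rw [hconj_add, hconj_hconj σ hσσ, add_comm]
  refine ⟨M + hconj σ M, hK, ?_⟩
  intro S hS
  have hS' : ∀ i j, σ (S j i) = S i j := by
    intro i j
    have h := congrFun (congrFun hS i) j
    rw [hconj_apply] at h
    exact h
  have h1 : χ S = Φ S := by rw [hΦ, charformTheta_of_isHerm σ η hη hS]
  rw [h1]
  conv_lhs => rw [Matrix.matrix_eq_sum_single S]
  rw [charform_map_sum]
  have h2 : ∀ i : Fin m, Φ (∑ j, Matrix.single i j (S i j)) =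
      ψ₀ (∑ j, (a i j * S i j + σ (a i j * S i j))) := by
    intro i
    rw [charform_map_sum, charform_map_sum]
    exact Finset.prod_congr rfl fun j _ => ha i j (S i j)
  rw [Finset.prod_congr rfl fun i _ => h2 i, ← charform_map_sum]
  congr 1
  rw [Matrix.mul_add, Matrix.trace_add]
  have e1 : trace (S * M) = ∑ i, ∑ j, a i j * S i j := by
    rw [Matrix.trace]
    refine Finset.sum_congr rfl fun i _ => ?_
    rw [Matrix.diag_apply, Matrix.mul_apply]
    refine Finset.sum_congr rfl fun j _ => ?_
    rw [hM, mul_comm]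
  have e2 : trace (S * hconj σ M) = ∑ i, ∑ j, σ (a i j * S i j) := by
    have e3 : trace (S * hconj σ M) = ∑ i, ∑ j, σ (a j i * S j i) := by
      rw [Matrix.trace]
      refine Finset.sum_congr rfl fun i _ => ?_
      rw [Matrix.diag_apply, Matrix.mul_apply]
      refine Finset.sum_congr rfl fun j _ => ?_
      rw [hconj_apply, hM, map_mul, hS' i j, mul_comm]
    rw [e3, Finset.sum_comm]
  rw [e1, e2, ← Finset.sum_add_distrib]
  refine Finset.sum_congr rfl fun i _ => ?_
  rw [← Finset.sum_add_distrib]

end Cfsg.Agent.Lib.Helper18.UE
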